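import Cfsg.Agent.H53.UwDefs

/-!
# Project UW: the values on the quadratic unipotent elements
-/

set_option autoImplicit false

namespace Cfsg.Agent.H8.UwRk

open Module Cfsg.Agent.H31 Cfsg.Agent.H53.Uw

universe u

variable {E V : Type u} [Field E] [AddCommGroup V] [Module E V] {σ : E →+* E}
  {B : V →ₛₗ[σ] V →ₗ[E] E} {X : Submodule E V}

variable (B X) in
/-- The stabilizer of `X`. -/
def NX : Subgroup (isom B) where
  carrier := {h | ∀ x, h.1 x ∈ X ↔ x ∈ X}
  mul_mem' {a b} ha hb x := (ha (b.1 x)).trans (hb x)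
  one_mem' _ := Iff.rfl
  inv_mem' {a} ha x := by
    rw [← ha]
    change a.1 (a.1⁻¹ x) ∈ X ↔ _
    rw [apply_inv_apply]

variable (B) in
/-- The characters of rank at most one. -/
noncomputable def lam (ψ : AddChar E ℂ) (z : isom B) (y : V) : ℂ := ψ (B y (z.1 y - y))

theorem perp_mem {h : isom B} (hh : h ∈ NX B X) {v : V} (hv : v ∈ perp B X) : h.1 v ∈ perp B X :=
  fun x hx => by
    rw [isom_adj' h.2]
    exact hv _ ((inv_mem hh x).2 hx)

theorem conj_mem {h z : isom B} (hh : h ∈ NX B X) (hz : z ∈ CX B X) : h⁻¹ * z * h ∈ CX B X :=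
  fun v hv => by
    change h.1⁻¹ (z.1 (h.1 v)) = v
    rw [mem_CX.1 hz _ (perp_mem hh hv), inv_apply_apply]

theorem lam_conj (ψ : AddChar E ℂ) (h z : isom B) (y : V) :
    lam B ψ (h⁻¹ * z * h) y = lam B ψ z (h.1 y) := by
  unfold lam
  rw [← h.2 y, map_sub h.1]
  change ψ (B _ (h.1 (h.1⁻¹ (z.1 (h.1 y))) - _)) = _
  rw [apply_inv_apply]

variable [FiniteDimensional E V] (hB : IsHerm B)
include hB

theorem lam_add (ψ : AddChar E ℂ) {z : isom B} (hz : z ∈ CX B X) (y : V) {w : V}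
    (hw : w ∈ perp B X) : lam B ψ z (y + w) = lam B ψ z y := by
  unfold lam
  rw [map_add z.1, mem_CX.1 hz w hw, add_sub_add_right_eq_sub, add_left,
    hB.mem_perp'.1 hw _ (sub_mem_of_CX hB hz y), add_zero]

theorem trans (hX : TotIso B X) {y y' : V} (hy : y ∉ perp B X) (hy' : y' ∉ perp B X) :
    ∃ h ∈ NX B X, h.1 y - y' ∈ perp B X := by
  rw [hB.mem_perp'] at hy hy'
  push Not at hy hy'
  obtain ⟨u0, hu0, h1, h2⟩ := exists_mem_ne_zero_ne_zero (map_add (B y)) (map_add (B y')) hy hy'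
  obtain ⟨u, hu, h3, h4⟩ : ∃ u ∈ X, B y u ≠ 0 ∧ B y' u = 1 :=
    ⟨(B y' u0)⁻¹ • u0, X.smul_mem _ hu0, by rw [smul_right]; exact mul_ne_zero (inv_ne_zero h2) h1,
      by rw [smul_right, inv_mul_cancel₀ h2]⟩
  let t : X →ₗ[E] V := X.subtype + ((B y - B y').smulRight u).comp X.subtype
  have ht : ∀ x : X, t x = x + (B y x - B y' x) • u := fun _ => rfl
  have hm : ∀ x, t x ∈ X := fun x => X.add_mem x.2 (X.smul_mem _ hu)
  have hf : ∀ x : X, B y' (t x) = B y x := fun x => by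
    rw [ht, map_add, smul_right, h4, mul_one, add_sub_cancel]
  obtain ⟨g, hg, e⟩ := hB.witt t ((injective_iff_map_eq_zero t).2 fun x hx => by
    have e1 := hf x
    have e2 := congrArg (B y) hx
    rw [hx, map_zero] at e1
    rw [ht, map_add, smul_right, ← e1, map_zero, zero_add, zero_sub, mul_eq_zero, neg_eq_zero] at e2
    rw [ht, ← e1, e2.resolve_right h3, sub_self, zero_smul, add_zero] at hx
    exact Subtype.ext hx) fun x x' => by rw [hX _ (hm x) _ (hm x'), hX _ x.2 _ x'.2]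
  have e1 : X.map (g : V →ₗ[E] V) = X := Submodule.eq_of_le_of_finrank_eq (by
    rintro _ ⟨x, hx, rfl⟩
    exact (e ⟨x, hx⟩).symm ▸ hm _) (g.finrank_map_eq X)
  refine ⟨⟨g, hg⟩, fun x => ⟨fun hx => ?_, fun hx => e1.le ⟨x, hx, rfl⟩⟩, hB.mem_perp'.2 fun x hx => ?_⟩
  · obtain ⟨x', hx', e2⟩ := e1.ge hx
    rwa [← g.injective e2]
  · obtain ⟨x', hx', rfl⟩ := e1.ge hx
    change B (g y - y') (g x') = 0
    rw [sub_left, hg, e ⟨x', hx'⟩, hf, sub_self]

theorem sum_eq [Fintype (NX B X)] (hX : TotIso B X) (ψ : AddChar E ℂ) {z : isom B}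
    (hz : z ∈ CX B X) {y y' : V} (hy : y ∉ perp B X) (hy' : y' ∉ perp B X) :
    ∑ h : NX B X, lam B ψ z (h.1.1 y) = ∑ h : NX B X, lam B ψ z (h.1.1 y') := by
  obtain ⟨k, hk, e⟩ := trans hB hX hy hy'
  refine (Fintype.sum_equiv (Equiv.mulRight (⟨k, hk⟩ : NX B X)) _ _ fun h => ?_).symm
  change _ = lam B ψ z (h.1.1 (k.1 y))
  rw [← add_sub_cancel y' (k.1 y), map_add, lam_add hB ψ hz _ (perp_mem h.2 e)]

open Classical in
theorem sum_sum [Fintype (NX B X)] (hX : TotIso B X) (ψ : AddChar E ℂ) {z : isom B}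
    (hz : z ∈ CX B X) {y0 : V} (h0 : y0 ∉ perp B X ∨ perp B X = ⊤) {ι : Type*} [Fintype ι]
    (y : ι → V) : ∑ h : NX B X, ∑ i, lam B ψ z (h.1.1 (y i)) =
      (Finset.univ.filter fun i => y i ∈ perp B X).card * (Fintype.card (NX B X) : ℂ) +
      (Finset.univ.filter fun i => ¬ y i ∈ perp B X).card *
        ∑ h : NX B X, lam B ψ z (h.1.1 y0) := by
  rw [Finset.sum_comm, ← nsmul_eq_mul, ← nsmul_eq_mul, ← Finset.sum_const, ← Finset.sum_const,
    ← Finset.sum_ite]
  refine Finset.sum_congr rfl fun i _ => ?_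
  split_ifs with h
  · rw [Finset.sum_congr rfl fun k _ => show _ = (1 : ℂ) by
      rw [lam, mem_CX.1 hz _ (perp_mem k.2 h), sub_self, map_zero, AddChar.map_zero_eq_one]]
    simp
  · exact sum_eq hB hX ψ hz h (h0.resolve_right fun e => h (e ▸ trivial))

omit hB [FiniteDimensional E V] in
theorem sum_lam [Fintype E] [Fintype V] {q : ℕ} (gauss : GaussStmt.{u}) (gen : GenStmt.{u})
    (h : St B q) (hX : TotIso B X) {ψ : AddChar E ℂ} (hψ : Sk σ ψ) {z : isom B}
    (hz : z ∈ CX B X) : ∑ y, lam B ψ z y = (q : ℂ) ^ finrank E V * om B q z := by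
  have e1 : ∀ v, z.1⁻¹ v - v = -(z.1 v - v) := fun v => by
    have := (gen E V σ B q h X hX).2.1 z hz z⁻¹ (inv_mem hz) v
    rw [mul_inv_cancel] at this
    exact eq_neg_of_add_eq_zero_right (this.symm.trans (sub_self v))
  let γ : V →ₛₗ[σ] V →ₗ[E] E := B.compl₂ ((z.1 : V →ₗ[E] V) - LinearMap.id)
  have hγ : ∀ x y, γ x y = B x (z.1 y - y) := fun _ _ => rfl
  have e2 : ∀ x y, γ x y = -B (z.1 x - x) y := fun x y => by
    rw [hγ, map_sub, isom_adj' z.2, ← sub_left, e1, neg_left]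
  have e3 : LinearMap.ker γ = fx z.1 := by
    ext x
    rw [LinearMap.mem_ker, mem_fx, ← sub_eq_zero (a := z.1 x)]
    refine ⟨fun k => h.herm.nondeg _ fun y => ?_, fun k => LinearMap.ext fun y => ?_⟩
    · rw [← neg_eq_zero, ← e2, k, LinearMap.zero_apply]
    · rw [e2, k, zero_left, neg_zero, LinearMap.zero_apply]
  have := gauss E V σ q ψ γ h.card h.pow hψ fun x y => by rw [hγ, h.herm.symm, e2, neg_neg]
  rw [finsum_eq_sum_of_fintype, e3] at this
  rw [om, ← mul_assoc, ← mul_pow, mul_neg_one, ← pow_add, ← this]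
  rfl

omit hB [FiniteDimensional E V] in
/-- **RK** -/
theorem rk (rk1 : Rk1Stmt.{u}) (r5 : R5Stmt.{u}) (gauss : GaussStmt.{u}) (gen : GenStmt.{u})
    (kit : KitStmt.{u}) : RkStmt.{u} := by
  classical
  intro E V _ _ _ _ _ σ B q h hodd M _ _ _ ρ hρ X hX
  have : Module.Finite E V := Module.Finite.of_finite
  have := Fintype.ofFinite V
  have := Fintype.ofFinite (NX B X)
  obtain ⟨ψ, hψ⟩ := (kit E V σ B q h).1
  obtain ⟨d, l, h1, h2⟩ := r5 _ M ρ (CX B X) fun a ha b hb => isom_ext fun v => by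
    have g := (gen E V σ B q h X hX).2.1
    rw [← sub_left_inj (a := v), g a ha b hb, g b hb a ha, add_comm]
  choose y hy using fun i => rk1 E V σ B q h hodd M ρ ψ X (l i) hρ hψ hX (h1 i)
  have n0 : (Fintype.card (NX B X) : ℂ) ≠ 0 := Nat.cast_ne_zero.2 Fintype.card_ne_zero
  have e1 : ∀ z ∈ CX B X, ∑ k : NX B X, ∑ i, lam B ψ z (k.1.1 (y i)) =
      Fintype.card (NX B X) * ρ.character z := fun z hz => by
    rw [← nsmul_eq_mul, ← Finset.card_univ, ← Finset.sum_const]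
    refine Finset.sum_congr rfl fun k _ => ?_
    have := ρ.char_conj z k.1⁻¹
    rw [inv_inv, h2 _ (conj_mem k.2 hz)] at this
    rw [← this]
    exact Finset.sum_congr rfl fun i _ => by rw [hy i _ (conj_mem k.2 hz), ← lam_conj, lam]
  by_cases h0 : perp B X = ⊤
  · refine ⟨0, (Finset.univ.filter fun i => y i ∈ perp B X).card, fun z hz => ?_⟩
    have := sum_sum h.herm hX ψ hz (y0 := 0) (.inr h0) y
    rw [e1 z hz, Finset.filter_false_of_mem (p := fun i => ¬ y i ∈ perp B X)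
      fun i _ k => k (h0 ▸ trivial), Finset.card_empty, Nat.cast_zero, zero_mul, add_zero,
      mul_comm] at this
    rw [zero_mul, add_zero]
    exact mul_right_cancel₀ n0 this
  obtain ⟨y0, -, h3⟩ := SetLike.not_le_iff_exists.1 fun k => h0 (top_le_iff.1 k)
  have m0 : ((Finset.univ.filter fun v : V => ¬ v ∈ perp B X).card : ℂ) ≠ 0 :=
    Nat.cast_ne_zero.2 (Finset.card_ne_zero.2 ⟨y0, by simpa using h3⟩)
  refine ⟨(Finset.univ.filter fun i => ¬ y i ∈ perp B X).card * (q : ℂ) ^ finrank E V /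
      (Finset.univ.filter fun v : V => ¬ v ∈ perp B X).card,
    (Finset.univ.filter fun i => y i ∈ perp B X).card -
      (Finset.univ.filter fun i => ¬ y i ∈ perp B X).card *
        (Finset.univ.filter fun v : V => v ∈ perp B X).card /
      (Finset.univ.filter fun v : V => ¬ v ∈ perp B X).card, fun z hz => ?_⟩
  have k1 := sum_sum h.herm hX ψ hz (.inl h3) y
  have k2 := sum_sum h.herm hX ψ hz (.inl h3) (fun v : V => v)
  rw [e1 z hz] at k1
  rw [Finset.sum_congr rfl fun k _ => (Equiv.sum_comp k.1.1.toEquiv (lam B ψ z)).trans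
    (sum_lam gauss gen h hX hψ hz), Finset.sum_const, Finset.card_univ, nsmul_eq_mul] at k2
  refine mul_left_cancel₀ n0 (mul_left_cancel₀ m0 ?_)
  rw [k1]
  field_simp
  linear_combination (-((Finset.univ.filter fun i => ¬ y i ∈ perp B X).card : ℂ)) * k2

end Cfsg.Agent.H8.UwRk
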