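import Cfsg.Agent.H77.SgDefs

/-!
# Project SG: a symmetric ternary relation with hyperplane sections comes from a trilinear form
-/

set_option autoImplicit false

namespace Cfsg.Agent.H8.SgTri

open Cfsg Cfsg.Agent.H77.Sg Module

universe u v

variable {F : Type u} {V : Type v} [Field F] [AddCommGroup V] [Module F V]

section
variable {M : Type*} [AddCommGroup M] [Module F M] {Y : V → Prop} {v : V}

theorem ext_on (hv : Y v) (hY : ∀ z, ¬ Y z → Y (z + v)) {g h : V →ₗ[F] M}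
    (e : ∀ w, Y w → g w = h w) : g = h := by
  ext z
  by_cases hz : Y z
  · exact e z hz
  · have := e _ (hY z hz)
    rw [map_add, map_add, e v hv] at this
    exact add_right_cancel this

theorem extend (hv : Y v) (hY : ∀ z, ¬ Y z → Y (z + v)) (n : V → V →ₗ[F] M)
    (hs : ∀ y z, Y y → Y z → n y z = - n z y) (ha : ∀ y, Y y → n y y = 0) :
    ∃ B : V →ₗ[F] V →ₗ[F] M, (∀ y, Y y → B y = n y) ∧ (∀ z w, B z w = - B w z) ∧
      ∀ z, B z z = 0 := by
  classical
  let b : V → V →ₗ[F] M := fun z => if Y z then n z else n (z + v) - n v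
  have key : ∀ z w, Y w → b z w = - n w z := fun z w hw => by
    by_cases hz : Y z
    · simp only [b, if_pos hz]; exact hs z w hz hw
    · simp only [b, if_neg hz, LinearMap.sub_apply]
      rw [hs _ w (hY z hz) hw, hs v w hv hw, map_add]; abel
  let B : V →ₗ[F] V →ₗ[F] M :=
    { toFun := b
      map_add' := fun x y => ext_on hv hY fun w hw => by
        rw [LinearMap.add_apply, key _ w hw, key _ w hw, key _ w hw, map_add, neg_add]
      map_smul' := fun c x => ext_on hv hY fun w hw => by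
        rw [LinearMap.smul_apply, key _ w hw, key _ w hw, map_smul, RingHom.id_apply, smul_neg] }
  have h1 : ∀ y, Y y → B y = n y := fun y hy => if_pos hy
  have h2 : ∀ z w, B z w = - B w z := fun z w => by
    have : B z = - B.flip z := ext_on hv hY fun w hw => by
      rw [LinearMap.neg_apply, LinearMap.flip_apply, h1 w hw]; exact key z w hw
    rw [this]; rfl
  refine ⟨B, h1, h2, fun z => ?_⟩
  by_cases hz : Y z
  · rw [h1 z hz, ha z hz]
  · have e : B (z + v) (z + v) = 0 := by rw [h1 _ (hY z hz), ha _ (hY z hz)]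
    have e' : B v v = 0 := by rw [h1 v hv, ha v hv]
    simp only [map_add, LinearMap.add_apply] at e
    rw [h2 v z, e'] at e
    simpa using e

end

theorem eq_of_ker {α β : V →ₗ[F] F} (h : ∀ z, α z = 0 → β z = 0) {a : V} (e : α a = β a)
    (h0 : α a ≠ 0) : α = β := by
  ext z
  have := h (z - (α z / α a) • a) (by rw [map_sub, map_smul, smul_eq_mul]; field_simp; ring)
  rw [map_sub, map_smul, smul_eq_mul, ← e, div_mul_cancel₀ _ h0, sub_eq_zero] at this
  exact this.symm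

theorem ker_aux {φ α β : V →ₗ[F] F} (h : ∀ w, φ w ≠ 0 → β w = 0 → α w = 0) {z : V}
    (hz : φ z = 0) (h1 : α z = 0) (h2 : β z ≠ 0) (w : V) (hw : φ w ≠ 0) : α w = 0 := by
  have := h (w - (β w / β z) • z) (by simpa [hz] using hw)
    (by rw [map_sub, map_smul, smul_eq_mul]; field_simp; ring)
  simpa [h1] using this

/-- A symplectic polarity comes from an alternating form. -/
theorem polar (P : V → V → Prop) (R : V → Prop) (sym : ∀ y z, P y z → P z y) (rf : ∀ y, P y y)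
    (hR : ∀ y z, R y → P y z)
    (hφ : ∀ y, ¬ R y → ∃ φ : V →ₗ[F] F, φ ≠ 0 ∧ ∀ z, P y z ↔ φ z = 0) {y₀ : V} (h₀ : ¬ R y₀) :
    ∃ β : V →ₗ[F] V →ₗ[F] F, (∀ y, β y y = 0) ∧ (∀ y z, β y z = - β z y) ∧
      ∀ y z, P y z ↔ β y z = 0 := by
  obtain ⟨φ, hφ0, hφk⟩ := hφ y₀ h₀
  obtain ⟨v, hv⟩ : ∃ v, φ v ≠ 0 := by
    by_contra! k
    exact hφ0 (LinearMap.ext k)
  have hY : ∀ z, ¬ φ z ≠ 0 → φ (z + v) ≠ 0 := fun z hz => by
    rwa [map_add, not_not.1 hz, zero_add]
  have hn : ∀ y, ∃ ψ : V →ₗ[F] F, φ y ≠ 0 → (∀ z, P y z ↔ ψ z = 0) ∧ ψ y₀ = - φ y := fun y => by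
    by_cases hy : φ y ≠ 0
    · have h1 : ¬ P y y₀ := fun k => hy ((hφk y).1 (sym _ _ k))
      obtain ⟨ψ, -, hψ⟩ := hφ y fun k => h1 (hR _ _ k)
      have h2 : ψ y₀ ≠ 0 := fun k => h1 ((hψ _).2 k)
      refine ⟨(- φ y / ψ y₀) • ψ, fun _ => ⟨fun z => ?_, ?_⟩⟩
      · rw [hψ]; simp [hy, h2]
      · simp only [LinearMap.smul_apply, smul_eq_mul]; field_simp
    · exact ⟨0, fun k => absurd k hy⟩
  choose n hn using hn
  have ha : ∀ y, φ y ≠ 0 → n y y = 0 := fun y hy => ((hn y hy).1 y).1 (rf y)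
  have h00 : φ y₀ = 0 := (hφk _).1 (rf _)
  have hs : ∀ y z, φ y ≠ 0 → φ z ≠ 0 → n y z = - n z y := fun y z hy hz => by
    have h1 : P y₀ (φ z • y - φ y • z - n y z • y₀) := (hφk _).2 (by simp [h00]; ring)
    have h2 : P y (φ z • y - φ y • z - n y z • y₀) :=
      ((hn y hy).1 _).2 (by simp [ha y hy, (hn y hy).2]; ring)
    have h3 : P (φ z • y - φ y • z - n y z • y₀) z := by
      by_cases k : R (φ z • y - φ y • z - n y z • y₀)
      · exact hR _ _ k
      · obtain ⟨ψ, -, hψ⟩ := hφ _ k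
        have e1 := (hψ _).1 (sym _ _ h1)
        have e2 := (hψ _).1 (sym _ _ h2)
        have e3 := (hψ _).1 (rf _)
        simp [e1, e2, hy] at e3
        exact (hψ _).2 e3
    have h4 := ((hn z hz).1 _).1 (sym _ _ h3)
    simp only [map_sub, map_smul, smul_eq_mul, ha z hz, (hn z hz).2] at h4
    refine mul_left_cancel₀ hz ?_
    linear_combination h4
  obtain ⟨β, h1, h2, h3⟩ := extend (Y := fun y => φ y ≠ 0) hv hY n hs ha
  have h4 : ∀ y z, φ z ≠ 0 → (P y z ↔ β y z = 0) := fun y z hz => by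
    rw [h2, neg_eq_zero, h1 z hz, ← (hn z hz).1]
    exact ⟨sym _ _, sym _ _⟩
  refine ⟨β, h3, h2, fun y z => ?_⟩
  by_cases hz : φ z ≠ 0
  · exact h4 y z hz
  by_cases k : R y
  · refine iff_of_true (hR _ _ k) ?_
    rw [ext_on (Y := fun y => φ y ≠ 0) hv hY (g := β y) (h := 0)
      fun w hw => (h4 y w hw).1 (hR _ _ k)]
    rfl
  obtain ⟨ψ, hψ0, hψ⟩ := hφ y k
  have h5 : ∀ w, φ w ≠ 0 → (ψ w = 0 ↔ β y w = 0) := fun w hw => by rw [← hψ, h4 y w hw]
  rw [hψ]
  constructor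
  · intro e
    by_contra e'
    exact hψ0 (ext_on (Y := fun y => φ y ≠ 0) hv hY
      (ker_aux (fun w hw => (h5 w hw).2) (not_not.1 hz) e e'))
  · intro e
    by_contra e'
    exact hψ0 (ext_on (Y := fun y => φ y ≠ 0) hv hY fun w hw => (h5 w hw).2
      (ker_aux (fun w hw => (h5 w hw).1) (not_not.1 hz) e e' w hw))

/-- A space over a field with at least three elements is not covered by three hyperplanes. -/
theorem cover [Finite F] (h3 : 3 ≤ Nat.card F) {α β ψ : V →ₗ[F] F} {a b : V} (ha : α a ≠ 0)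
    (hb : β b ≠ 0) (h : ∀ z, α z ≠ 0 → β z ≠ 0 → ψ z = 0) (z : V) : ψ z = 0 := by
  classical
  obtain ⟨w, h1, h2⟩ : ∃ w, α w ≠ 0 ∧ β w ≠ 0 := by
    by_cases k1 : β a = 0
    · by_cases k2 : α b = 0
      · exact ⟨a + b, by simpa [k2] using ha, by simpa [k1] using hb⟩
      · exact ⟨b, k2, hb⟩
    · exact ⟨a, ha, k1⟩
  obtain ⟨c, c1, c2⟩ : ∃ c : F, c ≠ - α z / α w ∧ c ≠ - β z / β w := by
    by_contra! k
    have := Fintype.ofFinite F
    have h4 : (Finset.univ : Finset F) ⊆ {- α z / α w, - β z / β w} := fun c _ => by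
      by_cases e : c = - α z / α w
      · simp [e]
      · simp [k c e]
    have := (Finset.card_le_card h4).trans Finset.card_le_two
    rw [Finset.card_univ, ← Nat.card_eq_fintype_card] at this
    omega
  have := h (z + c • w)
    (fun e => c1 (by rw [map_add, map_smul, smul_eq_mul] at e; field_simp; linear_combination e))
    (fun e => c2 (by rw [map_add, map_smul, smul_eq_mul] at e; field_simp; linear_combination e))
  simpa [h w h1 h2] using this

theorem exists_notMem [Finite V] (h : 2 ≤ finrank F V) (x : V) : ∃ y, y ∉ F ∙ x := by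
  by_contra! k
  have h1 : (F ∙ x) = ⊤ := eq_top_iff.2 fun y _ => k y
  have h2 := finrank_span_le_card (R := F) ({x} : Set V)
  rw [h1, finrank_top] at h2
  simp at h2
  omega

theorem notMem_symm {x y : V} (hx : x ≠ 0) (h : y ∉ F ∙ x) : x ∉ F ∙ y := fun k => by
  obtain ⟨c, rfl⟩ := Submodule.mem_span_singleton.1 k
  have hc : c ≠ 0 := fun e => hx (by rw [e, zero_smul])
  exact h (Submodule.mem_span_singleton.2 ⟨c⁻¹, by rw [smul_smul, inv_mul_cancel₀ hc, one_smul]⟩)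

theorem tri : TriStmt.{u, v} := fun F V _ _ _ _ _ Z h3 h4 s1 s2 hd hφ => by
  have h2 : 2 ≤ finrank F V := by omega
  have hβ : ∀ x : V, ∃ β : V →ₗ[F] V →ₗ[F] F, (∀ y, β y y = 0) ∧ (∀ y z, β y z = - β z y) ∧
      ∀ y z, Z x y z ↔ β y z = 0 := fun x => by
    by_cases hx : x = 0
    · exact ⟨0, fun _ => rfl, fun _ _ => by simp, fun y z =>
        iff_of_true (s1 _ _ _ (hd _ _ _ (hx ▸ Submodule.zero_mem _))) rfl⟩
    obtain ⟨y₀, h₀⟩ := exists_notMem h2 x
    exact polar (Z x) (fun y => y ∈ F ∙ x) (s2 x)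
      (fun y => s2 _ _ _ (s1 _ _ _ (s2 _ _ _ (hd y y x (Submodule.mem_span_singleton_self y)))))
      (fun y z => hd x y z) (fun y => hφ x y hx) h₀
  have hne : ∀ x y, x ≠ 0 → y ∉ F ∙ x → ∃ z, ¬ Z x y z := fun x y hx hy => by
    obtain ⟨φ, h0, hk⟩ := hφ x y hx hy
    by_contra! k
    exact h0 (LinearMap.ext fun z => (hk z).1 (k z))
  obtain ⟨x₀, hx₀⟩ := exists_notMem h2 (0 : V)
  replace hx₀ : x₀ ≠ 0 := fun e => hx₀ (by rw [e]; exact Submodule.zero_mem _)
  obtain ⟨v, hv⟩ := exists_notMem h2 x₀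
  obtain ⟨b, b1, b2, b3⟩ := hβ x₀
  have hn : ∀ x : V, ∃ β : V →ₗ[F] V →ₗ[F] F, x ∉ F ∙ x₀ → (∀ y, β y y = 0) ∧
      (∀ y z, β y z = - β z y) ∧ (∀ y z, Z x y z ↔ β y z = 0) ∧ β x₀ = - b x := fun x => by
    by_cases hx : x ∉ F ∙ x₀
    · obtain ⟨β, c1, c2, c3⟩ := hβ x
      obtain ⟨a, ha⟩ := hne x₀ x hx₀ hx
      have a1 : b x a ≠ 0 := fun e => ha ((b3 _ _).2 e)
      have a2 : β x₀ a ≠ 0 := fun e => ha (s1 _ _ _ ((c3 _ _).2 e))
      refine ⟨(- b x a / β x₀ a) • β, fun _ => ⟨fun y => by simp [c1], fun y z => ?_,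
        fun y z => by simp [c3, a1, a2], eq_of_ker (a := a) (fun z hz => ?_) ?_ (by simp [a1, a2])⟩⟩
      · simp only [LinearMap.smul_apply, smul_eq_mul]; rw [c2 y z]; ring
      · have : β x₀ z = 0 := by simpa [a1, a2] using hz
        simpa using (b3 _ _).1 (s1 _ _ _ ((c3 _ _).2 this))
      · simp only [LinearMap.smul_apply, smul_eq_mul, LinearMap.neg_apply]; field_simp
    · exact ⟨0, fun k => absurd k hx⟩
  choose n hn using hn
  have hY : ∀ x y, b x y ≠ 0 → y ∉ F ∙ x₀ := fun x y h k =>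
    h ((b3 _ _).1 (s2 _ _ _ (hd _ _ _ k)))
  have k1 : ∀ x y, x ∉ F ∙ x₀ → b x y ≠ 0 → n x y = - n y x := fun x y hx h => by
    obtain ⟨-, c2, c3, c4⟩ := hn x hx
    obtain ⟨-, d2, d3, d4⟩ := hn y (hY x y h)
    have e : n x y x₀ = b x y := by rw [c2, c4]; simp
    refine eq_of_ker (a := x₀) (fun z hz => ?_) ?_ (e ▸ h)
    · simpa using (d3 _ _).1 (s1 _ _ _ ((c3 _ _).2 hz))
    · rw [e, LinearMap.neg_apply, d2, d4, b2]; simp
  have k2 : ∀ x y, x ∉ F ∙ x₀ → y ∉ F ∙ x₀ → n x y = - n y x := fun x y hx hy => by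
    obtain ⟨a, ha⟩ := hne x₀ x hx₀ hx
    obtain ⟨a', ha'⟩ := hne x₀ y hx₀ hy
    ext z
    have := cover h3 (α := b x) (β := b y) (ψ := n x y + n y x) (fun e => ha ((b3 _ _).2 e))
      (fun e => ha' ((b3 _ _).2 e)) (fun w h1 h2 => by
        rw [LinearMap.add_apply, (hn x hx).2.1, (hn y hy).2.1, k1 x w hx h1, k1 y w hy h2,
          LinearMap.neg_apply, LinearMap.neg_apply, (hn w (hY x w h1)).2.1]
        ring) z
    exact eq_neg_of_add_eq_zero_left this
  have hv' : ∀ z, ¬ z ∉ F ∙ x₀ → z + v ∉ F ∙ x₀ := fun z hz k =>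
    hv ((Submodule.add_mem_iff_right _ (not_not.1 hz)).1 k)
  obtain ⟨f, f1, f2, f3⟩ := extend (Y := fun x => x ∉ F ∙ x₀) hv hv' n k2 fun y hy => by
    ext z
    exact ((hn y hy).2.2.1 _ _).1 (hd _ _ _ (Submodule.mem_span_singleton_self y))
  have f4 : ∀ x y, x ∉ F ∙ x₀ → y ∉ F ∙ x → ∃ z, f x y z ≠ 0 := fun x y hx hy => by
    obtain ⟨z, hz⟩ := hne x y (fun e => hx (e ▸ Submodule.zero_mem _)) hy
    exact ⟨z, fun e => hz (((hn x hx).2.2.1 _ _).2 (f1 x hx ▸ e))⟩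
  refine ⟨f, fun x z => by rw [f3]; rfl, fun x y => ?_, fun x y hx hy => ?_⟩
  · have := ext_on (Y := fun x => x ∉ F ∙ x₀) hv hv' (g := (f.flip y).flip y) (h := 0)
      fun w hw => by
        change f w y y = 0
        rw [f1 w hw]; exact (hn w hw).1 y
    exact LinearMap.congr_fun this x
  · by_cases k : x ∉ F ∙ x₀
    · exact f4 x y k hy
    · obtain ⟨c, rfl⟩ := Submodule.mem_span_singleton.1 (not_not.1 k)
      have hc : c ≠ 0 := fun e => hx (by rw [e, zero_smul])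
      obtain ⟨z, hz⟩ := f4 y _ (by rwa [Submodule.span_singleton_smul_eq hc.isUnit] at hy)
        (notMem_symm hx hy)
      exact ⟨z, fun e => hz (by rw [f2, LinearMap.neg_apply, e, neg_zero])⟩

end Cfsg.Agent.H8.SgTri
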