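import Cfsg.Agent.H79.RbDefs
import Cfsg.Agent.H8.SylowIn
import Cfsg.Agent.H8.Tate
import Cfsg.Agent.S2116
import Cfsg.Agent.S0892

/-!
# `p`-subgroups of the covers of `A₅`, `A₆`, `A₇`
-/

set_option autoImplicit false

namespace Cfsg.Agent.H8.RbSmall

open Cfsg Cfsg.Agent.H79.RB Subgroup Equiv
open scoped commutatorElement Pointwise

theorem center_le {D : Type} [Group D] {p : ℕ} (hp : p.Prime) (hD : Nat.card D = p ^ 3)
    (hc : ¬ IsMulCommutative D) : Nat.card (center D) ≤ p := by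
  have : Fact p.Prime := ⟨hp⟩
  obtain ⟨k, -, e⟩ := (Nat.dvd_prime_pow hp).1 (hD ▸ card_subgroup_dvd_card (center D))
  by_contra h
  have k2 : 2 ≤ k := by
    by_contra k2
    exact h (e ▸ (Nat.pow_le_pow_right hp.pos (show k ≤ 1 by omega)).trans (pow_one p).le)
  have h1 := card_eq_card_quotient_mul_card_subgroup (center D)
  have h2 : Nat.card (D ⧸ center D) ∣ p := by
    have : Nat.card (D ⧸ center D) * p ^ 2 ∣ p * p ^ 2 := by
      rw [← pow_succ', ← hD, h1, e]
      exact mul_dvd_mul_left _ (pow_dvd_pow p k2)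
    exact Nat.dvd_of_mul_dvd_mul_right (pow_pos hp.pos 2) this
  have := isCyclic_of_card_dvd_prime h2
  exact hc ((QuotientGroup.mk' (center D)).isMulCommutative_of_isCyclic_of_ker_le_center
    (QuotientGroup.ker_mk' _).le)

variable {H : Type} [Group H] [Finite H]

theorem exists_cent [Group.IsPerfect H] {p : ℕ} [Fact p.Prime] {S : Subgroup H}
    (hS : IsSylowIn p S ⊤) (hp : p ∣ Nat.card (center H)) :
    ∃ t ∈ center H, t ≠ 1 ∧ t ∈ ⁅S, S⁆ := by
  obtain ⟨t, ht⟩ := exists_prime_orderOf_dvd_card' p hp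
  have h1 : IsPGroup p (zpowers (t : H)) := IsPGroup.of_card (n := 1) (by
    rw [Nat.card_zpowers, orderOf_coe, ht, pow_one])
  have h2 : (t : H) ∈ S := hS.le_of_le_normalizer h1 le_top
    (fun x _ => centralizer_le_normalizer _ fun y hy =>
      (mem_center_iff.1 (zpowers_le.2 t.2 hy) x).symm) (mem_zpowers _)
  refine ⟨t, t.2, fun e => (Fact.out : p.Prime).ne_one ?_,
    center_inf_commutator_inf_sylow_le hS.toSylowTop ⟨⟨t.2, by simp⟩, h2⟩⟩
  rw [← ht, ← orderOf_coe, e, orderOf_one]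

omit [Finite H] in
theorem noncomm {S : Subgroup H} {t : H} (h1 : t ≠ 1) (h2 : t ∈ ⁅S, S⁆) : ¬ IsMulCommutative S :=
  fun h => by
    have : ⁅S, S⁆ ≤ ⊥ := commutator_le.2 fun a ha b hb => mem_bot.2
      (commutatorElement_eq_one_iff_mul_comm.2 (congrArg Subtype.val (h.is_comm.comm ⟨a, ha⟩ ⟨b, hb⟩)))
    exact h1 (mem_bot.1 (this h2))

theorem exists_comm {A : Type} [Group A] [Finite A] {σ : H →* A} (hσ : Function.Surjective σ)
    {a b : A} (ha : a ^ 4 = 1) (hb : b * b = 1) (hab : b * a * b⁻¹ = a⁻¹) (hn : ⁅a, b⁆ ≠ 1)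
    {S : Subgroup H} (hS : IsSylowIn 2 S ⊤) : ∃ c ∈ ⁅S, S⁆, σ c ≠ 1 := by
  have pa : IsPGroup 2 (zpowers a) := by
    rintro ⟨_, z, rfl⟩
    refine ⟨2, Subtype.ext ?_⟩
    change (a ^ z) ^ 4 = 1
    rw [← zpow_natCast, ← zpow_mul, mul_comm, zpow_mul, zpow_natCast, ha, one_zpow]
  have pb : IsPGroup 2 (zpowers b) := by
    rintro ⟨_, z, rfl⟩
    refine ⟨1, Subtype.ext ?_⟩
    change (b ^ z) ^ 2 = 1
    rw [← zpow_natCast, ← zpow_mul, mul_comm, zpow_mul, zpow_natCast, sq, hb, one_zpow]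
  have hn' : zpowers b ≤ normalizer (zpowers a : Set A) := zpowers_le.2
    (mem_normalizer_fintype (by
      rintro _ ⟨z, rfl⟩
      exact ⟨-z, by rw [← conj_zpow, hab, inv_zpow']⟩))
  have h1 := hS.map σ
  rw [map_top_of_surjective σ hσ] at h1
  obtain ⟨g, -, hg⟩ := h1.exists_conj_le (pb.to_sup_of_normal_right' pa hn') le_top
  obtain ⟨x, hx, ex⟩ := hg (conj_mem_conj_smul.2 (mem_sup_right (mem_zpowers a)))
  obtain ⟨y, hy, ey⟩ := hg (conj_mem_conj_smul.2 (mem_sup_left (mem_zpowers b)))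
  refine ⟨_, commutator_mem_commutator hx hy, fun e => hn ?_⟩
  rw [map_commutatorElement, ex, ey] at e
  calc ⁅a, b⁆ = g⁻¹ * ⁅g * a * g⁻¹, g * b * g⁻¹⁆ * g := by
        simp only [commutatorElement_def]; group
    _ = 1 := by rw [e]; group

theorem alt6 : ∃ a b : alternatingGroup (Fin 6),
    a ^ 4 = 1 ∧ b * b = 1 ∧ b * a * b⁻¹ = a⁻¹ ∧ ⁅a, b⁆ ≠ 1 :=
  ⟨⟨swap 0 1 * swap 1 2 * swap 2 3 * swap 4 5, Perm.mem_alternatingGroup.2 (by simp)⟩,
    ⟨swap 0 2 * swap 4 5, Perm.mem_alternatingGroup.2 (by simp)⟩,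
    Subtype.ext (by decide), Subtype.ext (by decide), Subtype.ext (by decide),
    fun e => absurd (congrArg Subtype.val e) (by decide)⟩

theorem alt7 : ∃ a b : alternatingGroup (Fin 7),
    a ^ 4 = 1 ∧ b * b = 1 ∧ b * a * b⁻¹ = a⁻¹ ∧ ⁅a, b⁆ ≠ 1 :=
  ⟨⟨swap 0 1 * swap 1 2 * swap 2 3 * swap 4 5, Perm.mem_alternatingGroup.2 (by simp)⟩,
    ⟨swap 0 2 * swap 4 5, Perm.mem_alternatingGroup.2 (by simp)⟩,
    Subtype.ext (by decide), Subtype.ext (by decide), Subtype.ext (by decide),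
    fun e => absurd (congrArg Subtype.val e) (by decide)⟩

theorem four_le {K : Subgroup H} (hK : IsPGroup 2 K) {t c : H} (ht : t ∈ K) (hc : c ∈ K)
    (h1 : t ≠ 1) (h2 : c ≠ 1) (h3 : c ≠ t) : 4 ≤ Nat.card K := by
  obtain ⟨k, hk⟩ := IsPGroup.iff_card.1 hK
  have : 2 < Nat.card K := by
    classical
    have := Fintype.ofFinite K
    rw [Nat.card_eq_fintype_card]
    exact Fintype.two_lt_card_iff.2 ⟨1, ⟨t, ht⟩, ⟨c, hc⟩, fun e => h1 (congrArg Subtype.val e).symm,
      fun e => h2 (congrArg Subtype.val e).symm, fun e => h3 (congrArg Subtype.val e).symm⟩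
  rw [hk] at this ⊢
  exact Nat.pow_le_pow_right (i := 2) two_pos
    ((Nat.pow_lt_pow_iff_right one_lt_two).1 (show 2 ^ 1 < 2 ^ k from this))

/-- **Small** -/
theorem smallStmt (h16 : Sm16Stmt) : SmallStmt := by
  rintro H _ _ ⟨hP, -⟩ n hn ⟨e⟩ p hp D hD
  have : Fact p.Prime := ⟨hp⟩
  let σ : H →* alternatingGroup (Fin n) := e.toMonoidHom.comp (QuotientGroup.mk' _)
  have hσ : Function.Surjective σ := e.surjective.comp (QuotientGroup.mk'_surjective _)
  have kσ : σ.ker = center H := by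
    ext x
    change e (QuotientGroup.mk x) = 1 ↔ _
    rw [e.map_eq_one_iff, QuotientGroup.eq_one_iff]
  have cH : Nat.card H = n.factorial / 2 * Nat.card (center H) := by
    have : Nontrivial (Fin n) := Fin.nontrivial_iff_two_le.2 (by omega)
    rw [card_eq_card_quotient_mul_card_subgroup (center H), Nat.card_congr e.toEquiv,
      nat_card_alternatingGroup, Nat.card_eq_fintype_card, Fintype.card_fin]
  have z6 : n = 6 ∨ n = 7 → Nat.card (center H) ∣ 6 := fun h => by
    obtain ⟨π, hπ⟩ := (S2116.result n h).2 H σ ⟨hσ, kσ.le, by simp⟩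
    have := card_dvd_of_surjective π hπ
    rwa [kσ, Nat.card_congr Multiplicative.toAdd, Nat.card_zmod] at this
  have cz : n = 6 ∨ n = 7 → ∀ S, IsSylowIn 2 S ⊤ → ∃ c ∈ ⁅S, S⁆, c ∉ center H := fun h S hS => by
    rw [← kσ]
    rcases h with rfl | rfl
    · obtain ⟨a, b, h1, h2, h3, h4⟩ := alt6
      exact exists_comm hσ h1 h2 h3 h4 hS
    · obtain ⟨a, b, h1, h2, h3, h4⟩ := alt7
      exact exists_comm hσ h1 h2 h3 h4 hS
  obtain ⟨S, hS, hDS⟩ := exists_isSylowIn_ge hD le_top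
  obtain ⟨k, hk⟩ := IsPGroup.iff_card.1 hD
  obtain ⟨s, hs⟩ := IsPGroup.iff_card.1 hS.isPGroup
  by_cases k2 : k ≤ 2
  · exact .inl (hk ▸ Nat.pow_le_pow_right hp.pos k2)
  right
  have ks : k ≤ s := (Nat.pow_dvd_pow_iff_le_right hp.one_lt).1 (hk ▸ hs ▸ card_dvd_of_le hDS)
  have d1 : p ^ s ∣ n.factorial / 2 * Nat.card (center H) := by
    rw [← cH, ← hs]
    exact card_subgroup_dvd_card S
  have eq : k = s → D = S := fun e => eq_of_le_of_card_ge hDS (by rw [hk, hs, e])
  have main : (s = 3 ∧ ¬ IsMulCommutative S) ∨ (p = 2 ∧ s = 4 ∧ 4 ≤ Nat.card ↥⁅S, S⁆) := by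
    have nc : p ∣ Nat.card (center H) → ¬ IsMulCommutative S := fun h => by
      obtain ⟨t, -, h1, h2⟩ := exists_cent hS h
      exact noncomm h1 h2
    have d3 : p ^ 3 ∣ n.factorial / 2 * Nat.card (center H) :=
      (pow_dvd_pow p (by omega)).trans d1
    have up : ∀ m, ¬ p ^ (m + 1) ∣ n.factorial / 2 * Nat.card (center H) → s ≤ m := fun m h => by
      by_contra h'
      exact h ((pow_dvd_pow p (by omega)).trans d1)
    have pr : ∀ m, p ^ 3 ∣ m → m ∣ 15120 → p = 2 ∨ p = 3 := fun m h1 h2 => by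
      have h3 := h1.trans h2
      have h4 : p ≤ 24 := by
        by_contra h
        have := (Nat.pow_le_pow_left (show 25 ≤ p by omega) 3).trans (Nat.le_of_dvd (by norm_num) h3)
        omega
      have := hp.two_le
      interval_cases p <;> first | omega | exact absurd hp (by norm_num)
    rcases hn with rfl | hn
    · have z2 := S0892.result 5 (by omega) (by omega) (by omega) (center H) le_rfl (by simp) e
      have z0 : 0 < Nat.card (center H) := Nat.card_pos
      generalize Nat.card (center H) = z at *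
      norm_num [Nat.factorial] at d3 up
      interval_cases z
      · rcases pr _ d3 (by norm_num) with rfl | rfl <;> omega
      · rcases pr _ d3 (by norm_num) with rfl | rfl
        · exact .inl ⟨by have := up 3 (by norm_num); omega, nc dvd_rfl⟩
        · omega
    have z1 := z6 hn
    have two : p = 2 → (s = 3 ∧ ¬ IsMulCommutative S) ∨ (p = 2 ∧ s = 4 ∧ 4 ≤ Nat.card ↥⁅S, S⁆) := by
      rintro rfl
      obtain ⟨c, h1, h2⟩ := cz hn S hS
      have c1 : c ≠ 1 := fun e => h2 (e ▸ one_mem _)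
      by_cases s3 : s = 3
      · exact .inl ⟨s3, noncomm c1 h1⟩
      have d4 : 2 ^ 4 ∣ n.factorial / 2 * Nat.card (center H) :=
        (pow_dvd_pow 2 (by omega)).trans d1
      have z2 : 2 ∣ Nat.card (center H) := by
        rcases hn with rfl | rfl <;> norm_num [Nat.factorial] at d4 <;> omega
      obtain ⟨t, h3, h4, h5⟩ := exists_cent hS z2
      refine .inr ⟨rfl, le_antisymm (up 4 fun h => ?_) (by omega),
        four_le (hS.isPGroup.to_le (commutator_le.2 fun a ha b hb =>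
          mul_mem (mul_mem (mul_mem ha hb) (inv_mem ha)) (inv_mem hb))) h5 h1 h4 c1
          fun e => h2 (e ▸ h3)⟩
      have := h.trans (mul_dvd_mul_left _ z1)
      rcases hn with rfl | rfl <;> norm_num [Nat.factorial] at this
    rcases pr _ d3 ((mul_dvd_mul_left _ z1).trans (by
      rcases hn with rfl | rfl <;> norm_num [Nat.factorial])) with h | rfl
    · exact two h
    · refine .inl ⟨le_antisymm (up 3 fun h => ?_) (by omega), nc ?_⟩
      · have := h.trans (mul_dvd_mul_left _ z1)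
        rcases hn with rfl | rfl <;> norm_num [Nat.factorial] at this
      · rcases hn with rfl | rfl <;> norm_num [Nat.factorial] at d3 <;> omega
  rcases main with ⟨rfl, h⟩ | ⟨rfl, rfl, h⟩
  · obtain rfl := eq (by omega)
    exact .inr ⟨h, center_le hp hs h⟩
  have c4 : 4 ≤ Nat.card (commutator S) := by
    rwa [← map_subtype_commutator, card_subtype] at h
  obtain ⟨h1, h2⟩ := h16 S hs c4
  by_cases k4 : k = 4
  · obtain rfl := eq k4
    refine .inr ⟨fun hc => ?_, h1⟩
    have : commutator D = ⊥ := commutator_eq_bot D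
    rw [this, card_bot] at c4
    omega
  obtain rfl : k = 3 := by omega
  by_cases hc : IsMulCommutative D
  · have i := subgroupOfEquivOfLe hDS
    have := h2 (D.subgroupOf S) ((Nat.card_congr i.toEquiv).trans hk)
      ⟨⟨fun a b => i.injective (by rw [map_mul, map_mul, hc.is_comm.comm])⟩⟩
    exact .inl (isCyclic_of_surjective i i.surjective)
  · exact .inr ⟨hc, center_le hp hk hc⟩

end Cfsg.Agent.H8.RbSmall
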