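import Cfsg.Agent.H11.CyLp

/-! Project CY, chapter LP: a self-centralising involution in the centraliser of a line. -/

set_option autoImplicit false

namespace Cfsg.Agent.H8.CyN43

open Subgroup Cfsg.Agent.H11.Cy Cfsg.Agent.H11.Cy.Lp
open Cfsg.Agent.H11.EL (Nm Ct R1 SC)

theorem cm {G : Type} [Group G] {L : Subgroup G} {c x : G} (hc : c ∈ Ct L) (hx : x ∈ L) :
    Commute c x := (mem_centralizer_iff.1 hc x hx).symm

theorem n43 (h41 : N41Stmt) : N43Stmt := by
  intro G _ _ Ω _ _ p A st x y P hev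
  have o2 : ∀ g : G, g * g = 1 → g ≠ 1 → orderOf g = 2 := fun g a b =>
    orderOf_eq_prime (by rw [pow_two, a]) b
  have s2 : ∀ g : G, orderOf g = 2 → g * g = 1 ∧ g ≠ 1 := fun g a =>
    ⟨by rw [← pow_two, ← a, pow_orderOf_eq_one], fun e => by simp [e] at a⟩
  obtain ⟨x', y', hne, hL, u, hu, uo, uN, uf⟩ := P.te x y P.xy hev
  have ti : ∀ k ∈ Kl A x y, k ∈ Kl A x' y' → k = 1 := fun k a b => by
    by_contra c
    exact hL (P.ti' x y x' y' P.xy hne k a c b).symm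
  have la := P.la x y P.xy
  have uK : u ∉ Kl A x y := fun h => (s2 u uo).2 (ti u h hu)
  have uKL : u ∈ Kl A x y ⊔ Fl A x y := by
    by_contra c
    have := ((P.lv x y P.xy).par u uN ((s2 u uo).1 ▸ one_mem _) uK).1
      ⟨fun h => absurd h c, fun ⟨z, hz, e⟩ => absurd e (uf z hz)⟩
    have := P.p3
    omega
  obtain ⟨k, hk, s, hs, rfl⟩ := la.dec u uKL
  have e : k * k * (s * s) = 1 := by
    rw [← (cm hk hs).symm.mul_mul_mul_comm]; exact (s2 _ uo).1
  have hss : s * s = 1 := la.ctr _ (mul_mem hs hs)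
    (eq_inv_of_mul_eq_one_right e ▸ inv_mem (mul_mem hk hk))
  have hkk : k * k = 1 := by rwa [hss, mul_one] at e
  have hso : orderOf s = 2 := o2 s hss fun h => uK (by rwa [h, mul_one])
  obtain ⟨t, ht, hto, htk⟩ : ∃ t ∈ Kl A x y, orderOf t = 2 ∧ ∀ c, Commute c t → Commute c k := by
    by_cases h1 : k = 1
    · obtain ⟨t, ht⟩ := exists_prime_orderOf_dvd_card' (G := Kl A x y) 2 hev.two_dvd
      exact ⟨t, t.2, by rw [orderOf_coe, ht], fun c _ => by rw [h1]; exact Commute.one_right c⟩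
    · exact ⟨k, hk, o2 k hkk h1, fun c hc => hc⟩
  have hcu : ∀ c ∈ Kl A x y, Commute c t → Commute c (k * s) := fun c hc h =>
    (htk c h).mul_right (cm hc hs)
  obtain ⟨w, hw, hwo, ws, hsw⟩ := (P.lv x y P.xy).four s hs hso
  have hwu : Commute w (k * s) := (cm hk hw).symm.mul_right hsw.symm
  have hN : ∀ g, Commute g (k * s) → g ∈ Nm (Fl A x' y') := fun g hg =>
    P.tiN x' y' hne _ hu (s2 _ uo).2 g (by rw [hg.eq, mul_inv_cancel_right]; exact hu)
  have hle : ∀ a b : Ω, Kl A a b ≤ Ct (A a) := fun a b =>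
    centralizer_le (SetLike.coe_subset_coe.2 le_sup_left)
  have r' := h41 G Ω p A st x' y' ⟨P.toL2, P.p3, P.p7, hne, P.even, P.ctr, P.cC, P.tiN, P.ti', P.mix⟩
    (P.cK x y x' y' P.xy hne ▸ hev)
  have key : ∀ j ∈ Kl A x y, j * j = 1 → Commute j (k * s) → j * w ∉ Kl A x' y' := fun j hj jj jc h => by
    have n1 : j * w ≠ 1 := fun c => (s2 w hwo).2
      (la.ctr w hw (eq_inv_of_mul_eq_one_right c ▸ inv_mem hj))
    have := r' _ (hle _ _ h) _ (hle _ _ hu) (o2 _ (by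
      rw [(cm hj hw).symm.mul_mul_mul_comm, jj, (s2 w hwo).1, mul_one]) n1) uo (jc.mul_left hwu)
    have e2 : w * s⁻¹ = j⁻¹ * k := by
      rw [eq_inv_mul_iff_mul_eq, ← mul_assoc, this, mul_inv_cancel_right]
    exact ws (mul_inv_eq_one.1 (la.ctr _ (mul_mem hw (inv_mem hs)) (e2 ▸ mul_mem (inv_mem hj) hk)))
  refine ⟨t, ht, hto, fun c hc hct => ?_⟩
  have h1 := (P.lw x' y' hne).v4 t (hN t (hcu t ht (Commute.refl t))) w (hN w hwu) c
    (hN c (hcu c hc hct)) ((s2 t hto).1 ▸ one_mem _) ((s2 w hwo).1 ▸ one_mem _)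
    (fun h => (s2 t hto).2 (ti t ht h))
    (by simpa using key 1 (one_mem _) (one_mul 1) (Commute.one_left _))
    (key t ht (s2 t hto).1 (hcu t ht (Commute.refl t))) (cm ht hw) hct.symm (cm hc hw).symm
  by_cases h3 : c = 1
  · rw [h3]; exact one_mem _
  · rw [h41 G Ω p A st x y P hev c (hle _ _ hc) t (hle _ _ ht)
      (o2 c (ti _ (mul_mem hc hc) h1) h3) hto hct]
    exact mem_zpowers t

end Cfsg.Agent.H8.CyN43
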