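import Cfsg.Agent.H98.GbL
import Cfsg.Agent.H11.Irr

/-! Expansion of the parabolic restriction in monomials and in irreducible characters. -/

set_option autoImplicit false
open Cfsg Finset
open scoped ComplexConjugate MatrixGroups

namespace Cfsg.Agent.H8.GbResx

open Cfsg.Agent.H98.GB Cfsg.Agent.H11

universe u

theorem expand {G : Type u} [Group G] [Fintype G] {ι : Type*} (s : Finset ι) (e : ι → G → ℂ)
    (Z : ι → ℂ) (hZ : ∀ i ∈ s, Z i ≠ 0) (h1 : ∀ i ∈ s, classInner (e i) (e i) = Z i)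
    (h2 : ∀ i ∈ s, ∀ j ∈ s, i ≠ j → classInner (e i) (e j) = 0) {f : G → ℂ}
    (hf : f ∈ Submodule.span ℂ (e '' s)) (g : G) :
    f g = ∑ i ∈ s, e i g / Z i * classInner f (e i) := by
  induction hf using Submodule.span_induction with
  | mem x hx =>
    obtain ⟨j, hj, rfl⟩ := hx
    rw [sum_eq_single_of_mem j hj fun i hi ne => by rw [h2 j hj i hi ne.symm, mul_zero], h1 j hj,
      div_mul_cancel₀ _ (hZ j hj)]
  | zero => simp [classInner_zero_left]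
  | add x y _ _ a b => simp only [classInner_add_left, mul_add, sum_add_distrib, ← a, ← b,
      Pi.add_apply]
  | smul c x _ a => simp only [classInner_smul_left, mul_left_comm _ c, ← mul_sum, ← a,
      Pi.smul_apply, smul_eq_mul]

variable {F : Type u} [Field F] [Fintype F] [DecidableEq F]

omit [Fintype F] [DecidableEq F] in
theorem cls_of_tw {n : ℕ} {f : GL (Fin n) F → ℂ} (h : Tw (dl 1 n) f) : IsClassFunction _ f :=
  fun g x => by simpa [dl_one] using h x g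

theorem dd {η : Fˣ →* ℂˣ} {H : Hall η} (K : H.Fock) (a b k : ℕ) (y y' x : H.A) (h1 : H.Hg a y)
    (h2 : H.Hg b y') (h3 : H.Hg (a + b + k) x) :
    H.D (a + b) (y * y') x = H.D b y' (H.D a y x) := by
  have g1 := K.D_hg (y * y') h3
  have g2 := K.D_hg y' (K.D_hg y (add_assoc a b k ▸ h3))
  refine sub_eq_zero.1 (K.ip_self (n := k) (fun n hn => ?_) ?_)
  · rw [map_sub, Pi.sub_apply, g1 n hn, g2 n hn, sub_self]
  · generalize hz : H.D (a + b) (y * y') x - H.D b y' (H.D a y x) = z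
    have : H.ip k z (H.D (a + b) (y * y') x) = H.ip k z (H.D b y' (H.D a y x)) := by
      rw [← K.adj (K.hg_mul h1 h2), ← K.adj h2, ← K.adj h1, add_assoc, mul_assoc]
    conv_lhs => enter [4]; rw [← hz]
    unfold Hall.ip at this ⊢
    rw [map_sub, Pi.sub_apply, classInner_sub_right, this, sub_self]

theorem mon_add {A : Type*} [CommRing A] [Algebra ℂ A] {Φ : Type} [Fintype Φ] (P : Φ → ℕ → A)
    (μ ν : Φ → Multiset ℕ) : mon P (μ + ν) = mon P μ * mon P ν := by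
  simp [mon, prod_mul_distrib]

variable (C : Ctx F)

theorem of_pi {n : ℕ} {Λ : C.Lb} (h : C.IsLab n Λ) {μ : C.Φ → Multiset ℕ}
    (hμ : μ ∈ Fintype.piFinset fun φ => H19.Par (H19.wtS (Λ φ))) :
    MonOn (fun _ => True) μ ∧ wm C.dg μ = n ∧ ∀ φ, (μ φ).sum = H19.wtS (Λ φ) := by
  have k := fun φ => H19.mem_Par.1 (Fintype.mem_piFinset.1 hμ φ)
  refine ⟨fun φ => ⟨(k φ).2, fun a => absurd trivial a⟩, ?_, fun φ => (k φ).1⟩
  rw [← h.2, wm, wt]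
  exact sum_congr rfl fun φ _ => by rw [(k φ).1]

variable (hF : FOCKStmt.{u}) (hT : TWCStmt.{u}) (hA : ADJStmt.{u}) (hM : MONStmt.{u})
  (hO : MORTHStmt.{u}) (hS : SYSStmt.{u}) (hI : IRRStmt.{u}) (hC : COMPLStmt.{u})

include hF hO hS in
open Classical in
theorem morth {n : ℕ} {μ ν : C.Φ → Multiset ℕ} (h1 : MonOn (fun _ => True) μ)
    (h2 : MonOn (fun _ => True) ν) (e1 : wm C.dg μ = n) (e2 : wm C.dg ν = n) :
    C.H.ip n (mon C.pp μ) (mon C.pp ν) = if μ = ν then ∏ φ, (H19.zM (μ φ) : ℂ) else 0 := by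
  obtain ⟨-, s, g⟩ := hS F C
  have := (hO F 1 C.H C.Φ C.dg _ n C.pp 0 1 0 1 _ (s n) (s n) (g n) μ ν h1 h2 e1.le e2.le).2
  rw [zero_add, e1, one_mul, one_mul, (hF F 1 C.H).ip_one, one_mul] at this
  rw [this]
  split_ifs
  · simp [H19.zM]
  · rfl

include hC in
theorem mem_span {n : ℕ} (hn : n ≤ C.n0) {W : Submodule ℂ (GL (Fin n) F → ℂ)}
    (hW : ∀ Λ, C.IsLab n Λ → C.sC Λ n ∈ W) {f : GL (Fin n) F → ℂ} (hf : Tw (dl 1 n) f) :
    f ∈ W := by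
  have : f ∈ classFunSubmodule _ := mem_classFunSubmodule.2 (cls_of_tw hf)
  rw [← span_irr_eq] at this
  refine Submodule.span_le.2 ?_ this
  rintro _ ⟨χ, rfl⟩
  obtain ⟨Λ, h, e⟩ := hC F C n hn χ
  change χ.1 ∈ W
  exact e ▸ hW Λ h

include hI hC in
theorem exp_irr {n : ℕ} (hn : n ≤ C.n0) {L : Finset C.Lb} (hL : ∀ Λ, Λ ∈ L ↔ C.IsLab n Λ)
    {f : GL (Fin n) F → ℂ} (hf : Tw (dl 1 n) f) (g : GL (Fin n) F) :
    f g = ∑ Λ ∈ L, C.sC Λ n g * classInner f (C.sC Λ n) := by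
  have k := fun Λ h => hI F C n hn Λ ((hL Λ).1 h)
  simpa using expand L (fun Λ => C.sC Λ n) (fun _ => 1) (fun _ _ => one_ne_zero)
    (fun Λ h => classInner_irr_self (k Λ h).2.1)
    (fun Λ h Λ' h' ne => classInner_irr_of_ne (k Λ h).2.1 (k Λ' h').2.1 fun e =>
      ne ((k Λ h).2.2 Λ' ((hL Λ').1 h') e))
    (mem_span C hC hn (fun Λ h => Submodule.subset_span (Set.mem_image_of_mem _ ((hL Λ).2 h))) hf) g

include hT in
theorem tw_res {m k n : ℕ} (h : m + k = n) (x : C.H.A) (y : GL (Fin k) F) :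
    Tw (dl 1 m) fun u => res h (C.H.ev x n) u y := fun s u => by
  simpa using (hT F 1).2.1 m k n h _ (C.H.tw x n) s 1 u y

include hF hT hM hO hS hC in
theorem res_mon (m k n : ℕ) (h : m + k = n) (hm : m ≤ C.n0) (Ms : Finset (C.Φ → Multiset ℕ))
    (hMs : ∀ μ, μ ∈ Ms ↔ MonOn (fun _ => True) μ ∧ wm C.dg μ = m) (x : C.H.A) (g : GL (Fin m) F)
    (y : GL (Fin k) F) : res h (C.H.ev x n) g y = ∑ μ ∈ Ms, C.H.ev (mon C.pp μ) m g /
      (∏ φ, (H19.zM (μ φ) : ℂ)) * C.H.ev (C.H.D m (mon C.pp μ) x) k y := by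
  subst h
  have o := fun μ h ν h' => morth C hF hO hS ((hMs μ).1 h).1 ((hMs ν).1 h').1 ((hMs μ).1 h).2
    ((hMs ν).1 h').2
  simp only [(hF F 1 C.H).ev_D]
  refine expand Ms (fun μ => C.H.ev (mon C.pp μ) m) _ (fun μ h => prod_ne_zero_iff.2 fun φ _ =>
    Nat.cast_ne_zero.2 (H19.zM_pos (((hMs μ).1 h).1 φ).1).ne') (fun μ h => (o μ h μ h).trans
    (if_pos rfl)) (fun μ h ν h' ne => (o μ h ν h').trans (if_neg ne))
    (mem_span C hC hm (fun Λ h => ?_) (tw_res C hT rfl x y)) g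
  rw [Ctx.sC, (hM _ C.Φ C.N C.pp).1, map_sum, Finset.sum_apply]
  refine Submodule.sum_mem _ fun μ hμ => ?_
  rw [map_smul, Pi.smul_apply]
  obtain ⟨a, b, -⟩ := of_pi C h hμ
  exact Submodule.smul_mem _ _ (Submodule.subset_span ⟨μ, (hMs μ).2 ⟨a, b⟩, rfl⟩)

include hF hT hA hI hC in
theorem res_irr (m k n : ℕ) (h : m + k = n) (hn : n ≤ C.n0) (L₁ L₂ : Finset C.Lb)
    (h1 : ∀ Λ, Λ ∈ L₁ ↔ C.IsLab m Λ) (h2 : ∀ Λ, Λ ∈ L₂ ↔ C.IsLab k Λ) (x : C.H.A)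
    (g : GL (Fin m) F) (y : GL (Fin k) F) : res h (C.H.ev x n) g y = ∑ Λ₁ ∈ L₁, ∑ Λ₂ ∈ L₂,
      C.H.ip n x (sL C.N C.pp Λ₁ * sL C.N C.pp Λ₂) * C.sC Λ₁ m g * C.sC Λ₂ k y := by
  rw [exp_irr C hI hC (by omega) h1 (tw_res C hT h x y) g]
  refine sum_congr rfl fun Λ₁ a => ?_
  change _ * perp1 h _ _ y = _
  rw [exp_irr C hI hC (by omega) h2 ((hT F 1).2.2.1 m k n h _ _ (C.H.tw x n)) y, mul_sum]
  refine sum_congr rfl fun Λ₂ _ => ?_
  rw [← conj_classInner, ← (hA F 1 m k n h _ _ _ (C.H.tw x n)).1, conj_classInner, Hall.ip,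
    (hF F 1 C.H).ev_mul_hg _ h (hI F C m (by omega) Λ₁ ((h1 Λ₁).1 a)).1]
  simp only [Ctx.sC]
  ring

include hF hM hO hS in
theorem wts (m k n : ℕ) (h : m + k = n) (Λ₁ Λ₂ Λ : C.Lb) (h1 : C.IsLab m Λ₁) (h2 : C.IsLab k Λ₂)
    (h3 : C.IsLab n Λ)
    (ne : C.H.ip n (sL C.N C.pp Λ) (sL C.N C.pp Λ₁ * sL C.N C.pp Λ₂) ≠ 0) (φ : C.Φ) :
    H19.wtS (Λ φ) = H19.wtS (Λ₁ φ) + H19.wtS (Λ₂ φ) := by
  by_contra e
  refine ne ?_
  simp only [(hM _ C.Φ C.N C.pp).1, sum_mul_sum, smul_mul_smul_comm, ← mon_add, Hall.ip, map_sum,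
    map_smul, Finset.sum_apply, Pi.smul_apply, classInner_sum_left, classInner_sum_right,
    classInner_smul_left, classInner_smul_right]
  refine sum_eq_zero fun μ₁ a1 => sum_eq_zero fun μ₂ a2 => mul_eq_zero_of_right _
    (sum_eq_zero fun μ a => mul_eq_zero_of_right _ ?_)
  obtain ⟨b1, c1, d1⟩ := of_pi C h1 a1
  obtain ⟨b2, c2, d2⟩ := of_pi C h2 a2
  obtain ⟨b, c, d⟩ := of_pi C h3 a
  refine (morth C hF hO hS b (fun ψ => ⟨fun r hr => ?_, fun a => absurd trivial a⟩) c ?_).trans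
    (if_neg fun e' => e ?_)
  · exact (Multiset.mem_add.1 hr).elim ((b1 ψ).1 r) ((b2 ψ).1 r)
  · rw [← h, ← c1, ← c2]
    simp [wm, mul_add, sum_add_distrib]
  · rw [← d, ← d1, ← d2, e', Pi.add_apply, Multiset.sum_add]

include hF hT hA hM hO hS hI hC in
theorem resx' : RESXStmt.{u} := fun F _ _ _ C =>
  ⟨dd (hF F 1 C.H), res_mon C hF hT hM hO hS hC, res_irr C hF hT hA hI hC,
    fun m k n h _ => wts C hF hM hO hS m k n h⟩

theorem resx (hF : FOCKStmt.{u}) (hT : TWCStmt.{u}) (hA : ADJStmt.{u}) (hM : MONStmt.{u})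
    (hO : MORTHStmt.{u}) (hS : SYSStmt.{u}) (hI : IRRStmt.{u}) (hC : COMPLStmt.{u})
    (_hL : LABStmt.{u}) : RESXStmt.{u} := resx' hF hT hA hM hO hS hI hC

end Cfsg.Agent.H8.GbResx
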