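import Cfsg.Agent.H98.GbH

/-! Twisted class functions and parabolic induction: the first properties. -/

set_option autoImplicit false
open Cfsg Finset
open scoped ComplexConjugate MatrixGroups

namespace Cfsg.Agent.H8.GbTwc

open Cfsg.Agent.H98.GB

universe u

variable {F : Type u} [Field F]

theorem tri_inv {a b n : ℕ} (h : a + b = n) (s : GL (Fin a) F) (t : GL (Fin b) F) :
    (tri h s 0 t)⁻¹ = tri h s⁻¹ 0 t⁻¹ :=
  inv_eq_of_mul_eq_one_right (by rw [tri_mul]; simpa using tri_one h)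

theorem tri_conj {a b n : ℕ} (h : a + b = n) (s u : GL (Fin a) F) (c : Matrix (Fin a) (Fin b) F)
    (t v : GL (Fin b) F) : tri h s 0 t * tri h u c v * (tri h s 0 t)⁻¹ =
      tri h (s * u * s⁻¹) (s.1 * c * (t⁻¹).1) (t * v * t⁻¹) := by
  rw [tri_inv, tri_mul, tri_mul]; simp

/-- two-sided multiplication by invertible matrices -/
def twoS {a b : ℕ} (s : GL (Fin a) F) (t : GL (Fin b) F) :
    Matrix (Fin a) (Fin b) F ≃ Matrix (Fin a) (Fin b) F where
  toFun c := s.1 * c * (t⁻¹).1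
  invFun c := (s⁻¹).1 * c * t.1
  left_inv c := by
    simp only [← Matrix.mul_assoc, Units.inv_mul, Matrix.one_mul]
    rw [Matrix.mul_assoc, Units.inv_mul, Matrix.mul_one]
  right_inv c := by
    simp only [← Matrix.mul_assoc, Units.mul_inv, Matrix.one_mul]
    rw [Matrix.mul_assoc, Units.mul_inv, Matrix.mul_one]

theorem tri_left {n : ℕ} (h : 0 + n = n) (u : GL (Fin 0) F) (c : Matrix (Fin 0) (Fin n) F)
    (v : GL (Fin n) F) : tri h u c v = v := by
  have e : ∀ i, (eqv h).symm i = Sum.inr i := fun i =>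
    (Equiv.symm_apply_eq _).2 (Fin.ext (by simp [eqv]))
  ext i j
  simp [coe_tri, e]

theorem tri_right {n : ℕ} (h : n + 0 = n) (u : GL (Fin n) F) (c : Matrix (Fin n) (Fin 0) F)
    (v : GL (Fin 0) F) : tri h u c v = u := by
  have e : ∀ i, (eqv h).symm i = Sum.inl i := fun i =>
    (Equiv.symm_apply_eq _).2 (Fin.ext rfl)
  ext i j
  simp [coe_tri, e]

theorem avg {G : Type u} [Group G] [Fintype G] {l : G →* ℂˣ} {f : G → ℂ} (hf : Tw l f) (g : G)
    [∀ x v : G, Decidable (True ∧ g = x * v * x⁻¹)] :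
    (Fintype.card G : ℂ)⁻¹ * ∑ x : G, ∑ v : G,
      (if True ∧ g = x * v * x⁻¹ then (l x : ℂ) * f v else 0) = f g := by
  have : ∀ x : G, ∑ v : G, (if True ∧ g = x * v * x⁻¹ then (l x : ℂ) * f v else 0) = f g := by
    intro x
    rw [sum_eq_single (x⁻¹ * g * x), if_pos ⟨trivial, by group⟩, ← hf]
    · congr 1; group
    · intro v _ ne
      exact if_neg fun e => ne (by rw [e.2]; group)
    · simp
  simp only [this, sum_const, card_univ, nsmul_eq_mul]
  rw [inv_mul_cancel_left₀ (Nat.cast_ne_zero.2 Fintype.card_ne_zero)]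

variable [Fintype F] [DecidableEq F] (η : Fˣ →* ℂˣ)

theorem tw_cmp {a b n : ℕ} (h : a + b = n) (f : GL (Fin a) F → ℂ) (f' : GL (Fin b) F → ℂ) :
    Tw (dl η n) (cmp η h f f') := fun y g => by
  simp only [H98.GB.cmp, cmpS]
  rw [mul_left_comm]
  congr 1
  rw [← Equiv.sum_comp (Equiv.mulLeft y), mul_sum]
  refine sum_congr rfl fun x _ => ?_
  simp only [mul_sum]
  refine sum_congr rfl fun u _ => sum_congr rfl fun c _ => sum_congr rfl fun v _ => ?_
  have : y * g * y⁻¹ = y * x * tri h u c v * (y * x)⁻¹ ↔ g = x * tri h u c v * x⁻¹ := by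
    rw [show y * x * tri h u c v * (y * x)⁻¹ = y * (x * tri h u c v * x⁻¹) * y⁻¹ by group]
    simp
  simp only [Equiv.coe_mulLeft, this, map_mul, Units.val_mul]
  split_ifs
  · ring
  · rw [mul_zero]

omit [DecidableEq F] in
theorem res_conj {a b n : ℕ} (h : a + b = n) {ψ : GL (Fin n) F → ℂ} (hψ : Tw (dl η n) ψ)
    (s : GL (Fin a) F) (t : GL (Fin b) F) (u : GL (Fin a) F) (v : GL (Fin b) F) :
    res h ψ (s * u * s⁻¹) (t * v * t⁻¹) = dl η a s * dl η b t * res h ψ u v := by
  simp only [res]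
  rw [mul_left_comm]
  congr 1
  rw [← Equiv.sum_comp (twoS s t), mul_sum]
  refine sum_congr rfl fun c _ => ?_
  rw [← Units.val_mul, ← dl_tri η h s 0 t, ← hψ, tri_conj]
  rfl

theorem tw_perp1 {m k n : ℕ} (h : m + k = n) (P : GL (Fin m) F → ℂ) {ψ : GL (Fin n) F → ℂ}
    (hψ : Tw (dl η n) ψ) : Tw (dl η k) (perp1 h P ψ) := fun t v => by
  have : ∀ u, res h ψ u (t * v * t⁻¹) = dl η k t * res h ψ u v := fun u => by
    simpa using res_conj η h hψ 1 t u v
  simp only [perp1, this, classInner]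
  simp only [mul_assoc, ← mul_sum]
  ring

theorem cmp_zero_left {a b n : ℕ} (h : a + b = n) (f' : GL (Fin b) F → ℂ) :
    cmp η h 0 f' = 0 := by
  ext g; simp [H98.GB.cmp, cmpS]

theorem cmp_zero_right {a b n : ℕ} (h : a + b = n) (f : GL (Fin a) F → ℂ) :
    cmp η h f 0 = 0 := by
  ext g; simp [H98.GB.cmp, cmpS]

theorem cmp_one_left {n : ℕ} (h : 0 + n = n) {f : GL (Fin n) F → ℂ} (hf : Tw (dl η n) f) :
    cmp η h (fun _ => 1) f = f := by
  classical
  ext g
  simp only [H98.GB.cmp, cmpS, tri_left, Fintype.card_unique, Fintype.sum_unique, one_mul, mul_one,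
    zero_mul, pow_zero]
  convert avg hf g
  exact Fintype.sum_subsingleton _ 0

theorem cmp_one_right {n : ℕ} (h : n + 0 = n) {f : GL (Fin n) F → ℂ} (hf : Tw (dl η n) f) :
    cmp η h f (fun _ => 1) = f := by
  classical
  ext g
  simp only [H98.GB.cmp, cmpS, tri_right, Fintype.card_unique, Fintype.sum_unique, mul_one,
    mul_zero, pow_zero]
  convert avg hf g
  exact Fintype.sum_subsingleton _ 0

theorem one_mul' {x : Fn F} (hx : TwF η x) : mul η (one F) x = x := by
  funext n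
  rw [mul, sum_eq_single ⟨(0, n), mem_antidiagonal.2 (zero_add n)⟩]
  · exact cmp_one_left η _ (hx n)
  · rintro ⟨⟨a, b⟩, hab⟩ _ ne
    have : a ≠ 0 := by
      rintro rfl
      obtain rfl : b = n := by simpa using hab
      exact ne rfl
    rw [one, Pi.single_eq_of_ne this, cmp_zero_left]
  · simp

theorem mul_one' {x : Fn F} (hx : TwF η x) : mul η x (one F) = x := by
  funext n
  rw [mul, sum_eq_single ⟨(n, 0), mem_antidiagonal.2 (add_zero n)⟩]
  · exact cmp_one_right η _ (hx n)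
  · rintro ⟨⟨a, b⟩, hab⟩ _ ne
    have : b ≠ 0 := by
      rintro rfl
      obtain rfl : a = n := by simpa using hab
      exact ne rfl
    rw [one, Pi.single_eq_of_ne this, cmp_zero_right]
  · simp

omit [Fintype F] [DecidableEq F] in
theorem pow_eq_one_of_tw {n : ℕ} {f : GL (Fin n) F → ℂ} (hf : Tw (dl η n) f) (h0 : f ≠ 0) :
    η ^ n = 1 := by
  obtain ⟨g, hg⟩ := Function.ne_iff.1 h0
  ext c
  set s : GL (Fin n) F := Units.map (Matrix.scalar (Fin n)).toMonoidHom c with hs
  have cm : s * g = g * s := Units.ext ((Matrix.scalar_commute c.1 (mul_comm _) g.1).eq)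
  have e := hf s g
  rw [cm, mul_inv_cancel_right] at e
  have d : Matrix.GeneralLinearGroup.det s = c ^ n := Units.ext (by simp [hs, Matrix.scalar_apply])
  have : (dl η n s : ℂ) = 1 := mul_right_cancel₀ hg (by rw [← e, one_mul])
  rw [dl, MonoidHom.comp_apply, d, map_pow] at this
  simpa using this

theorem twc : TWCStmt.{u} := fun _ _ _ _ η =>
  ⟨fun _ _ _ h => tw_cmp η h, fun _ _ _ h _ hψ => res_conj η h hψ,
    fun _ _ _ h P _ hψ => tw_perp1 η h P hψ, fun _ hx => ⟨one_mul' η hx, mul_one' η hx⟩,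
    fun _ _ => pow_eq_one_of_tw η⟩

end Cfsg.Agent.H8.GbTwc
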