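import Mathlib
import Cfsg.Agent.H50.L81Defs

/-! Project L81: the largest invariant submodule without vectors fixed by the torus normalizer. -/

set_option autoImplicit false

namespace Cfsg.Agent.H8.L81Pr1

open Cfsg.Agent.H50.L81 Cfsg.Agent.H50.E83 Cfsg.Agent.H50.SL2S Module Finset

theorem pr1 (hP : ParStmt) : Pr1Stmt := by
  intro p W _ _ _ ρ hρ fr hfr
  obtain ⟨-, -, -, h⟩ := hP
  obtain ⟨-, h40, -, -, -, -, -, -, -, hw, ww2⟩ := h p
  have mul : ∀ g h v, ρ g (ρ h v) = ρ (g * h) v := fun g h v => by rw [map_mul]; rfl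
  obtain ⟨Q, hQ⟩ : ∃ Q : Module.End K W, ∀ v, Q v = ∑ k ∈ range 40, ρ (t0 p ^ k) v :=
    ⟨∑ k ∈ range 40, ρ (t0 p ^ k), fun v => LinearMap.sum_apply _ _ v⟩
  have tQ : ∀ v, ρ (t0 p) (Q v) = Q v := fun v => by
    have a := sum_range_succ (fun k => ρ (t0 p ^ k) v) 40
    rw [sum_range_succ', h40, hρ, pow_zero, map_one, add_left_inj] at a
    rw [hQ, map_sum, ← a]
    exact sum_congr rfl fun k _ => by rw [mul, pow_succ']
  obtain ⟨P, hP⟩ : ∃ P : Module.End K W, ∀ v, P v = Q v + ρ (ww F) (Q v) :=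
    ⟨Q + ρ (ww F) * Q, fun v => rfl⟩
  have fx : ∀ v, P v ∈ Fx ρ {t0 p, ww F} := by
    rintro v g (rfl | rfl)
    · rw [hP, map_add, tQ]
      congr 1
      conv_lhs => rw [← tQ, mul, mul]
      rw [mul_inv_eq_iff_eq_mul] at hw
      rw [mul_assoc, hw, mul_inv_cancel_left]
    · rw [hP, map_add, mul, ww2, hρ, add_comm]
      rfl
  have key : ∀ U, Inv ρ U → (U ⊓ Fx ρ {t0 p, ww F} = ⊥ ↔ U ≤ LinearMap.ker P) := fun U hU => by
    rw [Submodule.eq_bot_iff]
    refine ⟨fun h v hv => h _ ⟨?_, fx v⟩, fun h v hv => ?_⟩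
    · have : Q v ∈ U := hQ v ▸ U.sum_mem fun k _ => hU _ v hv
      exact hP v ▸ U.add_mem this (hU _ _ this)
    · have e : ∀ k : ℕ, ρ (t0 p ^ k) v = v := fun k => by
        induction k with
        | zero => simp
        | succ k ih => rw [pow_succ, ← mul, hv.2 _ (Or.inl rfl), ih]
      have q : Q v = (40 : K) • v := by
        rw [hQ, sum_congr rfl fun k _ => e k, sum_const, card_range, ← Nat.cast_smul_eq_nsmul K]
        rfl
      have z : P v = 0 := h hv.1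
      rw [hP, q, map_smul, hv.2 _ (Or.inr rfl), ← add_smul, smul_eq_zero] at z
      refine z.resolve_left fun z => ?_
      have : ((80 : ℕ) : K) = 0 := by rw [← z]; norm_num
      rw [CharP.cast_eq_zero_iff K 3] at this
      omega
  let S : Set (Submodule K W) := {U | Inv ρ U ∧ U ≤ LinearMap.ker P}
  have h1 : Inv ρ (sSup S) := fun h =>
    sSup_le (a := (sSup S).comap (ρ h)) fun U hU v hv => le_sSup hU (hU.1 h v hv)
  have h2 : sSup S ≤ LinearMap.ker P := sSup_le fun U hU => hU.2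
  refine ⟨sSup S, h1, fun v hv => ?_, (key _ h1).2 h2, fun M' hM h0 => le_sSup ⟨hM, (key _ hM).1 h0⟩⟩
  obtain ⟨φ, hφ⟩ : ∃ φ : W →+ W, ∀ v, fr v = φ v := ⟨AddMonoidHom.mk' fr hfr.1, fun _ => rfl⟩
  have fQ : ∀ a, Q (fr a) = fr (Q a) := fun a => by
    rw [hQ, hQ, hφ (∑ _ ∈ _, _), map_sum]
    exact sum_congr rfl fun k _ => by rw [← hφ, hfr.2.2.2]
  have h3 : Submodule.span K (fr '' (sSup S : Submodule K W)) ∈ S := by
    refine ⟨fun h => show Submodule.span K _ ≤ Submodule.comap (ρ h) (Submodule.span K _) from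
      Submodule.span_le.2 ?_, Submodule.span_le.2 ?_⟩
    · rintro _ ⟨a, ha, rfl⟩
      exact Submodule.subset_span ⟨_, h1 h a ha, hfr.2.2.2 h a⟩
    · rintro _ ⟨a, ha, rfl⟩
      change P (fr a) = 0
      rw [hP, fQ, ← hfr.2.2.2, ← hfr.1, ← hP, show P a = 0 from h2 ha, hφ, map_zero]
  exact le_sSup h3 (Submodule.subset_span ⟨v, hv, rfl⟩)

end Cfsg.Agent.H8.L81Pr1
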