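import Cfsg.Agent.H93.L8Defs

/-! Project CY, chapter L8: counting involutions. -/

set_option autoImplicit false

namespace Cfsg.Agent.H8.L8Cnt

open Finset Cfsg.Agent.H93.L8

theorem cnt : CntStmt := by
  intro G _ _ Ω _ _ hn htr hcj hfx hsw
  classical
  have := Fintype.ofFinite G
  have := Fintype.ofFinite Ω
  obtain ⟨a, b, hab⟩ := exists_pair_ne Ω
  obtain ⟨t, ht, ta, tb, -⟩ := hfx a b hab
  obtain ⟨I, hI⟩ : ∃ I : Finset G, ∀ s, s ∈ I ↔ orderOf s = 2 := ⟨univ.filter _, fun s => by simp; rfl⟩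
  obtain ⟨m, hm⟩ : ∃ m, #{x : Ω | t • x = x} = m := ⟨_, rfl⟩
  obtain ⟨i, hi⟩ : ∃ i, #{s ∈ I | s • a = a} = i := ⟨_, rfl⟩
  have cm : ∀ s ∈ I, #{x : Ω | s • x = x} = m := fun s hs => by
    obtain ⟨g, rfl⟩ := isConj_iff.1 (hcj t s ht ((hI s).1 hs))
    rw [← hm]
    refine (card_equiv (MulAction.toPerm g) fun x => ?_).symm
    simp [mul_smul]
  have ci : ∀ x : Ω, #{s ∈ I | s • x = x} = i := fun x => by
    obtain ⟨g, rfl⟩ := htr a x
    rw [← hi]
    refine (card_equiv (MulAut.conj g).toEquiv fun s => ?_).symm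
    have := (MulAut.conj g).orderOf_eq s
    simp only [MulAut.conj_apply] at this
    simp [mul_smul, hI, this]
  have h1 : #I = i + #(univ.erase a) * 2 := by
    rw [card_eq_sum_card_fiberwise (f := fun s => s • a) (t := univ) (fun _ _ => mem_univ _),
      ← add_sum_erase _ _ (mem_univ a), hi, sum_const_nat]
    intro y hy
    rw [← hsw a y (ne_of_mem_erase hy).symm, ← Set.ncard_coe_finset]
    congr 1
    ext s
    simp [hI]
  have h2 : #(univ.erase a) * 1 = #{s ∈ I | s • a = a} * (m - 1) := by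
    refine card_mul_eq_card_mul (fun x s => s • x = x) (fun x hx => ?_) fun s hs => ?_
    · obtain ⟨u, h1, h2, h3, h4⟩ := hfx a x (ne_of_mem_erase hx).symm
      refine card_eq_one.2 ⟨u, eq_singleton_iff_unique_mem.2 ⟨by simp [hI, h1, h2, h3], fun v hv => ?_⟩⟩
      simp only [mem_bipartiteAbove, mem_filter, hI] at hv
      exact h4 v hv.1.1 hv.1.2 hv.2
    · rw [mem_filter] at hs
      rw [← cm s hs.1, ← card_erase_of_mem (a := a) (by simp [hs.2])]
      congr 1
      ext x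
      simp
  have h3 : #I * m = #(univ : Finset Ω) * i :=
    card_mul_eq_card_mul (fun s x => s • x = x) cm fun x _ => ci x
  have h4 : #(univ : Finset Ω) = #(univ.erase a) + 1 := (card_erase_add_one (mem_univ a)).symm
  have m2 : 1 < m := hm ▸ one_lt_card.2 ⟨a, by simp [ta], b, by simp [tb], hab⟩
  have i0 : 0 < i := hi ▸ card_pos.2 ⟨t, by simp [hI, ht, ta]⟩
  obtain ⟨k, rfl⟩ : ∃ k, m = k + 2 := ⟨m - 2, by omega⟩
  rw [hi, mul_one, show k + 2 - 1 = k + 1 from rfl] at h2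
  rw [h2] at h1 h4
  rw [h1, h4] at h3
  have h5 : (2 * k + 3) * (k + 2) = i * (k + 1) + 1 :=
    Nat.eq_of_mul_eq_mul_right i0 (by rw [← h3]; ring)
  have h6 : i = 2 * k + 5 := Nat.eq_of_mul_eq_mul_right (Nat.succ_pos k) (by
    change i * (k + 1) = (2 * k + 5) * (k + 1)
    nlinarith)
  refine ⟨2 * (k + 2), ?_⟩
  rw [show {s : G | orderOf s = 2} = (I : Set G) from Set.ext fun s => (hI s).symm,
    Set.ncard_coe_finset, h1, h6]
  ring

end Cfsg.Agent.H8.L8Cnt
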