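import Mathlib

/-! Fixed points of pronormal subgroups (Praeger), part A: tools. -/

namespace Cfsg.Agent.H8.Pr

open Finset
open scoped Classical Pointwise

set_option linter.unusedSectionVars false

variable {G : Type} [Group G] [Fintype G]

/-- pronormality, in a convenient form -/
def Pron (K : Subgroup G) : Prop :=
  ∀ (g : G) (L : Subgroup G), K ≤ L → (∀ k ∈ K, g * k * g⁻¹ ∈ L) →
    ∃ w ∈ L, w⁻¹ * g ∈ Subgroup.normalizer (K : Set G)

section defs
variable {Ω : Type} [MulAction G Ω] [Fintype Ω]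

/-- fixed points -/
noncomputable def fx (K : Subgroup G) (Ω : Type) [MulAction G Ω] [Fintype Ω] : Finset Ω :=
  univ.filter fun x => ∀ k ∈ K, k • x = x

/-- orbit -/
noncomputable def orb (H : Subgroup G) (x : Ω) : Finset Ω :=
  univ.filter fun y => ∃ h ∈ H, h • x = y

/-- number of fixed points in an orbit -/
noncomputable def cf (K H : Subgroup G) (x : Ω) : ℕ :=
  ((orb H x).filter fun y => y ∈ fx K Ω).card

theorem mem_fx {K : Subgroup G} {x : Ω} : x ∈ fx K Ω ↔ ∀ k ∈ K, k • x = x := by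
  simp [fx]

theorem mem_orb {H : Subgroup G} {x y : Ω} : y ∈ orb H x ↔ ∃ h ∈ H, h • x = y := by
  simp [orb]

theorem self_mem_orb (H : Subgroup G) (x : Ω) : x ∈ orb H x :=
  mem_orb.2 ⟨1, H.one_mem, one_smul _ _⟩

theorem smul_mem_orb {H : Subgroup G} {x y : Ω} {h : G} (hh : h ∈ H) (hy : y ∈ orb H x) :
    h • y ∈ orb H x := by
  obtain ⟨a, ha, rfl⟩ := mem_orb.1 hy
  exact mem_orb.2 ⟨h * a, H.mul_mem hh ha, mul_smul _ _ _⟩

theorem orb_eq {H : Subgroup G} {x y : Ω} (hy : y ∈ orb H x) : orb H y = orb H x := by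
  obtain ⟨a, ha, rfl⟩ := mem_orb.1 hy
  ext z
  simp only [mem_orb]
  constructor
  · rintro ⟨b, hb, rfl⟩
    exact ⟨b * a, H.mul_mem hb ha, mul_smul _ _ _⟩
  · rintro ⟨b, hb, rfl⟩
    exact ⟨b * a⁻¹, H.mul_mem hb (H.inv_mem ha), by rw [mul_smul, inv_smul_smul]⟩

theorem orb_symm {H : Subgroup G} {x y : Ω} (hy : y ∈ orb H x) : x ∈ orb H y := by
  rw [orb_eq hy]; exact self_mem_orb _ _

theorem orb_mono {H L : Subgroup G} (h : H ≤ L) (x : Ω) : orb H x ⊆ orb L x := by
  intro y hy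
  obtain ⟨a, ha, rfl⟩ := mem_orb.1 hy
  exact mem_orb.2 ⟨a, h ha, rfl⟩

/-- pointwise stabiliser -/
def stab (G : Type) [Group G] [MulAction G Ω] (S : Finset Ω) : Subgroup G where
  carrier := {g | ∀ x ∈ S, g • x = x}
  one_mem' := fun x _ => one_smul _ _
  mul_mem' := fun {a b} ha hb x hx => by rw [mul_smul, hb x hx, ha x hx]
  inv_mem' := fun {a} ha x hx => by
    rw [inv_smul_eq_iff, ha x hx]

theorem mem_stab {S : Finset Ω} {g : G} : g ∈ stab G S ↔ ∀ x ∈ S, g • x = x := Iff.rfl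

theorem mem_stab_insert {S : Finset Ω} {a : Ω} {g : G} :
    g ∈ stab G (insert a S) ↔ g • a = a ∧ g ∈ stab G S := by
  simp [mem_stab]

theorem le_stab {K : Subgroup G} {S : Finset Ω} (hS : S ⊆ fx K Ω) : K ≤ stab G S :=
  fun k hk _ hx => mem_fx.1 (hS hx) k hk

/-- invariance of a finite set -/
def Inv (H : Subgroup G) (S : Finset Ω) : Prop := ∀ h ∈ H, ∀ x ∈ S, h • x ∈ S

theorem inv_orb (H : Subgroup G) (x : Ω) : Inv H (orb H x) := fun _ hh _ hy => smul_mem_orb hh hy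

theorem Inv.mono {H L : Subgroup G} {S : Finset Ω} (h : Inv L S) (hl : H ≤ L) : Inv H S :=
  fun a ha x hx => h a (hl ha) x hx

theorem Inv.sdiff {H : Subgroup G} {S A : Finset Ω} (hS : Inv H S) (hA : Inv H A) :
    Inv H (S \ A) := by
  intro h hh x hx
  rw [mem_sdiff] at hx ⊢
  refine ⟨hS h hh x hx.1, fun hc => hx.2 ?_⟩
  have := hA h⁻¹ (H.inv_mem hh) _ hc
  rwa [inv_smul_smul] at this

theorem Inv.orb_sub {H : Subgroup G} {S : Finset Ω} (hS : Inv H S) {x : Ω} (hx : x ∈ S) :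
    orb H x ⊆ S := by
  intro y hy
  obtain ⟨a, ha, rfl⟩ := mem_orb.1 hy
  exact hS a ha x hx

theorem inv_compl (S : Finset Ω) : Inv (stab G S) (univ \ S) := by
  intro h hh x hx
  rw [mem_sdiff] at hx ⊢
  refine ⟨mem_univ _, fun hc => hx.2 ?_⟩
  have h1 : h • h • x = h • x := hh _ hc
  have : h • x = x := smul_left_cancel h h1
  rwa [this] at hc

end defs

/-- the induction hypothesis -/
def Q (K : Subgroup G) (n : ℕ) : Prop :=
  ∀ (Ω : Type) [MulAction G Ω] [Fintype Ω] (H : Subgroup G), K ≤ H → ∀ x : Ω,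
    (orb H x).card < n → (∀ y ∈ orb H x, y ∈ fx K Ω) ∨ 2 * cf K H x + 1 ≤ (orb H x).card

variable {Ω : Type} [MulAction G Ω] [Fintype Ω] {K : Subgroup G}

theorem norm_smul_fx {n : G} (hn : n ∈ Subgroup.normalizer (K : Set G)) {x : Ω}
    (hx : x ∈ fx K Ω) : n • x ∈ fx K Ω := by
  rw [mem_fx] at hx ⊢
  intro k hk
  have h1 : n⁻¹ * k * n ∈ K := by
    have := (Subgroup.mem_normalizer_iff.1 (Subgroup.inv_mem _ hn) k).1 hk
    simpa using this
  have h2 := hx _ h1
  rw [mul_smul, mul_smul, inv_smul_eq_iff] at h2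
  exact h2

theorem norm_smul_fx_iff {n : G} (hn : n ∈ Subgroup.normalizer (K : Set G)) {x : Ω} :
    n • x ∈ fx K Ω ↔ x ∈ fx K Ω := by
  refine ⟨fun h => ?_, norm_smul_fx hn⟩
  have := norm_smul_fx (Subgroup.inv_mem _ hn) h
  rwa [inv_smul_smul] at this

/-- Witt's lemma -/
theorem witt (hP : Pron K) {H : Subgroup G} (hH : K ≤ H) {S : Finset Ω} (hS : S ⊆ fx K Ω)
    {g : G} (hg : g ∈ H) (hgS : ∀ x ∈ S, g • x ∈ fx K Ω) :
    ∃ n ∈ H, n ∈ Subgroup.normalizer (K : Set G) ∧ ∀ x ∈ S, n • x = g • x := by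
  obtain ⟨w, hw, hn⟩ := hP g (H ⊓ stab G (S.image (g • ·))) (le_inf hH (by
      apply le_stab
      intro y hy
      obtain ⟨x, hx, rfl⟩ := mem_image.1 hy
      exact hgS x hx)) (by
      intro k hk
      refine ⟨H.mul_mem (H.mul_mem hg (hH hk)) (H.inv_mem hg), ?_⟩
      intro y hy
      obtain ⟨x, hx, rfl⟩ := mem_image.1 hy
      rw [mul_smul, mul_smul, inv_smul_smul, mem_fx.1 (hS hx) k hk])
  refine ⟨w⁻¹ * g, H.mul_mem (H.inv_mem hw.1) hg, hn, fun x hx => ?_⟩
  rw [mul_smul, inv_smul_eq_iff]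
  exact (hw.2 _ (mem_image_of_mem _ hx)).symm

/-- no `K`-orbit off the fixed set is moved into the fixed set -/
theorem ko (hP : Pron K) {x : Ω} (hx : x ∉ fx K Ω) (g : G)
    (hg : ∀ y ∈ orb K x, g • y ∈ fx K Ω) : False := by
  let L : Subgroup G := MulAction.stabilizer G (orb K x)
  have hL : ∀ a : G, (∀ y ∈ orb K x, a • y ∈ orb K x) → a ∈ L := by
    intro a ha
    rw [MulAction.mem_stabilizer_iff]
    apply eq_of_subset_of_card_le
    · intro z hz
      obtain ⟨y, hy, rfl⟩ := mem_smul_finset.1 hz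
      exact ha y hy
    · rw [card_smul_finset]
  obtain ⟨w, hw, hn⟩ := hP g⁻¹ L (fun k hk => hL k fun y hy => smul_mem_orb hk hy) (by
    intro k hk
    apply hL
    intro y hy
    rw [inv_inv, mul_smul, mul_smul, mem_fx.1 (hg y hy) k hk, inv_smul_smul]
    exact hy)
  have h1 : (w⁻¹ * g⁻¹) • g • x ∈ fx K Ω := norm_smul_fx hn (hg x (self_mem_orb _ _))
  rw [mul_smul, inv_smul_smul] at h1
  have h2 : w⁻¹ • x ∈ orb K x := by
    have := MulAction.mem_stabilizer_iff.1 (L.inv_mem hw)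
    rw [← this]
    exact smul_mem_smul_finset (self_mem_orb _ _)
  obtain ⟨k, hk, hkx⟩ := mem_orb.1 (orb_symm h2)
  rw [mem_fx.1 h1 k hk] at hkx
  exact hx (hkx ▸ h1)

/-- the defect of a finite set -/
noncomputable def dd (K : Subgroup G) (S : Finset Ω) : ℤ :=
  (S.card : ℤ) - 2 * ((S ∩ fx K Ω).card : ℤ)

theorem dd_split {S A : Finset Ω} (h : A ⊆ S) : dd K S = dd K A + dd K (S \ A) := by
  unfold dd
  have h1 := card_sdiff_add_card_eq_card h
  have h2 : (S ∩ fx K Ω).card = (A ∩ fx K Ω).card + ((S \ A) ∩ fx K Ω).card := by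
    rw [← card_union_of_disjoint]
    · congr 1
      ext x
      simp only [mem_inter, mem_union, mem_sdiff]
      have := @h x
      tauto
    · exact disjoint_left.2 fun x hx hy => (mem_sdiff.1 (mem_inter.1 hy).1).2 (mem_inter.1 hx).1
  omega

theorem dd_sub {A : Finset Ω} (h : A ⊆ fx K Ω) : dd K A = -(A.card : ℤ) := by
  unfold dd
  rw [inter_eq_left.2 h]; ring

theorem cf_eq (H : Subgroup G) (x : Ω) : cf K H x = (orb H x ∩ fx K Ω).card := by
  unfold cf
  congr 1

/-- closure-free -/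
def CF (K H : Subgroup G) (S : Finset Ω) : Prop := ∀ x ∈ S, ¬ orb H x ⊆ fx K Ω

theorem CF.mono {H : Subgroup G} {S A : Finset Ω} (h : CF K H S) (hA : A ⊆ S) : CF K H A :=
  fun x hx => h x (hA hx)

theorem dd_orb (hQ : Q K (Fintype.card Ω)) {H : Subgroup G} (hH : K ≤ H) {x : Ω}
    (hc : (orb H x).card < Fintype.card Ω) (hx : ¬ orb H x ⊆ fx K Ω) : 1 ≤ dd K (orb H x) := by
  rcases hQ Ω H hH x hc with h | h
  · exact absurd h hx
  · rw [cf_eq] at h
    unfold dd
    omega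

theorem dd_nonneg (hQ : Q K (Fintype.card Ω)) {H : Subgroup G} (hH : K ≤ H) (S : Finset Ω)
    (hc : S.card < Fintype.card Ω) (hS : Inv H S) (hf : CF K H S) : 0 ≤ dd K S := by
  induction S using Finset.strongInduction with
  | H S ih =>
    rcases S.eq_empty_or_nonempty with rfl | ⟨x, hx⟩
    · simp [dd]
    · have h1 := hS.orb_sub hx
      have h2 := dd_orb hQ hH ((card_le_card h1).trans_lt hc) (hf x hx)
      have h3 := ih (S \ orb H x) (sdiff_ssubset h1 ⟨x, self_mem_orb _ _⟩)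
        ((card_le_card sdiff_subset).trans_lt hc) (hS.sdiff (inv_orb _ _)) (hf.mono sdiff_subset)
      rw [dd_split h1]
      omega

theorem dd_ge (hQ : Q K (Fintype.card Ω)) {H : Subgroup G} (hH : K ≤ H) {S : Finset Ω}
    (hc : S.card < Fintype.card Ω) (hS : Inv H S) (hf : CF K H S) {x : Ω} (hx : x ∈ S) :
    1 ≤ dd K (orb H x) ∧ dd K (orb H x) ≤ dd K S := by
  have h1 := hS.orb_sub hx
  have h2 := dd_orb hQ hH ((card_le_card h1).trans_lt hc) (hf x hx)
  have h3 := dd_nonneg hQ hH (S \ orb H x)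
    ((card_le_card sdiff_subset).trans_lt hc) (hS.sdiff (inv_orb _ _)) (hf.mono sdiff_subset)
  rw [dd_split h1]
  omega

/-- an invariant closure-free set of defect at most one is an orbit -/
theorem orb_of_dd (hQ : Q K (Fintype.card Ω)) {H : Subgroup G} (hH : K ≤ H) {S : Finset Ω}
    (hc : S.card < Fintype.card Ω) (hS : Inv H S) (hf : CF K H S) (hd : dd K S ≤ 1)
    {x : Ω} (hx : x ∈ S) : orb H x = S := by
  have h1 := hS.orb_sub hx
  refine Subset.antisymm h1 fun y hy => ?_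
  by_contra hn
  have h2 := (dd_ge hQ hH hc hS hf hx).1
  have h3 := dd_ge hQ hH ((card_le_card sdiff_subset).trans_lt hc) (hS.sdiff (inv_orb H x))
    (hf.mono sdiff_subset) (mem_sdiff.2 ⟨hy, hn⟩)
  rw [dd_split h1] at hd
  omega

/-- an orbit not inside the fixed set has at least two points outside -/
theorem two_le_out {H : Subgroup G} (hH : K ≤ H) {x : Ω} (hx : ¬ orb H x ⊆ fx K Ω) :
    2 ≤ (orb H x \ fx K Ω).card := by
  obtain ⟨y, hy, hyF⟩ := not_subset.1 hx
  have hyF' := hyF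
  rw [mem_fx] at hyF'
  push Not at hyF'
  obtain ⟨k, hk, hky⟩ := hyF'
  refine one_lt_card.2 ⟨y, mem_sdiff.2 ⟨hy, hyF⟩, k • y, mem_sdiff.2 ⟨smul_mem_orb (hH hk) hy, ?_⟩,
    hky.symm⟩
  intro hc
  have := mem_fx.1 hc k⁻¹ (K.inv_mem hk)
  rw [inv_smul_smul] at this
  exact hky this.symm

theorem dd_out (S : Finset Ω) :
    dd K S = ((S \ fx K Ω).card : ℤ) - ((S ∩ fx K Ω).card : ℤ) := by
  unfold dd
  have := card_sdiff_add_card_inter S (fx K Ω)
  omega

/-- blocks -/
theorem blocks (hP : Pron K) (hQ : Q K (Fintype.card Ω)) {H Y : Subgroup G} (hH : K ≤ H)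
    (hY : Y ≤ H) {c : Ω} (hc : c ∈ fx K Ω) (hcY : ∀ h ∈ H, h • c = c → h ∈ Y)
    (h1 : 1 < (orb Y c).card) (h2 : orb Y c ≠ orb H c) (h3 : ¬ orb H c ⊆ fx K Ω) :
    2 ≤ dd K (orb H c) ∧ (dd K (orb H c) = 2 →
      ((orb Y c).card = 2 ∧ orb Y c ⊆ fx K Ω) ∨
      ((orb H c).card = 2 * (orb Y c).card ∧ dd K (orb Y c) = 1)) := by
  set B := orb Y c with hB
  have hKY : K ≤ Y := fun k hk => hcY k (hH hk) (mem_fx.1 hc k hk)
  have hYB : ∀ y ∈ Y, y • B = B := by
    intro y hy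
    apply eq_of_subset_of_card_le
    · intro z hz
      obtain ⟨w, hw, rfl⟩ := mem_smul_finset.1 hz
      exact smul_mem_orb hy hw
    · rw [card_smul_finset]
  have hblk : ∀ a ∈ H, ∀ b ∈ H, ∀ z, z ∈ a • B → z ∈ b • B → a • B = b • B := by
    intro a ha b hb z hza hzb
    obtain ⟨p, hp, rfl⟩ := mem_smul_finset.1 hza
    obtain ⟨q, hq, hpq⟩ := mem_smul_finset.1 hzb
    obtain ⟨y, hy, rfl⟩ := mem_orb.1 hp
    obtain ⟨y', hy', rfl⟩ := mem_orb.1 hq
    have h4 : y'⁻¹ * b⁻¹ * a * y ∈ Y := by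
      apply hcY
      · exact H.mul_mem (H.mul_mem (H.mul_mem (H.inv_mem (hY hy')) (H.inv_mem hb)) ha) (hY hy)
      · simp only [mul_smul]
        rw [← hpq, inv_smul_smul, inv_smul_smul]
    have h5 : b⁻¹ * a ∈ Y := by
      have := Y.mul_mem (Y.mul_mem hy' h4) (Y.inv_mem hy)
      simpa [mul_assoc] using this
    have := hYB _ h5
    rw [mul_smul, inv_smul_eq_iff] at this
    exact this
  set BB := orb H B with hBB
  have hdisj : ∀ A ∈ BB, ∀ A' ∈ BB, A ≠ A' → Disjoint A A' := by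
    intro A hA A' hA' hne
    obtain ⟨a, ha, rfl⟩ := mem_orb.1 hA
    obtain ⟨b, hb, rfl⟩ := mem_orb.1 hA'
    exact disjoint_left.2 fun z hz hz' => hne (hblk a ha b hb z hz hz')
  have hcB : c ∈ B := self_mem_orb _ _
  have hun : orb H c = BB.biUnion fun A => A := by
    ext z
    simp only [mem_biUnion]
    constructor
    · intro hz
      obtain ⟨a, ha, rfl⟩ := mem_orb.1 hz
      exact ⟨a • B, mem_orb.2 ⟨a, ha, rfl⟩, smul_mem_smul_finset hcB⟩
    · rintro ⟨A, hA, hz⟩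
      obtain ⟨a, ha, rfl⟩ := mem_orb.1 hA
      obtain ⟨p, hp, rfl⟩ := mem_smul_finset.1 hz
      exact smul_mem_orb ha (orb_mono hY c hp)
  have hcard : (orb H c).card = BB.card * B.card := by
    rw [hun, card_biUnion (fun A hA A' hA' hne => hdisj A hA A' hA' hne)]
    rw [← smul_eq_mul, ← sum_const]
    apply sum_congr rfl
    intro A hA
    obtain ⟨a, ha, rfl⟩ := mem_orb.1 hA
    exact card_smul_finset _ _
  set M := BB.filter fun A => (A ∩ fx K Ω).Nonempty with hM
  have hMf : ∀ A ∈ M, (A ∩ fx K Ω).card = (B ∩ fx K Ω).card ∧ A ∈ fx K (Finset Ω) := by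
    intro A hA
    obtain ⟨hA, z, hz⟩ := mem_filter.1 hA
    obtain ⟨a, ha, rfl⟩ := mem_orb.1 hA
    obtain ⟨hz1, hz2⟩ := mem_inter.1 hz
    constructor
    · obtain ⟨p, hp, rfl⟩ := mem_smul_finset.1 hz1
      obtain ⟨y, hy, rfl⟩ := mem_orb.1 hp
      obtain ⟨m, hm, hmn, hmc⟩ := witt hP hH (S := {c}) (singleton_subset_iff.2 hc)
        (H.mul_mem ha (hY hy)) (by
          intro x hx
          rw [mem_singleton.1 hx, mul_smul]; exact hz2)
      have h6 := hmc c (mem_singleton_self _)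
      rw [mul_smul] at h6
      have h7 : a • B = m • B := hblk a ha m hm _ hz1 (h6 ▸ smul_mem_smul_finset hcB)
      rw [h7, ← card_smul_finset m (B ∩ fx K Ω)]
      congr 1
      ext w
      simp only [mem_inter, mem_smul_finset]
      constructor
      · rintro ⟨⟨q, hq, rfl⟩, hw⟩
        exact ⟨q, ⟨hq, (norm_smul_fx_iff hmn).1 hw⟩, rfl⟩
      · rintro ⟨q, ⟨hq, hq'⟩, rfl⟩
        exact ⟨⟨q, hq, rfl⟩, norm_smul_fx hmn hq'⟩
    · rw [mem_fx]
      intro k hk
      rw [← mul_smul]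
      apply hblk _ (H.mul_mem (hH hk) ha) _ ha z _ hz1
      rw [mul_smul]
      have := smul_mem_smul_finset (a := k) hz1
      rwa [mem_fx.1 hz2 k hk] at this
  have hcardF : (orb H c ∩ fx K Ω).card = M.card * (B ∩ fx K Ω).card := by
    have : orb H c ∩ fx K Ω = M.biUnion fun A => A ∩ fx K Ω := by
      rw [hun]
      ext z
      simp only [mem_inter, mem_biUnion, hM, mem_filter]
      constructor
      · rintro ⟨⟨A, hA, hz⟩, hzF⟩
        exact ⟨A, ⟨hA, z, mem_inter.2 ⟨hz, hzF⟩⟩, hz, hzF⟩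
      · rintro ⟨A, ⟨hA, _⟩, hz, hzF⟩
        exact ⟨⟨A, hA, hz⟩, hzF⟩
    rw [this, card_biUnion]
    · rw [← smul_eq_mul, ← sum_const]
      exact sum_congr rfl fun A hA => (hMf A hA).1
    · intro A hA A' hA' hne
      exact (hdisj A (mem_filter.1 hA).1 A' (mem_filter.1 hA').1 hne).mono
        inter_subset_left inter_subset_left
  have hle : (orb H c).card ≤ Fintype.card Ω := card_le_univ _
  have hBB2 : 2 ≤ BB.card := by
    by_contra hn
    apply h2
    apply eq_of_subset_of_card_le (orb_mono hY c)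
    rw [hcard]
    have : BB.card ≤ 1 := by omega
    calc BB.card * B.card ≤ 1 * B.card := Nat.mul_le_mul_right _ this
      _ = B.card := one_mul _
  have hφ : (B ∩ fx K Ω).card ≤ B.card := card_le_card inter_subset_left
  have hBBlt : BB.card < Fintype.card Ω := by nlinarith
  have hBlt : B.card < Fintype.card Ω := by nlinarith
  rcases hQ (Finset Ω) H hH B hBBlt with hall | hless
  · -- every block is fixed by `K`
    have hMB : M = BB := by
      apply filter_true_of_mem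
      intro A hA
      obtain ⟨a, ha, rfl⟩ := mem_orb.1 hA
      obtain ⟨w, hw, hn⟩ := hP a (MulAction.stabilizer G (a • B)) (fun k hk => mem_fx.1 (hall _ hA) k hk) (by
        intro k hk
        rw [MulAction.mem_stabilizer_iff, mul_smul, mul_smul, inv_smul_smul, hYB k (hKY hk)])
      refine ⟨(w⁻¹ * a) • c, mem_inter.2 ⟨?_, norm_smul_fx hn hc⟩⟩
      have := MulAction.mem_stabilizer_iff.1 (Subgroup.inv_mem _ hw)
      rw [← this, mul_smul]
      exact smul_mem_smul_finset (smul_mem_smul_finset hcB)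
    have hBF : ¬ B ⊆ fx K Ω := by
      intro hs
      apply h3
      rw [← inter_eq_left]
      apply eq_of_subset_of_card_le inter_subset_left
      rw [hcard, hcardF, hMB, inter_eq_left.2 hs]
    have h8 := dd_orb hQ hKY hBlt hBF
    have h9 : dd K (orb H c) = BB.card * dd K B := by
      unfold dd
      rw [hcard, hcardF, hMB]
      push_cast; ring
    have h10 : (2 : ℤ) ≤ BB.card := by exact_mod_cast hBB2
    refine ⟨by nlinarith, fun h => Or.inr ?_⟩
    have h11 : dd K B = 1 := by nlinarith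
    rw [h11, h] at h9
    have h12 : BB.card = 2 := by omega
    exact ⟨by rw [hcard, h12], h11⟩
  · have hMc : M.card ≤ cf K H B := by
      unfold cf
      apply card_le_card
      intro A hA
      simp only [mem_filter]
      exact ⟨(mem_filter.1 hA).1, (hMf A hA).2⟩
    have hM1 : 1 ≤ M.card :=
      card_pos.2 ⟨B, mem_filter.2 ⟨self_mem_orb _ _, c, mem_inter.2 ⟨hcB, hc⟩⟩⟩
    have h9 : dd K (orb H c) = BB.card * B.card - 2 * (M.card * (B ∩ fx K Ω).card) := by
      unfold dd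
      rw [hcard, hcardF]
      push_cast; ring
    have h10 : (2 * M.card + 1 : ℤ) ≤ BB.card := by
      rw [← hBB] at hless
      have : 2 * M.card + 1 ≤ BB.card := by omega
      exact_mod_cast this
    have h11 : ((B ∩ fx K Ω).card : ℤ) ≤ B.card := by exact_mod_cast hφ
    have h12 : (2 : ℤ) ≤ B.card := by exact_mod_cast h1
    have h13 : (1 : ℤ) ≤ M.card := by exact_mod_cast hM1
    have h14 : (B.card : ℤ) + 2 * (M.card * (B.card - (B ∩ fx K Ω).card)) ≤ dd K (orb H c) := by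
      rw [h9]; nlinarith
    have h15 : (0 : ℤ) ≤ M.card * (B.card - (B ∩ fx K Ω).card) := by
      apply mul_nonneg <;> omega
    refine ⟨by omega, fun h => Or.inl ⟨by omega, ?_⟩⟩
    rw [← inter_eq_left]
    apply eq_of_subset_of_card_le inter_subset_left
    by_contra hn
    have : (1 : ℤ) ≤ B.card - (B ∩ fx K Ω).card := by omega
    nlinarith

end Cfsg.Agent.H8.Pr
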