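import Cfsg.Agent.H8.PrA

/-! Fixed points of pronormal subgroups (Praeger), part B: closure and counting. -/

namespace Cfsg.Agent.H8.Pr

open Finset
open scoped Classical Pointwise

set_option linter.unusedSectionVars false

variable {G : Type} [Group G] [Fintype G]
variable {Ω : Type} [MulAction G Ω] [Fintype Ω] {K : Subgroup G}

/-- elements moving `S` into the fixed set -/
noncomputable def TT (K : Subgroup G) (S : Finset Ω) : Finset G :=
  univ.filter fun g => ∀ x ∈ S, g • x ∈ fx K Ω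

theorem mem_TT {S : Finset Ω} {g : G} : g ∈ TT K S ↔ ∀ x ∈ S, g • x ∈ fx K Ω := by simp [TT]

theorem mem_TT_insert {S : Finset Ω} {a : Ω} {g : G} :
    g ∈ TT K (insert a S) ↔ g • a ∈ fx K Ω ∧ g ∈ TT K S := by simp [mem_TT]

/-- number of such elements -/
noncomputable def tau (K : Subgroup G) (S : Finset Ω) : ℕ := (TT K S).card

/-- closure -/
def cl (K : Subgroup G) (S : Finset Ω) (z : Ω) : Prop := ∀ g ∈ TT K S, g • z ∈ fx K Ω

theorem cl_of_mem {S : Finset Ω} {z : Ω} (hz : z ∈ S) : cl K S z :=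
  fun _ hg => mem_TT.1 hg z hz

theorem cl.mem {S : Finset Ω} {z : Ω} (h : cl K S z) (hS : S ⊆ fx K Ω) : z ∈ fx K Ω := by
  have := h 1 (mem_TT.2 fun x hx => by rw [one_smul]; exact hS hx)
  rwa [one_smul] at this

theorem cl_iff (hP : Pron K) {S : Finset Ω} (hS : S ⊆ fx K Ω) {z : Ω} :
    cl K S z ↔ orb (stab G S) z ⊆ fx K Ω := by
  constructor
  · intro h y hy
    obtain ⟨a, ha, rfl⟩ := mem_orb.1 hy
    exact h a (mem_TT.2 fun x hx => by rw [ha x hx]; exact hS hx)
  · intro h g hg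
    obtain ⟨m, -, hm, hmg⟩ := witt hP (H := ⊤) le_top hS (Subgroup.mem_top g) (mem_TT.1 hg)
    have h1 : m⁻¹ * g ∈ stab G S := fun x hx => by rw [mul_smul, ← hmg x hx, inv_smul_smul]
    have h2 := norm_smul_fx hm (h (mem_orb.2 ⟨_, h1, rfl⟩))
    rwa [mul_smul, smul_inv_smul] at h2

theorem mem_TT_smul {S : Finset Ω} {a g : G} : g ∈ TT K (a • S) ↔ g * a ∈ TT K S := by
  simp only [mem_TT, mem_smul_finset]
  constructor
  · intro h x hx
    rw [mul_smul]; exact h _ ⟨x, hx, rfl⟩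
  · rintro h _ ⟨x, hx, rfl⟩
    rw [← mul_smul]; exact h x hx

theorem tau_smul (a : G) (S : Finset Ω) : tau K (a • S) = tau K S := by
  unfold tau
  apply card_bij (fun g _ => g * a)
  · intro g hg; exact mem_TT_smul.1 hg
  · intro g _ g' _ h; exact mul_right_cancel h
  · intro g hg
    exact ⟨g * a⁻¹, mem_TT_smul.2 (by simpa using hg), by simp⟩

theorem cl_smul {a : G} {S : Finset Ω} {z : Ω} : cl K (a • S) (a • z) ↔ cl K S z := by
  constructor
  · intro h g hg
    have := h (g * a⁻¹) (mem_TT_smul.2 (by simpa using hg))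
    rwa [mul_smul, inv_smul_smul] at this
  · intro h g hg
    rw [← mul_smul]
    exact h _ (mem_TT_smul.1 hg)

theorem smul_of_stab {S : Finset Ω} {h : G} (hh : h ∈ stab G S) : h • S = S := by
  apply eq_of_subset_of_card_le
  · intro z hz
    obtain ⟨y, hy, rfl⟩ := mem_smul_finset.1 hz
    rw [hh y hy]; exact hy
  · rw [card_smul_finset]

theorem smul_insert_stab {S : Finset Ω} {h : G} (hh : h ∈ stab G S) (a : Ω) :
    h • insert a S = insert (h • a) S := by
  rw [smul_finset_insert, smul_of_stab hh]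

theorem tau_orb {S : Finset Ω} {z y : Ω} (hy : y ∈ orb (stab G S) z) :
    tau K (insert y S) = tau K (insert z S) := by
  obtain ⟨a, ha, rfl⟩ := mem_orb.1 hy
  rw [← smul_insert_stab ha, tau_smul]

theorem tau_pos {S : Finset Ω} (hS : S ⊆ fx K Ω) : 0 < tau K S :=
  card_pos.2 ⟨1, mem_TT.2 fun x hx => by rw [one_smul]; exact hS hx⟩

theorem tau_cl {S : Finset Ω} {z : Ω} (h : cl K S z) : TT K (insert z S) = TT K S := by
  ext g
  rw [mem_TT_insert]
  exact ⟨fun h => h.2, fun hg => ⟨h g hg, hg⟩⟩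

theorem ratio (hP : Pron K) {S : Finset Ω} (hS : S ⊆ fx K Ω) (z : Ω) :
    tau K (insert z S) * (orb (stab G S) z).card =
      tau K S * (orb (stab G S) z ∩ fx K Ω).card := by
  set O := orb (stab G S) z with hO
  have h1 : ∑ y ∈ O, tau K (insert y S) = O.card * tau K (insert z S) := by
    rw [← smul_eq_mul, ← sum_const]
    exact sum_congr rfl fun y hy => tau_orb hy
  have h2 : ∑ y ∈ O, tau K (insert y S) =
      ∑ g ∈ TT K S, (O.filter fun y => g • y ∈ fx K Ω).card := by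
    have : ∀ y ∈ O, tau K (insert y S) = ((TT K S).filter fun g => g • y ∈ fx K Ω).card := by
      intro y _
      unfold tau
      congr 1
      ext g
      rw [mem_TT_insert, mem_filter, and_comm]
    rw [sum_congr rfl this]
    simp only [card_filter]
    exact sum_comm
  have h3 : ∀ g ∈ TT K S, (O.filter fun y => g • y ∈ fx K Ω).card = (O ∩ fx K Ω).card := by
    intro g hg
    obtain ⟨m, -, hm, hmg⟩ := witt hP (H := ⊤) le_top hS (Subgroup.mem_top g) (mem_TT.1 hg)
    have h1 : m⁻¹ * g ∈ stab G S := fun x hx => by rw [mul_smul, ← hmg x hx, inv_smul_smul]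
    apply card_bij (fun y _ => (m⁻¹ * g) • y)
    · intro y hy
      obtain ⟨hy1, hy2⟩ := mem_filter.1 hy
      refine mem_inter.2 ⟨smul_mem_orb h1 hy1, ?_⟩
      rw [mul_smul]
      exact norm_smul_fx (Subgroup.inv_mem _ hm) hy2
    · intro y _ y' _ h
      exact smul_left_cancel _ h
    · intro y hy
      obtain ⟨hy1, hy2⟩ := mem_inter.1 hy
      refine ⟨(m⁻¹ * g)⁻¹ • y, mem_filter.2 ⟨smul_mem_orb (Subgroup.inv_mem _ h1) hy1, ?_⟩,
        smul_inv_smul _ _⟩
      have : g • (m⁻¹ * g)⁻¹ • y = m • y := by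
        rw [← mul_smul]; congr 1; group
      rw [this]
      exact norm_smul_fx hm hy2
  rw [sum_congr rfl h3, sum_const, smul_eq_mul] at h2
  rw [mul_comm, ← h1, h2]
  rfl

theorem card_orb_lt {S : Finset Ω} (hS : S.Nonempty) {z : Ω} (hz : z ∉ S) :
    (orb (stab G S) z).card < Fintype.card Ω := by
  have h1 := (inv_compl (G := G) S).orb_sub (mem_sdiff.2 ⟨mem_univ z, hz⟩)
  obtain ⟨a, ha⟩ := hS
  apply card_lt_card
  refine ⟨subset_univ _, fun h => ?_⟩
  exact (mem_sdiff.1 (h1 (h (mem_univ a)))).2 ha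

theorem half (hP : Pron K) (hQ : Q K (Fintype.card Ω)) {S : Finset Ω} (hS : S ⊆ fx K Ω)
    (hne : S.Nonempty) {z : Ω} (hz : ¬ cl K S z) : 2 * tau K (insert z S) < tau K S := by
  have h1 := ratio hP hS z
  have h2 := dd_orb hQ (le_stab hS) (card_orb_lt hne fun h => hz (cl_of_mem h))
    (fun h => hz ((cl_iff hP hS).2 h))
  unfold dd at h2
  have h3 := tau_pos hS
  have h4 : 2 * (orb (stab G S) z ∩ fx K Ω).card + 1 ≤ (orb (stab G S) z).card := by omega
  by_contra hn
  push Not at hn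
  nlinarith

theorem exch {S : Finset Ω} {e d : Ω} (h : cl K (insert e S) d)
    (ht : tau K (insert e S) = tau K (insert d S)) :
    TT K (insert e S) = TT K (insert d S) := by
  apply eq_of_subset_of_card_le _ ht.ge
  intro g hg
  exact mem_TT_insert.2 ⟨h g hg, (mem_TT_insert.1 hg).2⟩

theorem cl_congr {S S' : Finset Ω} (h : TT K S = TT K S') {z : Ω} : cl K S z ↔ cl K S' z := by
  unfold cl; rw [h]

/-- one-sided closure is two-sided -/
theorem ex (hP : Pron K) (hQ : Q K (Fintype.card Ω)) {S : Finset Ω} (hS : S ⊆ fx K Ω)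
    (hne : S.Nonempty) {e d : Ω} (he : e ∈ fx K Ω) (h : cl K (insert e S) d)
    (hd : ¬ cl K S d)
    (h4 : (orb (stab G S) e).card ≤ 4 * (orb (stab G S) e ∩ fx K Ω).card) :
    TT K (insert e S) = TT K (insert d S) := by
  have heS : insert e S ⊆ fx K Ω := insert_subset he hS
  have hdF := h.mem heS
  have hdS : insert d S ⊆ fx K Ω := insert_subset hdF hS
  have h1 : cl K (insert d S) e := by
    by_contra hn
    have h2 := half hP hQ hdS (insert_nonempty _ _) hn
    have h3 := half hP hQ hS hne hd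
    have h5 : tau K (insert e (insert d S)) = tau K (insert e S) := by
      unfold tau
      rw [insert_comm, tau_cl h]
    have h6 := ratio hP hS e
    have h7 := tau_pos hS
    have h8 : 0 < (orb (stab G S) e).card := card_pos.2 ⟨e, self_mem_orb _ _⟩
    rw [h5] at h2
    nlinarith
  rw [← tau_cl h, ← tau_cl h1, insert_comm]

/-- the closure block -/
theorem cp (hP : Pron K) (hQ : Q K (Fintype.card Ω)) {X : Finset Ω} (hX : X ⊆ fx K Ω) {c : Ω}
    (hc : c ∈ fx K Ω) (h3 : ¬ orb (stab G X) c ⊆ fx K Ω) :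
    (∀ z ∈ orb (stab G X) c, cl K (insert c X) z → z = c) ∨
    (2 ≤ dd K (orb (stab G X) c) ∧ (dd K (orb (stab G X) c) = 2 → ∃ z ∈ orb (stab G X) c, z ≠ c ∧
      ∀ y ∈ orb (stab G X) c, cl K (insert c X) y ↔ y = c ∨ y = z)) := by
  set C := univ.filter fun z => cl K (insert c X) z with hC
  have hmC : ∀ z, z ∈ C ↔ cl K (insert c X) z := fun z => by simp [hC]
  set Y := stab G X ⊓ MulAction.stabilizer G C with hY
  have hsm : ∀ h ∈ stab G X, ∀ z, z ∈ h • C ↔ cl K (insert (h • c) X) z := by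
    intro h hh z
    rw [← smul_insert_stab hh, mem_smul_finset]
    constructor
    · rintro ⟨y, hy, rfl⟩
      exact cl_smul.2 ((hmC y).1 hy)
    · intro hz
      refine ⟨h⁻¹ • z, (hmC _).2 ?_, smul_inv_smul _ _⟩
      rw [← cl_smul (a := h), smul_inv_smul]; exact hz
  have horb : ∀ z, z ∈ orb Y c ↔ z ∈ orb (stab G X) c ∧ cl K (insert c X) z := by
    intro z
    constructor
    · intro hz
      refine ⟨orb_mono inf_le_left c hz, ?_⟩
      obtain ⟨y, hy, rfl⟩ := mem_orb.1 hz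
      rw [← hmC, ← MulAction.mem_stabilizer_iff.1 hy.2]
      exact smul_mem_smul_finset ((hmC c).2 (cl_of_mem (mem_insert_self _ _)))
    · rintro ⟨hz, hcz⟩
      have ht := exch hcz (tau_orb hz).symm
      obtain ⟨a, ha, rfl⟩ := mem_orb.1 hz
      refine mem_orb.2 ⟨a, ⟨ha, ?_⟩, rfl⟩
      apply MulAction.mem_stabilizer_iff.2
      ext y
      rw [hsm a ha, hmC, cl_congr ht]
  have hBF : orb Y c ⊆ fx K Ω := fun z hz => ((horb z).1 hz).2.mem (insert_subset hc hX)
  by_cases h1 : 1 < (orb Y c).card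
  · right
    have hb := blocks hP hQ (le_stab hX) (Y := Y) inf_le_left hc (by
      intro h hh hhc
      refine ⟨hh, MulAction.mem_stabilizer_iff.2 ?_⟩
      ext y
      rw [hsm h hh, hmC, hhc]) h1 (fun h => h3 (h ▸ hBF)) h3
    refine ⟨hb.1, fun h => ?_⟩
    rcases hb.2 h with ⟨h2, -⟩ | ⟨-, h2⟩
    · obtain ⟨z, hz, hzc⟩ := exists_mem_ne h1 c
      refine ⟨z, ((horb z).1 hz).1, hzc, fun y hy => ?_⟩
      have h4 : orb Y c = {c, z} := by
        symm
        apply eq_of_subset_of_card_le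
        · exact insert_subset (self_mem_orb _ _) (singleton_subset_iff.2 hz)
        · rw [h2, card_pair hzc.symm]
      have := horb y
      rw [h4, mem_insert, mem_singleton] at this
      tauto
    · rw [dd_sub hBF] at h2
      omega
  · left
    intro z hz hcz
    exact card_le_one.1 (not_lt.1 h1) z ((horb z).2 ⟨hz, hcz⟩) c (self_mem_orb _ _)

theorem cp1 (hP : Pron K) (hQ : Q K (Fintype.card Ω)) {X : Finset Ω} (hX : X ⊆ fx K Ω) {c : Ω}
    (hc : c ∈ fx K Ω) (h3 : ¬ orb (stab G X) c ⊆ fx K Ω) (hd : dd K (orb (stab G X) c) ≤ 1)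
    {z : Ω} (hz : z ∈ orb (stab G X) c) (hcz : cl K (insert c X) z) : z = c := by
  rcases cp hP hQ hX hc h3 with h | h
  · exact h z hz hcz
  · omega

theorem orb_smul (a : G) (S : Finset Ω) (z : Ω) :
    orb (stab G (a • S)) (a • z) = a • orb (stab G S) z := by
  ext y
  rw [mem_orb, mem_smul_finset]
  constructor
  · rintro ⟨h, hh, rfl⟩
    refine ⟨(a⁻¹ * h * a) • z, mem_orb.2 ⟨_, fun x hx => ?_, rfl⟩, by simp [mul_smul]⟩
    rw [mul_smul, mul_smul, hh _ (smul_mem_smul_finset hx), inv_smul_smul]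
  · rintro ⟨w, hw, rfl⟩
    obtain ⟨h, hh, rfl⟩ := mem_orb.1 hw
    refine ⟨a * h * a⁻¹, fun x hx => ?_, by simp [mul_smul]⟩
    obtain ⟨y, hy, rfl⟩ := mem_smul_finset.1 hx
    rw [mul_smul, mul_smul, inv_smul_smul, hh y hy]

theorem stab_anti {S S' : Finset Ω} (h : S ⊆ S') : stab G S' ≤ stab G S :=
  fun _ hg x hx => hg x (h hx)

/-- primitivity at a point -/
def Prim (H : Subgroup G) (c : Ω) : Prop :=
  ∀ Y : Subgroup G, Y ≤ H → (∀ h ∈ H, h • c = c → h ∈ Y) →
    (orb Y c).card ≤ 1 ∨ orb Y c = orb H c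

/-- a largest suborbit is not an orbit of a two-point stabiliser -/
theorem big {X : Finset Ω} {c d e : Ω} (hpr : Prim (stab G X) c) (hd : d ∈ orb (stab G X) c)
    (he : e ∈ orb (stab G X) c) (hec : e ≠ c)
    (hmax : ∀ y ∈ orb (stab G X) c, y ≠ c →
      (orb (stab G (insert c X)) y).card ≤ (orb (stab G (insert c X)) e).card)
    (hde : d ∉ orb (stab G (insert c X)) e)
    (hmov : ∃ h ∈ stab G (insert d X), h • c ≠ c) :
    orb (stab G (insert d (insert c X))) e ≠ orb (stab G (insert c X)) e := by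
  intro heq
  set D := orb (stab G (insert c X)) e with hD
  have h1 : D ⊆ orb (stab G (insert d X)) e := by
    rw [← heq]
    exact orb_mono (stab_anti (insert_subset_insert _ (subset_insert _ _))) e
  obtain ⟨a, ha, rfl⟩ := mem_orb.1 hd
  have h2 : D = orb (stab G (insert (a • c) X)) e := by
    apply eq_of_subset_of_card_le h1
    rw [← smul_insert_stab ha]
    conv_lhs => rw [← smul_inv_smul a e]
    rw [orb_smul, card_smul_finset]
    apply hmax _ (smul_mem_orb (Subgroup.inv_mem _ ha) he)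
    intro h
    rw [inv_smul_eq_iff] at h
    exact hde (h ▸ self_mem_orb _ _)
  have hst : ∀ h : G, (∀ y ∈ D, h • y ∈ D) → h ∈ MulAction.stabilizer G D := by
    intro h hh
    rw [MulAction.mem_stabilizer_iff]
    apply eq_of_subset_of_card_le
    · intro z hz
      obtain ⟨y, hy, rfl⟩ := mem_smul_finset.1 hz
      exact hh y hy
    · rw [card_smul_finset]
  rcases hpr (stab G X ⊓ MulAction.stabilizer G D) inf_le_left (fun h hh hhc =>
    ⟨hh, hst h fun y hy => smul_mem_orb (mem_stab_insert.2 ⟨hhc, hh⟩) hy⟩) with h | h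
  · obtain ⟨h', hh', hne⟩ := hmov
    apply hne
    apply card_le_one.1 h _ _ _ (self_mem_orb _ _)
    refine mem_orb.2 ⟨h', ⟨(mem_stab_insert.1 hh').2, hst h' fun y hy => ?_⟩, rfl⟩
    rw [h2] at hy ⊢
    exact smul_mem_orb hh' hy
  · rw [← h] at he
    obtain ⟨y, hy, hyc⟩ := mem_orb.1 (orb_symm he)
    have h3 : c ∈ D := by
      rw [← MulAction.mem_stabilizer_iff.1 hy.2, ← hyc]
      exact smul_mem_smul_finset (self_mem_orb _ _)
    obtain ⟨w, hw, hwc⟩ := mem_orb.1 (orb_symm h3)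
    exact hec (hwc.symm.trans (mem_stab_insert.1 hw).1)

theorem symm_tr {X : Finset Ω} {d e : Ω}
    (h : orb (stab G (insert e X)) d = orb (stab G X) d) :
    orb (stab G (insert d X)) e = orb (stab G X) e := by
  refine Subset.antisymm (orb_mono (stab_anti (subset_insert _ _)) e) fun y hy => ?_
  obtain ⟨a, ha, rfl⟩ := mem_orb.1 hy
  have h1 : a⁻¹ • d ∈ orb (stab G (insert e X)) d := by
    rw [h]; exact smul_mem_orb (Subgroup.inv_mem _ ha) (self_mem_orb _ _)
  obtain ⟨k, hk, hkd⟩ := mem_orb.1 h1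
  obtain ⟨hke, hkX⟩ := mem_stab_insert.1 hk
  refine mem_orb.2 ⟨a * k, mem_stab_insert.2 ⟨?_, Subgroup.mul_mem _ ha hkX⟩, ?_⟩
  · rw [mul_smul, hkd, smul_inv_smul]
  · rw [mul_smul, hke]

/-- multiple transitivity -/
def Tr (G Ω : Type) [Group G] [MulAction G Ω] (t : ℕ) : Prop :=
  ∀ (A : Finset Ω) (φ : Ω → Ω), A.card ≤ t → Set.InjOn φ A → ∃ g : G, ∀ x ∈ A, g • x = φ x

theorem Tr.into {t : ℕ} (h : Tr G Ω t) {A B : Finset Ω} (hA : A.card ≤ t) (hB : A.card ≤ B.card) :
    ∃ g : G, ∀ x ∈ A, g • x ∈ B := by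
  rcases A.eq_empty_or_nonempty with rfl | ⟨a, _⟩
  · exact ⟨1, by simp⟩
  have : Nonempty Ω := ⟨a⟩
  obtain ⟨φ, h1, h2⟩ := (A.finite_toSet).exists_injOn_of_encard_le (t := (B : Set Ω))
    (by simpa using hB)
  obtain ⟨g, hg⟩ := h A φ hA h2
  exact ⟨g, fun x hx => by rw [hg x hx]; exact h1 hx⟩

theorem Tr.onto {t : ℕ} (h : Tr G Ω t) {A B : Finset Ω} (hA : A.card ≤ t) (hB : A.card = B.card) :
    ∃ g : G, g • A = B := by
  obtain ⟨g, hg⟩ := h.into hA hB.le
  refine ⟨g, eq_of_subset_of_card_le ?_ (by rw [card_smul_finset, hB])⟩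
  intro z hz
  obtain ⟨y, hy, rfl⟩ := mem_smul_finset.1 hz
  exact hg y hy

theorem Tr.step {t : ℕ} (h : Tr G Ω t) {X : Finset Ω} (hX : X.card = t) {y : Ω}
    (hy : orb (stab G X) y = univ \ X) : Tr G Ω (t + 1) := by
  have key : ∀ X' : Finset Ω, X'.card = t → ∀ a ∉ X', ∀ b ∉ X', ∃ k ∈ stab G X', k • a = b := by
    intro X' hX' a ha b hb
    obtain ⟨g, rfl⟩ := h.onto hX.le (hX.trans hX'.symm)
    have h1 : ∀ z ∉ g • X, z ∈ orb (stab G (g • X)) (g • y) := by
      intro z hz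
      rw [orb_smul, hy, mem_smul_finset]
      refine ⟨g⁻¹ • z, mem_sdiff.2 ⟨mem_univ _, fun hc => hz ?_⟩, smul_inv_smul _ _⟩
      rw [← smul_inv_smul g z]
      exact smul_mem_smul_finset hc
    have h2 := h1 b hb
    rw [← orb_eq (h1 a ha)] at h2
    exact mem_orb.1 h2
  intro A φ hA hφ
  by_cases hA' : A.card ≤ t
  · exact h A φ hA' hφ
  obtain ⟨a, ha⟩ : A.Nonempty := card_pos.1 (by omega)
  have h0 : (A.erase a).card = t := by rw [card_erase_of_mem ha]; omega
  have hφ0 : Set.InjOn φ (A.erase a : Finset Ω) := hφ.mono (by simp)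
  obtain ⟨g, hg⟩ := h (A.erase a) φ h0.le hφ0
  obtain ⟨k, hk, hka⟩ := key ((A.erase a).image φ) (by rw [card_image_of_injOn hφ0, h0])
    (g • a) (by
      intro hc
      obtain ⟨x, hx, hxa⟩ := mem_image.1 hc
      rw [← hg x hx] at hxa
      exact (mem_erase.1 hx).1 (smul_left_cancel g hxa)) (φ a) (by
      intro hc
      obtain ⟨x, hx, hxa⟩ := mem_image.1 hc
      exact (mem_erase.1 hx).1 (hφ (mem_erase.1 hx).2 ha hxa))
  refine ⟨k * g, fun x hx => ?_⟩
  rw [mul_smul]
  by_cases hxa : x = a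
  · rw [hxa, hka]
  · have hx' : x ∈ A.erase a := mem_erase.2 ⟨hxa, hx⟩
    rw [hg x hx']
    exact hk _ (mem_image_of_mem _ hx')

theorem Tr.mono {s t : ℕ} (h : Tr G Ω t) (hs : s ≤ t) : Tr G Ω s :=
  fun A φ hA hφ => h A φ (hA.trans hs) hφ

theorem Tr.orb_eq {t : ℕ} (h : Tr G Ω (t + 1)) {X : Finset Ω} (hX : X.card ≤ t) {y : Ω}
    (hy : y ∉ X) : orb (stab G X) y = univ \ X := by
  refine Subset.antisymm ((inv_compl X).orb_sub (mem_sdiff.2 ⟨mem_univ _, hy⟩)) fun z hz => ?_
  have hz' := (mem_sdiff.1 hz).2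
  obtain ⟨g, hg⟩ := h (insert y X) (fun x => if x = y then z else x)
    (by rw [card_insert_of_notMem hy]; omega) (by
      intro a ha b hb hab
      simp only [coe_insert, Set.mem_insert_iff, mem_coe] at ha hb
      by_cases hay : a = y <;> by_cases hby : b = y
      · rw [hay, hby]
      · simp only [hay, hby, if_true, if_false] at hab
        exact absurd (hab ▸ hb.resolve_left hby) hz'
      · simp only [hay, hby, if_true, if_false] at hab
        exact absurd (hab ▸ ha.resolve_left hay) hz'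
      · simpa only [hay, hby, if_false] using hab)
  refine mem_orb.2 ⟨g, fun x hx => ?_, ?_⟩
  · rw [hg x (mem_insert_of_mem hx), if_neg (fun h : x = y => hy (h ▸ hx))]
  · rw [hg y (mem_insert_self _ _), if_pos rfl]

/-- `K`-orbits off the fixed set are longer than the degree of transitivity -/
theorem Tr.lt_orb {t : ℕ} (h : Tr G Ω t) (hP : Pron K)
    (hn : Fintype.card Ω = 2 * (fx K Ω).card) {x : Ω} (hx : x ∉ fx K Ω) :
    t < (orb K x).card ∧ (orb K x).card ≤ (fx K Ω).card := by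
  have h1 : orb K x ⊆ univ \ fx K Ω := by
    intro y hy
    refine mem_sdiff.2 ⟨mem_univ _, fun hc => hx ?_⟩
    obtain ⟨k, hk, rfl⟩ := mem_orb.1 (orb_symm hy)
    rw [mem_fx.1 hc k hk]; exact hc
  have h2 : (orb K x).card ≤ (fx K Ω).card := by
    have := card_le_card h1
    rw [card_sdiff_of_subset (subset_univ _), card_univ] at this
    omega
  refine ⟨?_, h2⟩
  by_contra hc
  obtain ⟨g, hg⟩ := h.into (not_lt.1 hc) h2
  exact ko hP hx g hg

end Cfsg.Agent.H8.Pr
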