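import Cfsg.Agent.H8.PrB

/-! Fixed points of pronormal subgroups (Praeger), part C: a counterexample is 4-transitive. -/

namespace Cfsg.Agent.H8.Pr

open Finset
open scoped Classical Pointwise

set_option linter.unusedSectionVars false

variable {G : Type} [Group G] [Fintype G]
variable {Ω : Type} [MulAction G Ω] [Fintype Ω] {K : Subgroup G}

theorem card_pre (g : G) : (univ.filter fun y : Ω => g • y ∈ fx K Ω).card = (fx K Ω).card := by
  apply card_bij (fun y _ => g • y)
  · intro y hy; exact (mem_filter.1 hy).2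
  · intro y _ y' _ h; exact smul_left_cancel _ h
  · intro y hy
    exact ⟨g⁻¹ • y, mem_filter.2 ⟨mem_univ _, by rwa [smul_inv_smul]⟩, smul_inv_smul _ _⟩

theorem card_pre_split (g : G) : ((fx K Ω).filter fun y : Ω => g • y ∈ fx K Ω).card +
    ((univ \ fx K Ω).filter fun y : Ω => g • y ∈ fx K Ω).card = (fx K Ω).card := by
  conv_rhs => rw [← card_pre g]
  rw [← card_union_of_disjoint]
  · congr 1
    ext y
    simp only [mem_union, mem_filter, mem_sdiff, mem_univ, true_and]
    tauto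
  · exact disjoint_left.2 fun y hy hy' => (mem_sdiff.1 (mem_filter.1 hy').1).2 (mem_filter.1 hy).1

theorem card_out (hn : Fintype.card Ω = 2 * (fx K Ω).card) :
    (univ \ fx K Ω).card = (fx K Ω).card := by
  rw [card_sdiff_of_subset (subset_univ _), card_univ]; omega

theorem orb_out {x : Ω} (hx : x ∉ fx K Ω) : orb K x ⊆ univ \ fx K Ω := by
  intro y hy
  refine mem_sdiff.2 ⟨mem_univ _, fun hc => hx ?_⟩
  obtain ⟨k, hk, rfl⟩ := mem_orb.1 (orb_symm hy)
  rw [mem_fx.1 hc k hk]; exact hc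

theorem exg {t τ : ℕ} (h1 : ∀ A : Finset Ω, A.card = t + 1 → tau K A = τ) {S : Finset Ω}
    (hS : S.card = t) {e d : Ω} (he : e ∉ S) (hd : d ∉ S) (h : cl K (insert e S) d) :
    TT K (insert e S) = TT K (insert d S) :=
  exch h (by rw [h1 _ (by rw [card_insert_of_notMem he, hS]),
    h1 _ (by rw [card_insert_of_notMem hd, hS])])

theorem sqs (hP : Pron K) (hT : Tr G Ω 1) (hn : Fintype.card Ω = 2 * (fx K Ω).card)
    {x0 : Ω} (hx0 : x0 ∉ fx K Ω) {τ : ℕ} (h1 : ∀ A : Finset Ω, A.card = 3 → tau K A = τ)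
    (h2 : ∀ A : Finset Ω, A.card = 3 → ∃ z ∉ A, ∀ y ∉ A, cl K A y ↔ y = z) : False := by
  set F := fx K Ω with hF
  have hout := card_out hn
  have hf : 0 < F.card := by
    rw [← hout]; exact card_pos.2 ⟨x0, mem_sdiff.2 ⟨mem_univ _, hx0⟩⟩
  have key : ∀ g : G, F.card ≤ 2 * (F.filter fun y : Ω => g • y ∈ F).card := by
    intro g
    have hs := card_pre_split (K := K) (Ω := Ω) g
    rw [← hF] at hs
    rcases ((univ \ F).filter fun y : Ω => g • y ∈ F).eq_empty_or_nonempty with h | ⟨x, hx⟩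
    · rw [h, card_empty] at hs; omega
    rcases (F.filter fun y : Ω => g • y ∈ F).eq_empty_or_nonempty with h | ⟨a, ha⟩
    · exfalso
      rw [h, card_empty, zero_add] at hs
      have h3 : ((univ \ F).filter fun y : Ω => g • y ∈ F) = univ \ F :=
        eq_of_subset_of_card_le (filter_subset _ _) (by rw [hs, hout])
      refine ko hP hx0 g fun y hy => ?_
      have := orb_out hx0 hy
      rw [← h3] at this
      exact (mem_filter.1 this).2
    obtain ⟨hx1, hx2⟩ := mem_filter.1 hx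
    have hxF : x ∉ F := (mem_sdiff.1 hx1).2
    obtain ⟨ha1, ha2⟩ := mem_filter.1 ha
    have hax : a ≠ x := fun h => hxF (h ▸ ha1)
    have hSc : ({a, x} : Finset Ω).card = 2 := card_pair hax
    have hq : ∀ b, b ∉ ({a, x} : Finset Ω) → ∃ z ∉ insert b ({a, x} : Finset Ω),
        ∀ y ∉ insert b ({a, x} : Finset Ω), cl K (insert b {a, x}) y ↔ y = z :=
      fun b hb => h2 _ (by rw [card_insert_of_notMem hb, hSc])
    choose! q hq1 hq2 using hq
    have hqS : ∀ b, b ∉ ({a, x} : Finset Ω) → q b ∉ ({a, x} : Finset Ω) :=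
      fun b hb h => hq1 b hb (mem_insert_of_mem h)
    have hqc : ∀ b, b ∉ ({a, x} : Finset Ω) → cl K (insert b {a, x}) (q b) :=
      fun b hb => (hq2 b hb _ (hq1 b hb)).2 rfl
    have hqq : ∀ b, b ∉ ({a, x} : Finset Ω) → q (q b) = b := by
      intro b hb
      have h3 := exg (t := 2) h1 hSc hb (hqS b hb) (hqc b hb)
      symm
      apply (hq2 (q b) (hqS b hb) b _).1
      · exact (cl_congr h3).1 (cl_of_mem (mem_insert_self _ _))
      · rw [mem_insert, not_or]
        exact ⟨fun h => hq1 b hb (by rw [← h]; exact mem_insert_self _ _), hb⟩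
    have hmF : ∀ b ∈ F.erase a, b ∉ ({a, x} : Finset Ω) := by
      intro b hb
      rw [mem_insert, mem_singleton, not_or]
      exact ⟨(mem_erase.1 hb).1, fun h => hxF (h ▸ (mem_erase.1 hb).2)⟩
    have hmG : ∀ b ∈ (univ \ F).erase x, b ∉ ({a, x} : Finset Ω) := by
      intro b hb
      rw [mem_insert, mem_singleton, not_or]
      exact ⟨fun h => (mem_sdiff.1 (mem_erase.1 hb).2).2 (h ▸ ha1), (mem_erase.1 hb).1⟩
    have hmap : ∀ b ∈ F.erase a, q b ∈ (univ \ F).erase x := by
      intro b hb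
      have hb' := hmF b hb
      have h4 := hq1 b hb'
      simp only [mem_insert, mem_singleton, not_or] at h4
      refine mem_erase.2 ⟨h4.2.2, mem_sdiff.2 ⟨mem_univ _, fun hc => hxF ?_⟩⟩
      have h5 : cl K (insert x {b, a}) (q b) := by
        have : (insert x {b, a} : Finset Ω) = insert b {a, x} := by
          ext w; simp only [mem_insert, mem_singleton]; tauto
        rw [this]; exact hqc b hb'
      have h6 := exg (t := 2) h1 (card_pair (mem_erase.1 hb).1) (by
        simp only [mem_insert, mem_singleton, not_or]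
        exact ⟨fun h => hxF (h ▸ (mem_erase.1 hb).2), hax.symm⟩) (by
        simp only [mem_insert, mem_singleton, not_or]
        exact ⟨h4.1, h4.2.1⟩) h5
      refine ((cl_congr h6).1 (cl_of_mem (mem_insert_self _ _))).mem ?_
      exact insert_subset hc (insert_subset (mem_erase.1 hb).2 (singleton_subset_iff.2 ha1))
    have hinj : Set.InjOn q (F.erase a : Finset Ω) := by
      intro b hb b' hb' h
      rw [← hqq b (hmF b hb), h, hqq b' (hmF b' hb')]
    have hsurj := surjOn_of_injOn_of_card_le q (fun b hb => hmap b hb) hinj (by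
      rw [card_erase_of_mem hx1, card_erase_of_mem ha1, hout])
    have hle : (((univ \ F).filter fun y : Ω => g • y ∈ F).erase x).card ≤
        ((F.filter fun y : Ω => g • y ∈ F).erase a).card := by
      apply card_le_card_of_injOn q
      · intro y hy
        obtain ⟨hy1, hy2⟩ := mem_erase.1 hy
        obtain ⟨hy3, hy4⟩ := mem_filter.1 hy2
        have hy5 : y ∈ (univ \ F).erase x := mem_erase.2 ⟨hy1, hy3⟩
        obtain ⟨b, hb, rfl⟩ := hsurj hy5
        have hb' := hmF b hb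
        rw [hqq b hb']
        refine mem_erase.2 ⟨(mem_erase.1 hb).1, mem_filter.2 ⟨(mem_erase.1 hb).2, ?_⟩⟩
        have := hqc _ (hqS b hb') g (by
          rw [mem_TT_insert, mem_TT_insert, mem_TT]
          exact ⟨hy4, ha2, fun w hw => by rw [mem_singleton.1 hw]; exact hx2⟩)
        rwa [hqq b hb'] at this
      · intro y hy y' hy' h
        have h7 := hmG y (mem_erase.2 ⟨(mem_erase.1 hy).1, (mem_filter.1 (mem_erase.1 hy).2).1⟩)
        have h8 := hmG y' (mem_erase.2 ⟨(mem_erase.1 hy').1, (mem_filter.1 (mem_erase.1 hy').2).1⟩)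
        rw [← hqq y h7, h, hqq y' h8]
    rw [card_erase_of_mem hx, card_erase_of_mem ha] at hle
    have := card_pos.2 ⟨x, hx⟩
    have := card_pos.2 ⟨a, ha⟩
    omega
  have h3 : ∀ a ∈ F, 2 * (univ.filter fun g : G => g • a ∈ F).card = Fintype.card G := by
    intro a _
    have h4 := ratio hP (S := ∅) (empty_subset _) a
    rw [Tr.orb_eq (t := 0) hT (by simp) (notMem_empty a), sdiff_empty, univ_inter, card_univ,
      hn] at h4
    have h5 : tau K (∅ : Finset Ω) = Fintype.card G := by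
      unfold tau TT
      simp
    have h6 : tau K (insert a (∅ : Finset Ω)) = (univ.filter fun g : G => g • a ∈ F).card := by
      unfold tau TT
      simp [hF]
    rw [h5, h6] at h4
    have : F.card * (2 * (univ.filter fun g : G => g • a ∈ F).card) = F.card * Fintype.card G := by
      linarith
    exact Nat.eq_of_mul_eq_mul_left hf this
  have h4 : ∑ g : G, 2 * (F.filter fun y : Ω => g • y ∈ F).card = ∑ _g : G, F.card := by
    rw [← mul_sum]
    simp only [card_filter]
    rw [sum_comm, mul_sum]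
    simp only [← card_filter]
    rw [sum_congr rfl h3, sum_const, sum_const, smul_eq_mul, smul_eq_mul, card_univ, mul_comm]
  have h5 : ∑ _g : G, F.card < ∑ g : G, 2 * (F.filter fun y : Ω => g • y ∈ F).card := by
    apply sum_lt_sum (fun g _ => key g)
    refine ⟨1, mem_univ _, ?_⟩
    rw [filter_true_of_mem (fun y hy => by rwa [one_smul])]
    omega
  omega

theorem s46 (hn : Fintype.card Ω = 2 * (fx K Ω).card) (hf : 4 ≤ (fx K Ω).card)
    {τ : ℕ} (h1 : ∀ A : Finset Ω, A.card = 4 → tau K A = τ)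
    (h2 : ∀ A : Finset Ω, A.card = 4 → ∃ z ∉ A, ∃ z' ∉ A, z ≠ z' ∧ cl K A z ∧ cl K A z') :
    False := by
  set F := fx K Ω with hF
  have hout : (univ \ F).card = F.card := card_out hn
  obtain ⟨a, ha, b, hb, hab⟩ := one_lt_card.1 (show 1 < F.card by omega)
  obtain ⟨x, hx⟩ : (univ \ F).Nonempty := card_pos.1 (by rw [hout]; omega)
  have hxF : x ∉ F := (mem_sdiff.1 hx).2
  have hxa : x ≠ a := fun h => hxF (h ▸ ha)
  have hxb : x ≠ b := fun h => hxF (h ▸ hb)
  set S : Finset Ω := {x, a, b} with hS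
  have hSc : S.card = 3 := card_eq_three.2 ⟨x, a, b, hxa, hxb, hab, rfl⟩
  set C := (F.erase a).erase b with hC
  have hCm : ∀ c ∈ C, c ∈ F ∧ c ≠ a ∧ c ≠ b ∧ c ∉ S := by
    intro c hc
    obtain ⟨h3, h4⟩ := mem_erase.1 hc
    obtain ⟨h5, h6⟩ := mem_erase.1 h4
    refine ⟨h6, h5, h3, ?_⟩
    simp only [hS, mem_insert, mem_singleton, not_or]
    exact ⟨fun h => hxF (h ▸ h6), h5, h3⟩
  let E : Ω → Finset Ω := fun c => univ.filter fun y => y ∉ insert c S ∧ cl K (insert c S) y
  have hE1 : ∀ c ∈ C, 2 ≤ (E c).card := by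
    intro c hc
    obtain ⟨z, hz, z', hz', hne, h3, h4⟩ := h2 (insert c S)
      (by rw [card_insert_of_notMem (hCm c hc).2.2.2, hSc])
    exact one_lt_card.2 ⟨z, mem_filter.2 ⟨mem_univ _, hz, h3⟩, z',
      mem_filter.2 ⟨mem_univ _, hz', h4⟩, hne⟩
  have hE2 : ∀ c ∈ C, ∀ y, y ∉ insert c S → cl K (insert c S) y → y ∉ F := by
    intro c hc y hy h3 hyF
    obtain ⟨h4, h5, h6, h7⟩ := hCm c hc
    simp only [hS, mem_insert, mem_singleton, not_or] at hy h7
    have h8 : (insert c S : Finset Ω) = insert x {c, a, b} := by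
      ext w; simp only [hS, mem_insert, mem_singleton]; tauto
    rw [h8] at h3
    have h9 := exg (t := 3) h1 (S := {c, a, b}) (card_eq_three.2 ⟨c, a, b, h5, h6, hab, rfl⟩) (by
      simp only [mem_insert, mem_singleton, not_or]
      exact ⟨fun h => h7.1 h.symm, hxa, hxb⟩) (by
      simp only [mem_insert, mem_singleton, not_or]
      exact ⟨hy.1, hy.2.2.1, hy.2.2.2⟩) h3
    refine hxF (((cl_congr h9).1 (cl_of_mem (mem_insert_self _ _))).mem ?_)
    exact insert_subset hyF (insert_subset h4 (insert_subset ha (singleton_subset_iff.2 hb)))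
  have hsub : C.biUnion E ⊆ (univ \ F).erase x := by
    intro y hy
    obtain ⟨c, hc, hy⟩ := mem_biUnion.1 hy
    obtain ⟨-, h3, h4⟩ := mem_filter.1 hy
    refine mem_erase.2 ⟨fun h => h3 ?_, mem_sdiff.2 ⟨mem_univ _, hE2 c hc y h3 h4⟩⟩
    rw [h]; exact mem_insert_of_mem (mem_insert_self _ _)
  have hdis : ∀ c ∈ C, ∀ c' ∈ C, c ≠ c' → Disjoint (E c) (E c') := by
    intro c hc c' hc' hne
    refine disjoint_left.2 fun y hy hy' => ?_
    obtain ⟨-, h3, h4⟩ := mem_filter.1 hy
    obtain ⟨-, h5, h6⟩ := mem_filter.1 hy'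
    have h7 := exg (t := 3) h1 hSc (hCm c hc).2.2.2 (fun h => h3 (mem_insert_of_mem h)) h4
    have h8 := exg (t := 3) h1 hSc (hCm c' hc').2.2.2 (fun h => h5 (mem_insert_of_mem h)) h6
    refine hE2 c hc c' ?_ ((cl_congr (h7.trans h8.symm)).2 (cl_of_mem (mem_insert_self _ _)))
      (hCm c' hc').1
    rw [mem_insert, not_or]
    exact ⟨hne.symm, (hCm c' hc').2.2.2⟩
  have h3 := card_le_card hsub
  rw [card_biUnion hdis, card_erase_of_mem hx, hout] at h3
  have h4 : C.card * 2 ≤ ∑ c ∈ C, (E c).card := by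
    rw [← smul_eq_mul, ← sum_const]; exact sum_le_sum hE1
  have h5 : C.card = F.card - 1 - 1 := by
    rw [hC, card_erase_of_mem (mem_erase.2 ⟨hab.symm, hb⟩), card_erase_of_mem ha]
  omega

theorem transport {t : ℕ} (hT : Tr G Ω t) (P : Finset Ω → Prop)
    (hP : ∀ (g : G) A, P A → P (g • A)) {X : Finset Ω} (hX : X.card = t)
    (h : ∀ y ∉ X, ∃ z, y ∈ orb (stab G X) z ∧ P (insert z X)) (A : Finset Ω)
    (hA : A.card = t + 1) : P A := by
  obtain ⟨a, ha⟩ : A.Nonempty := card_pos.1 (by omega)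
  have h0 : (A.erase a).card = t := by rw [card_erase_of_mem ha]; omega
  obtain ⟨g, hg⟩ := hT.onto h0.le (h0.trans hX.symm)
  obtain ⟨z, hz, hPz⟩ := h (g • a) (by
    rw [← hg, smul_mem_smul_finset_iff]; exact notMem_erase _ _)
  obtain ⟨k, hk, hkz⟩ := mem_orb.1 hz
  have h1 := hP g⁻¹ _ (hP k _ hPz)
  rwa [smul_insert_stab hk, hkz, ← hg, ← smul_finset_insert, inv_smul_smul, insert_erase ha] at h1

theorem TT_stab {X : Finset Ω} {a b : Ω} {h : G} (hh : h ∈ stab G X)
    (hab : TT K (insert a X) = TT K (insert b X)) :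
    TT K (insert (h • a) X) = TT K (insert (h • b) X) := by
  ext g
  rw [← smul_insert_stab hh, ← smul_insert_stab hh, mem_TT_smul, mem_TT_smul, hab]

theorem match1 (hP : Pron K) (hQ : Q K (Fintype.card Ω)) {X : Finset Ω} (hX : X ⊆ fx K Ω)
    (hne : X.Nonempty) {d e : Ω} (hd : d ∈ fx K Ω) (he : ¬ orb (stab G X) e ⊆ fx K Ω)
    (hdd : dd K (orb (stab G X) e) ≤ 1)
    (hbig : orb (stab G (insert d X)) e ≠ orb (stab G X) e)
    (h4 : (orb (stab G X) d).card ≤ 4 * (orb (stab G X) d ∩ fx K Ω).card) :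
    ∃ e' ∈ orb (stab G X) e, TT K (insert d X) = TT K (insert e' X) := by
  have hdX : insert d X ⊆ fx K Ω := insert_subset hd hX
  have heX : e ∉ X := fun h => he ((cl_iff hP hX).1 (cl_of_mem h))
  by_contra hn
  apply hbig
  apply orb_of_dd hQ (le_stab hdX) (card_orb_lt hne heX)
    ((inv_orb _ _).mono (stab_anti (subset_insert _ _))) _ hdd (self_mem_orb _ _)
  intro y hy hc
  refine hn ⟨y, hy, ex hP hQ hX hne hd ((cl_iff hP hdX).2 hc) (fun h => he ?_) h4⟩
  rw [← orb_eq hy]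
  exact (cl_iff hP hX).1 h

theorem out_lt {t : ℕ} (hT : Tr G Ω t) (hP : Pron K) (hn : Fintype.card Ω = 2 * (fx K Ω).card)
    {H : Subgroup G} (hH : K ≤ H) {x : Ω} (hx : ¬ orb H x ⊆ fx K Ω) :
    t < (orb H x \ fx K Ω).card := by
  obtain ⟨y, hy, hyF⟩ := not_subset.1 hx
  refine (hT.lt_orb hP hn hyF).1.trans_le (card_le_card fun z hz => ?_)
  refine mem_sdiff.2 ⟨?_, (mem_sdiff.1 (orb_out hyF hz)).2⟩
  rw [← orb_eq hy]; exact orb_mono hH y hz

theorem dd_compl (hn : Fintype.card Ω = 2 * (fx K Ω).card) {X : Finset Ω} (hX : X ⊆ fx K Ω) :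
    dd K (univ \ X) = X.card := by
  have h1 := dd_split (K := K) (subset_univ X)
  rw [dd_sub hX] at h1
  have h2 : dd K (univ : Finset Ω) = 0 := by
    unfold dd
    rw [univ_inter, card_univ, hn]; push_cast; ring
  omega

theorem compl_lt {X : Finset Ω} (hX : X.Nonempty) : (univ \ X).card < Fintype.card Ω := by
  obtain ⟨a, ha⟩ := hX
  exact card_lt_card ⟨subset_univ _, fun h => (mem_sdiff.1 (h (mem_univ a))).2 ha⟩

theorem lev1 (hP : Pron K) (hQ : Q K (Fintype.card Ω)) (hT : Tr G Ω 1) {x0 : Ω}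
    (hx0 : x0 ∉ fx K Ω) (hbad : Fintype.card Ω ≤ 2 * (fx K Ω).card) :
    Tr G Ω 2 ∧ Fintype.card Ω = 2 * (fx K Ω).card := by
  have h0 : 0 < Fintype.card Ω := Fintype.card_pos_iff.2 ⟨x0⟩
  obtain ⟨a, ha⟩ : (fx K Ω).Nonempty := card_pos.1 (show 0 < (fx K Ω).card by omega)
  have h1 : orb (stab G (∅ : Finset Ω)) a = univ := by
    rw [Tr.orb_eq (t := 0) hT (by simp) (notMem_empty a), sdiff_empty]
  have h2 : dd K (univ : Finset Ω) = Fintype.card Ω - 2 * (fx K Ω).card := by
    unfold dd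
    rw [univ_inter, card_univ]
  have hX : insert a (∅ : Finset Ω) ⊆ fx K Ω := insert_subset ha (empty_subset _)
  have hcf : CF K (stab G (insert a (∅ : Finset Ω))) (univ \ insert a (∅ : Finset Ω)) := by
    intro z hz hc
    have := cp1 hP hQ (empty_subset _) ha (by rw [h1]; exact fun h => hx0 (h (mem_univ _)))
      (by rw [h1, h2]; omega) (by rw [h1]; exact mem_univ z) ((cl_iff hP hX).2 hc)
    exact (mem_sdiff.1 hz).2 (this ▸ mem_insert_self _ _)
  have hx : x0 ∈ univ \ insert a (∅ : Finset Ω) := mem_sdiff.2 ⟨mem_univ _, fun h => hx0 (hX h)⟩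
  have h3 := dd_ge hQ (le_stab hX) (compl_lt (insert_nonempty _ _)) (inv_compl _) hcf hx
  have h4 := dd_split (K := K) (subset_univ (insert a (∅ : Finset Ω)))
  have h5 : (insert a (∅ : Finset Ω)).card = 1 := by simp
  rw [dd_sub hX, h2, h5] at h4
  exact ⟨hT.step h5 (orb_of_dd hQ (le_stab hX) (compl_lt (insert_nonempty _ _)) (inv_compl _) hcf
    (by omega) hx), by omega⟩

theorem mov (hP : Pron K) {X : Finset Ω} (hX : X ⊆ fx K Ω) {c : Ω} (hc : c ∈ fx K Ω)
    (h : ¬ cl K X c) : ∃ h ∈ stab G X, h • c ≠ c := by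
  rw [cl_iff hP hX] at h
  obtain ⟨y, hy, hyF⟩ := not_subset.1 h
  obtain ⟨k, hk, rfl⟩ := mem_orb.1 hy
  exact ⟨k, hk, fun h => hyF (by rw [h]; exact hc)⟩

theorem exists_F {S : Finset Ω} (h : dd K S < (S \ fx K Ω).card) : ∃ x ∈ S, x ∈ fx K Ω := by
  rw [dd_out] at h
  obtain ⟨x, hx⟩ : (S ∩ fx K Ω).Nonempty := card_pos.1 (by omega)
  exact ⟨x, (mem_inter.1 hx).1, (mem_inter.1 hx).2⟩

theorem four_le {S : Finset Ω} (h : 3 * dd K S ≤ 2 * (S \ fx K Ω).card) :
    S.card ≤ 4 * (S ∩ fx K Ω).card := by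
  have := dd_out (K := K) S
  have := card_sdiff_add_card_inter S (fx K Ω)
  omega

theorem lev2 (hP : Pron K) (hQ : Q K (Fintype.card Ω)) (hT : Tr G Ω 2) {x0 : Ω}
    (hx0 : x0 ∉ fx K Ω) (hn : Fintype.card Ω = 2 * (fx K Ω).card) : Tr G Ω 3 := by
  have hf := hT.lt_orb hP hn hx0
  obtain ⟨a, ha, b, hb, hab⟩ := one_lt_card.1 (show 1 < (fx K Ω).card by omega)
  have hX0 : ({a} : Finset Ω) ⊆ fx K Ω := singleton_subset_iff.2 ha
  have ho : ∀ c, c ≠ a → orb (stab G ({a} : Finset Ω)) c = univ \ {a} := fun c hc =>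
    Tr.orb_eq (t := 1) hT (by simp) (by simpa using hc)
  have hnF : ¬ (univ \ {a} : Finset Ω) ⊆ fx K Ω := fun h =>
    hx0 (h (mem_sdiff.2 ⟨mem_univ _, fun h => hx0 (hX0 h)⟩))
  have hd1 : dd K (univ \ {a} : Finset Ω) = 1 := by rw [dd_compl hn hX0]; simp
  have hcl : ∀ c ∈ fx K Ω, c ≠ a → ∀ z, z ≠ a → cl K (insert c {a}) z → z = c := by
    intro c hc hca z hz h
    refine cp1 hP hQ hX0 hc (by rw [ho c hca]; exact hnF) (by rw [ho c hca, hd1]) ?_ h
    rw [ho c hca]; simpa using hz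
  have hpr : Prim (stab G ({a} : Finset Ω)) b := by
    intro Y hY hY'
    by_contra hc
    push Not at hc
    have := (blocks hP hQ (le_stab hX0) hY hb hY' hc.1 hc.2
      (by rw [ho b hab.symm]; exact hnF)).1
    rw [ho b hab.symm, hd1] at this
    omega
  set X : Finset Ω := insert b {a} with hXd
  have hX : X ⊆ fx K Ω := insert_subset hb hX0
  have hXc : X.card = 2 := card_pair hab.symm
  have hXn : X.Nonempty := insert_nonempty _ _
  have hmS : ∀ z, z ∈ univ \ X ↔ z ≠ b ∧ z ≠ a := fun z => by simp [hXd]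
  have hcf : CF K (stab G X) (univ \ X) := by
    intro z hz hc
    exact ((hmS z).1 hz).1 (hcl b hb hab.symm z ((hmS z).1 hz).2 ((cl_iff hP hX).2 hc))
  have hx : x0 ∈ univ \ X := mem_sdiff.2 ⟨mem_univ _, fun h => hx0 (hX h)⟩
  have hd2 : dd K (univ \ X) = 2 := by rw [dd_compl hn hX, hXc]; rfl
  have hlt : (univ \ X).card < Fintype.card Ω := compl_lt hXn
  obtain ⟨e, he, hmax⟩ := exists_max_image (univ \ X) (fun y => (orb (stab G X) y).card) ⟨x0, hx⟩
  by_cases hall : orb (stab G X) e = univ \ X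
  · exact hT.step hXc hall
  exfalso
  have hsub := (inv_compl (G := G) X).orb_sub he
  obtain ⟨d0, hd0⟩ : ((univ \ X) \ orb (stab G X) e).Nonempty := by
    rw [sdiff_nonempty]
    exact fun h => hall (Subset.antisymm hsub h)
  have hinvR : Inv (stab G X) ((univ \ X) \ orb (stab G X) e) := (inv_compl X).sdiff (inv_orb _ _)
  have hltR := (card_le_card (sdiff_subset (s := univ \ X) (t := orb (stab G X) e))).trans_lt hlt
  have h1 := dd_ge hQ (le_stab hX) hlt (inv_compl X) hcf he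
  have h2 := dd_ge hQ (le_stab hX) hltR hinvR (hcf.mono sdiff_subset) hd0
  have h3 := dd_split (K := K) hsub
  have hR := orb_of_dd hQ (le_stab hX) hltR hinvR (hcf.mono sdiff_subset) (by omega) hd0
  have h4 := out_lt hT hP hn (le_stab hX) (hcf d0 (mem_sdiff.1 hd0).1)
  obtain ⟨d, hd, hdF⟩ := exists_F (K := K) (S := orb (stab G X) d0) (by omega)
  have hdo := orb_eq hd
  rw [hR] at hd
  have hdS := (hmS d).1 (mem_sdiff.1 hd).1
  have heS := (hmS e).1 he
  have hbig := big hpr (d := d) (e := e) (by rw [ho b hab.symm]; simpa using hdS.2)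
    (by rw [ho b hab.symm]; simpa using heS.2) heS.1 (by
      intro y hy hyb
      rw [ho b hab.symm] at hy
      exact hmax y ((hmS y).2 ⟨hyb, by simpa using hy⟩)) (mem_sdiff.1 hd).2
    (mov hP (insert_subset hdF hX0) hb fun h => hdS.1 (hcl d hdF hdS.2 b hab.symm h).symm)
  obtain ⟨e', he', hTT⟩ := match1 hP hQ hX hXn hdF (hcf e he) (by omega) hbig
    (four_le (by rw [hdo]; omega))
  have heo := orb_eq he'
  have he'F : e' ∈ fx K Ω :=
    ((cl_congr hTT).2 (cl_of_mem (mem_insert_self _ _))).mem (insert_subset hdF hX)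
  have he'S := hsub he'
  have hde : d ≠ e' := fun h => (mem_sdiff.1 hd).2 (h ▸ he')
  have hcase : ∀ y ∉ X, y ∈ orb (stab G X) d ∨ y ∈ orb (stab G X) e' := by
    intro y hy
    by_cases h : y ∈ orb (stab G X) e
    · right; rwa [heo]
    · left; rw [hdo, hR]; exact mem_sdiff.2 ⟨mem_sdiff.2 ⟨mem_univ _, hy⟩, h⟩
  have huniq : ∀ y ∉ X, cl K (insert d X) y → y = d ∨ y = e' := by
    intro y hy h
    rcases hcase y hy with h5 | h5
    · exact Or.inl (cp1 hP hQ hX hdF (hcf d (mem_sdiff.1 hd).1) (by rw [hdo]; omega) h5 h)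
    · exact Or.inr (cp1 hP hQ hX he'F (hcf e' he'S) (by rw [heo]; omega) h5 ((cl_congr hTT).1 h))
  refine sqs hP (hT.mono (by omega)) hn hx0 (τ := tau K (insert d X)) ?_ ?_
  · refine transport hT (fun A => tau K A = tau K (insert d X))
      (fun g A h => by rw [tau_smul]; exact h) hXc fun y hy => ?_
    rcases hcase y hy with h5 | h5
    · exact ⟨d, h5, rfl⟩
    · exact ⟨e', h5, by unfold tau; rw [hTT]⟩
  · refine transport hT (fun A => ∃ z ∉ A, ∀ y ∉ A, cl K A y ↔ y = z) ?_ hXc fun y hy => ?_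
    · rintro g A ⟨z, hz, h⟩
      refine ⟨g • z, by rwa [smul_mem_smul_finset_iff], fun y hy => ?_⟩
      rw [← smul_inv_smul g y] at hy ⊢
      rw [smul_mem_smul_finset_iff] at hy
      rw [cl_smul, h _ hy, smul_left_cancel_iff]
    · rcases hcase y hy with h5 | h5
      · refine ⟨d, h5, e', ?_, fun w hw => ⟨fun h => ?_, ?_⟩⟩
        · rw [mem_insert, not_or]; exact ⟨hde.symm, (mem_sdiff.1 he'S).2⟩
        · rw [mem_insert, not_or] at hw
          exact (huniq w hw.2 h).resolve_left hw.1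
        · rintro rfl
          exact (cl_congr hTT).2 (cl_of_mem (mem_insert_self _ _))
      · refine ⟨e', h5, d, ?_, fun w hw => ⟨fun h => ?_, ?_⟩⟩
        · rw [mem_insert, not_or]; exact ⟨hde, (mem_sdiff.1 (mem_sdiff.1 hd).1).2⟩
        · rw [mem_insert, not_or] at hw
          exact (huniq w hw.2 ((cl_congr hTT).2 h)).resolve_right hw.1
        · rintro rfl
          exact (cl_congr hTT).1 (cl_of_mem (mem_insert_self _ _))

end Cfsg.Agent.H8.Pr
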