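import Cfsg.Agent.H8.PrC

/-! Fixed points of pronormal subgroups (Praeger), part D: from 3- to 4-transitivity. -/

namespace Cfsg.Agent.H8.Pr

open Finset
open scoped Classical Pointwise

set_option linter.unusedSectionVars false

variable {G : Type} [Group G] [Fintype G]
variable {Ω : Type} [MulAction G Ω] [Fintype Ω] {K : Subgroup G}

/-- order of a pointwise stabiliser -/
noncomputable def sc (G : Type) [Group G] [Fintype G] [MulAction G Ω] (S : Finset Ω) : ℕ :=
  (univ.filter fun g : G => g ∈ stab G S).card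

theorem sc_pos (S : Finset Ω) : 0 < sc G S :=
  card_pos.2 ⟨1, mem_filter.2 ⟨mem_univ _, Subgroup.one_mem _⟩⟩

theorem sc_orb (S : Finset Ω) (z : Ω) :
    sc G S = (orb (stab G S) z).card * sc G (insert z S) := by
  unfold sc
  rw [card_eq_sum_card_fiberwise (f := fun g : G => g • z) (t := orb (stab G S) z) (by
    intro g hg
    exact mem_orb.2 ⟨g, (mem_filter.1 hg).2, rfl⟩), ← smul_eq_mul, ← sum_const]
  apply sum_congr rfl
  intro y hy
  obtain ⟨a, ha, rfl⟩ := mem_orb.1 hy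
  apply card_bij (fun g _ => a⁻¹ * g)
  · intro g hg
    obtain ⟨h1, h2⟩ := mem_filter.1 hg
    refine mem_filter.2 ⟨mem_univ _, mem_stab_insert.2 ⟨?_,
      Subgroup.mul_mem _ (Subgroup.inv_mem _ ha) (mem_filter.1 h1).2⟩⟩
    rw [mul_smul, h2, inv_smul_smul]
  · intro g _ g' _ h; exact mul_left_cancel h
  · intro g hg
    obtain ⟨h1, h2⟩ := mem_stab_insert.1 (mem_filter.1 hg).2
    refine ⟨a * g, mem_filter.2 ⟨mem_filter.2 ⟨mem_univ _, Subgroup.mul_mem _ ha h2⟩, ?_⟩, by simp⟩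
    rw [mul_smul, h1]

theorem sc_smul (a : G) (S : Finset Ω) : sc G (a • S) = sc G S := by
  unfold sc
  apply card_bij (fun g _ => a⁻¹ * g * a)
  · intro g hg
    refine mem_filter.2 ⟨mem_univ _, fun x hx => ?_⟩
    rw [mul_smul, mul_smul, (mem_filter.1 hg).2 _ (smul_mem_smul_finset hx), inv_smul_smul]
  · intro g _ g' _ h
    simpa using h
  · intro g hg
    refine ⟨a * g * a⁻¹, mem_filter.2 ⟨mem_univ _, fun x hx => ?_⟩, by group⟩
    obtain ⟨y, hy, rfl⟩ := mem_smul_finset.1 hx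
    rw [mul_smul, mul_smul, inv_smul_smul, (mem_filter.1 hg).2 y hy]

/-- a 3-transitive group whose two-point stabiliser has two blocks, the three-point stabiliser
being transitive on the other block -/
theorem two_blocks (hT : Tr G Ω 3) {a b c : Ω} (hab : a ≠ b) (hc : c ∉ ({a, b} : Finset Ω))
    {Y : Subgroup G} (hY : Y ≤ stab G ({a, b} : Finset Ω))
    (hY' : ∀ h ∈ stab G ({a, b} : Finset Ω), h • c = c → h ∈ Y) (h1 : 1 < (orb Y c).card)
    (h2 : (univ \ ({a, b} : Finset Ω)).card = 2 * (orb Y c).card)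
    (h3 : ∀ e ∈ (univ \ ({a, b} : Finset Ω)) \ orb Y c,
      orb (stab G (insert c {a, b})) e = (univ \ ({a, b} : Finset Ω)) \ orb Y c) : False := by
  set X0 : Finset Ω := {a, b} with hX0
  set B := orb Y c with hB
  have hX0c : X0.card = 2 := card_pair hab
  have ho : ∀ z ∉ X0, orb (stab G X0) z = univ \ X0 := fun z hz =>
    Tr.orb_eq (t := 2) hT hX0c.le hz
  have hBs : B ⊆ univ \ X0 := by rw [← ho c hc]; exact orb_mono hY c
  have hB2 : ((univ \ X0) \ B).card = B.card := by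
    rw [card_sdiff_of_subset hBs]; omega
  have hYc : stab G (insert c X0) ≤ Y := fun h hh =>
    hY' h (mem_stab_insert.1 hh).2 (mem_stab_insert.1 hh).1
  have hinY : ∀ h ∈ stab G X0, ∀ z ∈ B, h • z ∈ B → h ∈ Y := by
    intro h hh z hz hz'
    obtain ⟨y, hy, rfl⟩ := mem_orb.1 hz
    obtain ⟨y', hy', h4⟩ := mem_orb.1 hz'
    have h5 : y'⁻¹ * h * y ∈ Y := by
      apply hY' _ (Subgroup.mul_mem _ (Subgroup.mul_mem _ (Subgroup.inv_mem _ (hY hy')) hh) (hY hy))
      rw [mul_smul, mul_smul, ← h4, inv_smul_smul]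
    have := Y.mul_mem (Y.mul_mem hy' h5) (Y.inv_mem hy)
    simpa [mul_assoc] using this
  have hblk : ∀ h ∈ stab G X0, ∀ z ∉ X0, (z ∈ B ↔ (h • c ∈ B ↔ h • z ∈ B)) := by
    intro h hh z hz
    by_cases hcB : h • c ∈ B
    · have h4 := hinY h hh c (self_mem_orb _ _) hcB
      simp only [hcB, true_iff]
      refine ⟨smul_mem_orb h4, fun h5 => ?_⟩
      have := smul_mem_orb (Y.inv_mem h4) h5
      rwa [inv_smul_smul] at this
    · have h4 : h • B = (univ \ X0) \ B := by
        apply eq_of_subset_of_card_le _ (by rw [card_smul_finset, hB2])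
        intro w hw
        obtain ⟨y, hy, rfl⟩ := mem_smul_finset.1 hw
        exact mem_sdiff.2 ⟨inv_compl X0 h hh y (hBs hy), fun h5 =>
          hcB (smul_mem_orb (hinY h hh y hy h5) (self_mem_orb _ _))⟩
      simp only [hcB, false_iff]
      rw [← smul_mem_smul_finset_iff h, h4, mem_sdiff]
      exact ⟨fun h5 => h5.2, fun h5 => ⟨inv_compl X0 h hh z (mem_sdiff.2 ⟨mem_univ _, hz⟩), h5⟩⟩
  obtain ⟨od, hodd⟩ : ∃ od : Finset Ω → Prop, ∀ A, od A ↔ B.card * sc G A = sc G (insert c X0) :=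
    ⟨_, fun _ => Iff.rfl⟩
  have hod : ∀ (g : G) A, od (g • A) ↔ od A := fun g A => by simp only [hodd, sc_smul]
  have hod1 : ∀ e ∉ X0, e ≠ c → (od (insert e (insert c X0)) ↔ e ∉ B) := by
    intro e he hec
    have h4 := sc_orb (G := G) (insert c X0) e
    have h5 := sc_pos (G := G) (insert e (insert c X0))
    rw [hodd]
    constructor
    · intro h6 heB
      have h7 : orb (stab G (insert c X0)) e ⊆ B.erase c := by
        intro w hw
        obtain ⟨k, hk, rfl⟩ := mem_orb.1 hw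
        refine mem_erase.2 ⟨fun h8 => hec ?_, smul_mem_orb (hYc hk) heB⟩
        rw [← (mem_stab_insert.1 hk).1] at h8
        exact smul_left_cancel _ h8
      have h8 := card_le_card h7
      rw [card_erase_of_mem (self_mem_orb _ _)] at h8
      have h9 : B.card = (orb (stab G (insert c X0)) e).card :=
        Nat.eq_of_mul_eq_mul_right h5 (h6.trans h4)
      rw [← hB] at h8
      omega
    · intro heB
      rw [h4, h3 e (mem_sdiff.2 ⟨mem_sdiff.2 ⟨mem_univ _, he⟩, heB⟩), hB2]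
  have hod2 : ∀ x ∉ X0, ∀ y ∉ X0, y ≠ x → (od (insert y (insert x X0)) ↔ ¬ (x ∈ B ↔ y ∈ B)) := by
    intro x hx y hy hyx
    obtain ⟨h, hh, rfl⟩ := mem_orb.1 (show x ∈ orb (stab G X0) c by
      rw [ho c hc]; exact mem_sdiff.2 ⟨mem_univ _, hx⟩)
    have hy' : h⁻¹ • y ∉ X0 :=
      (mem_sdiff.1 (inv_compl X0 h⁻¹ (Subgroup.inv_mem _ hh) y (mem_sdiff.2 ⟨mem_univ _, hy⟩))).2
    have h4 := hblk h hh _ hy'
    rw [smul_inv_smul] at h4
    rw [← h4, ← hod1 _ hy' (fun h5 => hyx (by rw [← h5, smul_inv_smul])), ← hod h (insert (h⁻¹ • y) (insert c X0)),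
      smul_finset_insert, smul_insert_stab hh, smul_inv_smul]
  have hod3 : ∀ p q : Ω, p ≠ q → ∃ χ : Ω → Prop, ∀ x y : Ω, x ≠ p → x ≠ q → y ≠ p → y ≠ q →
      y ≠ x → (od {y, x, p, q} ↔ ¬ (χ x ↔ χ y)) := by
    intro p q hpq
    obtain ⟨g, hg⟩ := hT.onto (A := {p, q}) (B := X0) (by rw [card_pair hpq]; omega)
      (by rw [card_pair hpq, hX0c])
    refine ⟨fun x => g • x ∈ B, fun x y h4 h5 h6 h7 h8 => ?_⟩
    rw [← hod g, smul_finset_insert, smul_finset_insert, hg]
    apply hod2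
    · rw [← hg, smul_mem_smul_finset_iff]; simp [h4, h5]
    · rw [← hg, smul_mem_smul_finset_iff]; simp [h6, h7]
    · exact fun h => h8 (smul_left_cancel _ h)
  obtain ⟨e, he, z, hz, hez⟩ := one_lt_card.1 (show 1 < ((univ \ X0) \ B).card by omega)
  obtain ⟨he1, he2⟩ := mem_sdiff.1 he
  obtain ⟨hz1, hz2⟩ := mem_sdiff.1 hz
  have he3 := (mem_sdiff.1 he1).2
  have hz3 := (mem_sdiff.1 hz1).2
  have hcB : c ∈ B := self_mem_orb _ _
  have hec : e ≠ c := fun h => he2 (h ▸ hcB)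
  have hzc : z ≠ c := fun h => hz2 (h ▸ hcB)
  have o1 : od {e, c, a, b} := (hod2 c hc e he3 hec).2 (fun h => he2 (h.1 hcB))
  have o2 : od {z, c, a, b} := (hod2 c hc z hz3 hzc).2 (fun h => hz2 (h.1 hcB))
  have o3 : ¬ od {z, e, a, b} := by
    rw [hod2 e he3 z hz3 hez.symm, not_not]
    exact iff_of_false he2 hz2
  simp only [hX0, mem_insert, mem_singleton, not_or] at hc he3 hz3
  obtain ⟨χ, hχ⟩ := hod3 a c (fun h => hc.1 h.symm)
  have p1 := hχ b e hab.symm (fun h => hc.2 h.symm) he3.1 hec he3.2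
  have p2 := hχ b z hab.symm (fun h => hc.2 h.symm) hz3.1 hzc hz3.2
  have p3 := hχ e z he3.1 hec hz3.1 hzc hez.symm
  rw [show ({e, b, a, c} : Finset Ω) = {e, c, a, b} by
    ext w; simp only [mem_insert, mem_singleton]; clear * -; tauto] at p1
  rw [show ({z, b, a, c} : Finset Ω) = {z, c, a, b} by
    ext w; simp only [mem_insert, mem_singleton]; clear * -; tauto] at p2
  have o4 : ¬ od {z, e, a, c} := by
    have r1 := p1.1 o1
    have r2 := p2.1 o2
    rw [p3, not_not]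
    clear * - r1 r2
    tauto
  obtain ⟨ψ, hψ⟩ := hod3 a e (fun h => he3.1 h.symm)
  have q1 := hψ b z hab.symm (fun h => he3.2 h.symm) hz3.1 hez.symm hz3.2
  have q2 := hψ c z hc.1 hec.symm hz3.1 hez.symm hzc
  have q3 := hψ b c hab.symm (fun h => he3.2 h.symm) hc.1 hec.symm hc.2
  rw [show ({z, b, a, e} : Finset Ω) = {z, e, a, b} by
    ext w; simp only [mem_insert, mem_singleton]; clear * -; tauto] at q1
  rw [show ({z, c, a, e} : Finset Ω) = {z, e, a, c} by
    ext w; simp only [mem_insert, mem_singleton]; clear * -; tauto] at q2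
  rw [show ({c, b, a, e} : Finset Ω) = {e, c, a, b} by
    ext w; simp only [mem_insert, mem_singleton]; clear * -; tauto] at q3
  have r1 := q1.not.1 o3
  have r2 := q2.not.1 o4
  have r3 := q3.1 o1
  clear * - r1 r2 r3
  tauto

theorem three (hT : Tr G Ω 3) (hn : Fintype.card Ω = 2 * (fx K Ω).card)
    (hf : 4 ≤ (fx K Ω).card) {X : Finset Ω} (hXc : X.card = 3) {y1 y2 y3 : Ω}
    (h1 : y1 ∉ X) (h2 : y2 ∉ X) (h3 : y3 ∉ X) (h12 : y1 ≠ y2) (h13 : y1 ≠ y3) (h23 : y2 ≠ y3)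
    (e12 : TT K (insert y1 X) = TT K (insert y2 X)) (e13 : TT K (insert y1 X) = TT K (insert y3 X))
    (hcov : ∀ y ∉ X, y ∈ orb (stab G X) y1 ∨ y ∈ orb (stab G X) y2 ∨ y ∈ orb (stab G X) y3) :
    False := by
  have c1 : cl K (insert y1 X) y1 := cl_of_mem (mem_insert_self _ _)
  have c2 : cl K (insert y1 X) y2 := (cl_congr e12).2 (cl_of_mem (mem_insert_self _ _))
  have c3 : cl K (insert y1 X) y3 := (cl_congr e13).2 (cl_of_mem (mem_insert_self _ _))
  refine s46 hn hf (τ := tau K (insert y1 X)) ?_ ?_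
  · refine transport hT (fun A => tau K A = tau K (insert y1 X))
      (fun g A h => by rw [tau_smul]; exact h) hXc fun y hy => ?_
    rcases hcov y hy with h5 | h5 | h5
    · exact ⟨y1, h5, rfl⟩
    · exact ⟨y2, h5, by unfold tau; rw [e12]⟩
    · exact ⟨y3, h5, by unfold tau; rw [e13]⟩
  · refine transport hT (fun A => ∃ z ∉ A, ∃ z' ∉ A, z ≠ z' ∧ cl K A z ∧ cl K A z') ?_ hXc
      fun y hy => ?_
    · rintro g A ⟨z, hz, z', hz', hne, h4, h5⟩
      exact ⟨g • z, by rwa [smul_mem_smul_finset_iff], g • z', by rwa [smul_mem_smul_finset_iff],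
        fun h => hne (smul_left_cancel _ h), cl_smul.2 h4, cl_smul.2 h5⟩
    · rcases hcov y hy with h5 | h5 | h5
      · exact ⟨y1, h5, y2, by simp [h12.symm, h2], y3, by simp [h13.symm, h3], h23, c2, c3⟩
      · exact ⟨y2, h5, y1, by simp [h12, h1], y3, by simp [h23.symm, h3], h13,
          (cl_congr e12).1 c1, (cl_congr e12).1 c3⟩
      · exact ⟨y3, h5, y1, by simp [h13, h1], y2, by simp [h23, h2], h12,
          (cl_congr e13).1 c1, (cl_congr e13).1 c2⟩

theorem ratio_two (hP : Pron K) {X : Finset Ω} (hX : X ⊆ fx K Ω) {d e : Ω}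
    (h : TT K (insert d X) = TT K (insert e X)) (hd : dd K (orb (stab G X) d) = 1)
    (he : dd K (orb (stab G X) e) = 2) :
    (orb (stab G X) d).card < (orb (stab G X) e).card := by
  have h1 := ratio hP hX d
  have h2 := ratio hP hX e
  have h3 : tau K (insert d X) = tau K (insert e X) := by unfold tau; rw [h]
  have h4 := tau_pos hX
  unfold dd at hd he
  set m1 := (orb (stab G X) d).card
  set m2 := (orb (stab G X) e).card
  set f1 := (orb (stab G X) d ∩ fx K Ω).card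
  set f2 := (orb (stab G X) e ∩ fx K Ω).card
  have h5 : m1 = 2 * f1 + 1 := by omega
  have h6 : m2 = 2 * f2 + 2 := by omega
  have h7 : tau K X * (f1 * m2) = tau K X * (f2 * m1) := by
    calc tau K X * (f1 * m2) = (tau K X * f1) * m2 := by ring
      _ = tau K (insert d X) * m1 * m2 := by rw [h1]
      _ = (tau K (insert e X) * m2) * m1 := by rw [h3]; ring
      _ = tau K X * (f2 * m1) := by rw [h2]; ring
  have h8 := Nat.eq_of_mul_eq_mul_left h4 h7
  rw [h5, h6] at h8 ⊢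
  nlinarith

theorem lev3 (hP : Pron K) (hQ : Q K (Fintype.card Ω)) (hT : Tr G Ω 3) {x0 : Ω}
    (hx0 : x0 ∉ fx K Ω) (hn : Fintype.card Ω = 2 * (fx K Ω).card) : Tr G Ω 4 := by
  have hf := hT.lt_orb hP hn hx0
  obtain ⟨a, ha, b, hb, c, hc, hab, hac, hbc⟩ := two_lt_card.1 (show 2 < (fx K Ω).card by omega)
  set X0 : Finset Ω := {a, b} with hX0d
  have hX0 : X0 ⊆ fx K Ω := insert_subset ha (singleton_subset_iff.2 hb)
  have hX0c : X0.card = 2 := card_pair hab
  have hcX0 : c ∉ X0 := by simp [hX0d, hac.symm, hbc.symm]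
  have ho : ∀ z ∉ X0, orb (stab G X0) z = univ \ X0 := fun z hz =>
    Tr.orb_eq (t := 2) hT hX0c.le hz
  have hnF : ¬ univ \ X0 ⊆ fx K Ω := fun h =>
    hx0 (h (mem_sdiff.2 ⟨mem_univ _, fun h => hx0 (hX0 h)⟩))
  have hd1 : dd K (univ \ X0) = 2 := by rw [dd_compl hn hX0, hX0c]; rfl
  have hcl : ∀ d ∈ fx K Ω, d ∉ X0 → ∀ z ∉ X0, cl K (insert d X0) z → z = d := by
    intro d hd hdX z hz h
    rcases cp hP hQ hX0 hd (by rw [ho d hdX]; exact hnF) with h1 | h1
    · exact h1 z (by rw [ho d hdX]; exact mem_sdiff.2 ⟨mem_univ _, hz⟩) h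
    exfalso
    obtain ⟨w, hw, hwd, h2⟩ := h1.2 (by rw [ho d hdX, hd1])
    rw [ho d hdX] at hw h2
    refine sqs hP (hT.mono (by omega)) hn hx0 (τ := tau K (insert d X0)) ?_ ?_
    · intro A hA
      obtain ⟨g, hg⟩ := hT.onto hA.le (B := insert d X0)
        (by rw [hA, card_insert_of_notMem hdX, hX0c])
      rw [← hg, tau_smul]
    · refine transport (hT.mono (by omega : 2 ≤ 3))
        (fun A => ∃ z ∉ A, ∀ y ∉ A, cl K A y ↔ y = z) ?_ hX0c fun y hy => ?_
      · rintro g A ⟨z, hz, h⟩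
        refine ⟨g • z, by rwa [smul_mem_smul_finset_iff], fun y hy => ?_⟩
        rw [← smul_inv_smul g y] at hy ⊢
        rw [smul_mem_smul_finset_iff] at hy
        rw [cl_smul, h _ hy, smul_left_cancel_iff]
      · refine ⟨d, by rw [ho d hdX]; exact mem_sdiff.2 ⟨mem_univ _, hy⟩, w, ?_, fun v hv => ?_⟩
        · rw [mem_insert, not_or]; exact ⟨hwd, (mem_sdiff.1 hw).2⟩
        · rw [mem_insert, not_or] at hv
          rw [h2 v (mem_sdiff.2 ⟨mem_univ _, hv.2⟩)]
          tauto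
  set X : Finset Ω := insert c X0 with hXd
  have hX : X ⊆ fx K Ω := insert_subset hc hX0
  have hXc : X.card = 3 := by rw [hXd, card_insert_of_notMem hcX0, hX0c]
  have hXn : X.Nonempty := insert_nonempty _ _
  have hmS : ∀ z, z ∈ univ \ X ↔ z ≠ c ∧ z ∉ X0 := fun z => by
    rw [mem_sdiff, hXd, mem_insert]; simp
  have hcf : CF K (stab G X) (univ \ X) := by
    intro z hz h
    exact ((hmS z).1 hz).1 (hcl c hc hcX0 z ((hmS z).1 hz).2 ((cl_iff hP hX).2 h))
  have hlt : (univ \ X).card < Fintype.card Ω := compl_lt hXn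
  have hpr : Prim (stab G X0) c := by
    intro Y hY hY'
    by_contra hcon
    push Not at hcon
    have hYc : stab G X ≤ Y := fun h hh =>
      hY' h (mem_stab_insert.1 hh).2 (mem_stab_insert.1 hh).1
    have hBs : orb Y c ⊆ univ \ X0 := by rw [← ho c hcX0]; exact orb_mono hY c
    rcases (blocks hP hQ (le_stab hX0) hY hc hY' hcon.1 hcon.2
      (by rw [ho c hcX0]; exact hnF)).2 (by rw [ho c hcX0, hd1]) with ⟨-, h1⟩ | ⟨h1, h2⟩
    · obtain ⟨z, hz, hzc⟩ := exists_mem_ne hcon.1 c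
      refine hcf z ((hmS z).2 ⟨hzc, (mem_sdiff.1 (hBs hz)).2⟩) (Subset.trans ?_ h1)
      rw [← orb_eq hz]; exact orb_mono hYc z
    · rw [ho c hcX0] at h1
      refine two_blocks hT hab hcX0 hY hY' hcon.1 h1 fun e he => ?_
      have h3 : (univ \ X0) \ orb Y c ⊆ univ \ X := by
        intro w hw
        obtain ⟨h4, h5⟩ := mem_sdiff.1 hw
        exact (hmS w).2 ⟨fun h => h5 (h ▸ self_mem_orb _ _), (mem_sdiff.1 h4).2⟩
      refine orb_of_dd hQ (le_stab hX) ((card_le_card h3).trans_lt hlt)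
        (((inv_compl X0).mono (stab_anti (subset_insert _ _))).sdiff ((inv_orb _ _).mono hYc))
        (hcf.mono h3) ?_ he
      have := dd_split (K := K) hBs
      omega
  have hx : x0 ∈ univ \ X := mem_sdiff.2 ⟨mem_univ _, fun h => hx0 (hX h)⟩
  have hd2 : dd K (univ \ X) = 3 := by rw [dd_compl hn hX, hXc]; rfl
  obtain ⟨e0, he0, hmax⟩ :=
    exists_max_image (univ \ X) (fun y => (orb (stab G X) y).card) ⟨x0, hx⟩
  by_cases hall : orb (stab G X) e0 = univ \ X
  · exact hT.step hXc hall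
  exfalso
  have hsub := (inv_compl (G := G) X).orb_sub he0
  set R := (univ \ X) \ orb (stab G X) e0 with hRd
  obtain ⟨d0, hd0⟩ : R.Nonempty := by
    rw [hRd, sdiff_nonempty]
    exact fun h => hall (Subset.antisymm hsub h)
  have hinvR : Inv (stab G X) R := (inv_compl X).sdiff (inv_orb _ _)
  have hRs : R ⊆ univ \ X := sdiff_subset
  have hltR := (card_le_card hRs).trans_lt hlt
  have h1 := dd_ge hQ (le_stab hX) hlt (inv_compl X) hcf he0
  have h2 := fun d hd => dd_ge hQ (le_stab hX) hltR hinvR (hcf.mono hRs) (x := d) hd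
  have h2' := h2 d0 hd0
  have h3 := dd_split (K := K) hsub
  rw [← hRd] at h3
  have h4 := fun d hd => out_lt hT hP hn (le_stab hX) (hcf d hd)
  have hF : ∀ y ∈ univ \ X, dd K (orb (stab G X) y) ≤ 2 → ∃ d ∈ orb (stab G X) y, d ∈ fx K Ω :=
    fun y hy h => exists_F (by have := h4 y hy; omega)
  have h44 : ∀ y ∈ univ \ X, dd K (orb (stab G X) y) ≤ 2 →
      (orb (stab G X) y).card ≤ 4 * (orb (stab G X) y ∩ fx K Ω).card :=
    fun y hy h => four_le (by have := h4 y hy; omega)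
  obtain ⟨e, he, heF⟩ := hF e0 he0 (by omega)
  have heo := orb_eq he
  have heS := hsub he
  have hbig : ∀ d ∈ R, d ∈ fx K Ω → orb (stab G (insert d X)) e ≠ orb (stab G X) e := by
    intro d hd hdF
    have hdS := (hmS d).1 (hRs hd)
    refine big hpr (by rw [ho c hcX0]; exact mem_sdiff.2 ⟨mem_univ _, hdS.2⟩)
      (by rw [ho c hcX0]; exact mem_sdiff.2 ⟨mem_univ _, ((hmS e).1 heS).2⟩) ((hmS e).1 heS).1
      ?_ (by rw [← hXd, heo]; exact (mem_sdiff.1 hd).2)
      (mov hP (insert_subset hdF hX0) hc fun h => hdS.1 (hcl d hdF hdS.2 c hcX0 h).symm)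
    intro y hy hyc
    rw [ho c hcX0] at hy
    rw [← hXd, heo]
    exact hmax y ((hmS y).2 ⟨hyc, (mem_sdiff.1 hy).2⟩)
  have hnX : ∀ y ∈ univ \ X, y ∉ X := fun y hy => (mem_sdiff.1 hy).2
  by_cases hj : dd K (orb (stab G X) e0) = 2
  · have hR := fun d hd => orb_of_dd hQ (le_stab hX) hltR hinvR (hcf.mono hRs) (by omega)
      (x := d) hd
    obtain ⟨d, hd, hdF⟩ := hF d0 (hRs hd0) (by omega)
    rw [hR d0 hd0] at hd
    obtain ⟨d', hd', hTT⟩ := match1 hP hQ hX hXn heF (hcf d (hRs hd)) (by rw [hR d hd]; omega)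
      (fun h => hbig d hd hdF (symm_tr h)) (h44 e heS (by rw [heo]; omega))
    rw [hR d hd] at hd'
    have hlt2 := ratio_two hP hX hTT.symm (by rw [hR d' hd']; omega) (by rw [heo, hj])
    have hp : ∀ y ∈ orb (stab G X) e, ∃ p ∈ orb (stab G X) d',
        TT K (insert y X) = TT K (insert p X) := by
      intro y hy
      obtain ⟨h, hh, rfl⟩ := mem_orb.1 hy
      exact ⟨h • d', smul_mem_orb hh (self_mem_orb _ _), TT_stab hh hTT⟩
    choose! p hp1 hp2 using hp
    obtain ⟨y1, hy1, y2, hy2, hne, hpp⟩ := exists_ne_map_eq_of_card_lt_of_maps_to hlt2 hp1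
    have hp3 := hp1 y1 hy1
    rw [hR d' hd'] at hp3
    rw [heo] at hy1 hy2
    refine three hT hn (by omega) hXc (hnX y1 (hsub hy1)) (hnX y2 (hsub hy2)) (hnX _ (hRs hp3)) hne
      (fun h => (mem_sdiff.1 hp3).2 (h ▸ hy1)) (fun h => (mem_sdiff.1 hp3).2 (h ▸ hy2))
      (by rw [hp2 y1 (heo ▸ hy1), hp2 y2 (heo ▸ hy2), hpp]) (hp2 y1 (heo ▸ hy1)) fun y hy => ?_
    by_cases h : y ∈ orb (stab G X) e0
    · left; rwa [orb_eq hy1]
    · right; right
      rw [hR _ hp3]; exact mem_sdiff.2 ⟨mem_sdiff.2 ⟨mem_univ _, hy⟩, h⟩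
  · have hj1 : dd K (orb (stab G X) e) = 1 := by rw [heo]; omega
    have hm : ∀ y ∈ R, ∃ d ∈ orb (stab G X) y, TT K (insert d X) = TT K (insert e X) := by
      intro y hy
      have h5 := h2 y hy
      obtain ⟨d, hd, hdF⟩ := hF y (hRs hy) (by omega)
      have hdR := hinvR.orb_sub hy hd
      obtain ⟨e', he', hTT⟩ := match1 hP hQ hX hXn hdF (hcf e heS) hj1.le (hbig d hdR hdF)
        (h44 d (hRs hdR) (by rw [orb_eq hd]; omega))
      obtain ⟨h, hh, hhe⟩ := mem_orb.1 (orb_symm he')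
      exact ⟨h • d, smul_mem_orb hh hd, by rw [← hhe]; exact TT_stab hh hTT⟩
    obtain ⟨d, hd, hTT⟩ := hm d0 hd0
    have hdo := orb_eq hd
    have hdR := hinvR.orb_sub hd0 hd
    by_cases h5 : dd K (orb (stab G X) d0) = 2
    · have h6 := ratio_two hP hX hTT.symm hj1 (by rw [hdo, h5])
      have h7 := hmax d (hRs hdR)
      rw [heo] at h6
      omega
    have hsub2 := hinvR.orb_sub hd0
    have h6 := dd_split (K := K) hsub2
    obtain ⟨d1, hd1'⟩ : (R \ orb (stab G X) d0).Nonempty := by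
      rw [nonempty_iff_ne_empty]
      intro h
      rw [h] at h6
      simp only [dd, card_empty, empty_inter] at h6
      simp only [dd] at h1 h2' h3 hd2 hj h5
      omega
    have hR2 := fun d hd => orb_of_dd hQ (le_stab hX)
      ((card_le_card (sdiff_subset (s := R) (t := orb (stab G X) d0))).trans_lt hltR)
      (hinvR.sdiff (inv_orb _ _)) ((hcf.mono hRs).mono sdiff_subset) (by omega) (x := d) hd
    obtain ⟨d', hd', hTT'⟩ := hm d1 (mem_sdiff.1 hd1').1
    rw [hR2 d1 hd1'] at hd'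
    have hd'R := (mem_sdiff.1 hd').1
    refine three hT hn (by omega) hXc (hnX e heS) (hnX d (hRs hdR)) (hnX d' (hRs hd'R))
      (fun h => (mem_sdiff.1 hdR).2 (h ▸ he)) (fun h => (mem_sdiff.1 hd'R).2 (h ▸ he))
      (fun h => (mem_sdiff.1 hd').2 (h ▸ hd)) hTT.symm hTT'.symm fun y hy => ?_
    by_cases h : y ∈ orb (stab G X) e0
    · left; rwa [heo]
    · right
      by_cases h' : y ∈ orb (stab G X) d0
      · left; rwa [hdo]
      · right
        rw [hR2 _ hd']
        exact mem_sdiff.2 ⟨mem_sdiff.2 ⟨mem_sdiff.2 ⟨mem_univ _, hy⟩, h⟩, h'⟩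

end Cfsg.Agent.H8.Pr
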