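import Cfsg.Agent.H8.PrD

/-! Bochert's bound for the minimal degree of a 4-transitive group. -/

namespace Cfsg.Agent.H8.Pr

open Finset
open scoped Classical Pointwise

set_option linter.unusedSectionVars false

variable {G : Type} [Group G] [Fintype G]
variable {Ω : Type} [MulAction G Ω] [Fintype Ω]

/-- multiple transitivity of a subgroup on a finite set -/
def TrOn (H : Subgroup G) (E : Finset Ω) (t : ℕ) : Prop :=
  ∀ (A : Finset Ω) (φ : Ω → Ω), A ⊆ E → A.card ≤ t → Set.InjOn φ A → (∀ x ∈ A, φ x ∈ E) →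
    ∃ g ∈ H, ∀ x ∈ A, g • x = φ x

/-- support inside a finite set -/
noncomputable def supp (E : Finset Ω) (g : G) : Finset Ω := E.filter fun x => g • x ≠ x

theorem mem_supp {E : Finset Ω} {g : G} {x : Ω} : x ∈ supp E g ↔ x ∈ E ∧ g • x ≠ x := by
  simp [supp]

theorem TrOn.four {H : Subgroup G} {E : Finset Ω} (h : TrOn H E 4) {a b c d a' b' c' d' : Ω}
    (ha : a ∈ E) (hb : b ∈ E) (hc : c ∈ E) (hd : d ∈ E)
    (ha' : a' ∈ E) (hb' : b' ∈ E) (hc' : c' ∈ E) (hd' : d' ∈ E)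
    (hab : a ≠ b) (hac : a ≠ c) (had : a ≠ d) (hbc : b ≠ c) (hbd : b ≠ d) (hcd : c ≠ d)
    (hab' : a' ≠ b') (hac' : a' ≠ c') (had' : a' ≠ d') (hbc' : b' ≠ c') (hbd' : b' ≠ d')
    (hcd' : c' ≠ d') : ∃ g ∈ H, g • a = a' ∧ g • b = b' ∧ g • c = c' ∧ g • d = d' := by
  let φ : Ω → Ω := fun x => if x = a then a' else if x = b then b' else if x = c then c' else d'
  have e1 : φ a = a' := by simp [φ]
  have e2 : φ b = b' := by simp [φ, hab.symm]
  have e3 : φ c = c' := by simp [φ, hac.symm, hbc.symm]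
  have e4 : φ d = d' := by simp [φ, had.symm, hbd.symm, hcd.symm]
  obtain ⟨g, hg, h1⟩ := h {a, b, c, d} φ (by
      intro x hx
      simp only [mem_insert, mem_singleton] at hx
      rcases hx with rfl | rfl | rfl | rfl <;> assumption) card_le_four (by
      intro x hx y hy hxy
      simp only [coe_insert, coe_singleton, Set.mem_insert_iff, Set.mem_singleton_iff] at hx hy
      rcases hx with rfl | rfl | rfl | rfl <;> rcases hy with rfl | rfl | rfl | rfl <;>
        first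
        | rfl
        | (simp only [e1, e2, e3, e4] at hxy; first | contradiction | exact absurd hxy.symm ‹_›))
    (by
      intro x hx
      simp only [mem_insert, mem_singleton] at hx
      rcases hx with rfl | rfl | rfl | rfl
      · rwa [e1]
      · rwa [e2]
      · rwa [e3]
      · rwa [e4])
  exact ⟨g, hg, by rw [h1 a (by simp), e1], by rw [h1 b (by simp), e2], by rw [h1 c (by simp), e3],
    by rw [h1 d (by simp), e4]⟩

theorem cnt {H : Subgroup G} {E : Finset Ω} (hE : Inv H E) (hT : TrOn H E 4) {a b : Ω}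
    (ha : a ∈ E) (hb : b ∈ E) (hab : a ≠ b) (S : Finset G) (hS : ∀ g ∈ S, g ∈ H)
    (hS' : ∀ g ∈ S, ∀ h ∈ H, h • a = a → h • b = b → g * h ∈ S) (P : Ω → Ω → Prop) (k : ℕ)
    (hk0 : ∀ g ∈ S, ∃ T : Finset (Ω × Ω), k ≤ T.card ∧
      ∀ p ∈ T, p ∈ ((E.erase (g • a)).erase (g • b)).offDiag ∧ P p.1 p.2)
    {x y : Ω} (hx : x ∈ (E.erase a).erase b)
    (hy : y ∈ (E.erase a).erase b) (hxy : x ≠ y) {W : Finset G}
    (hW : ∀ g ∈ S, P (g • x) (g • y) → g ∈ W) :
    k * S.card ≤ (E.card - 2) * (E.card - 3) * W.card := by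
  have hk : ∀ g ∈ S, k ≤ ((((E.erase (g • a)).erase (g • b)).offDiag).filter
      fun p => P p.1 p.2).card := by
    intro g hg
    obtain ⟨T, h1, h2⟩ := hk0 g hg
    exact h1.trans (card_le_card fun p hp => mem_filter.2 (h2 p hp))
  refine le_trans ?_ (Nat.mul_le_mul_left _ (card_le_card (s := S.filter fun g => P (g • x) (g • y))
    fun g hg => hW g (mem_filter.1 hg).1 (mem_filter.1 hg).2))
  set E' := (E.erase a).erase b with hE'
  have hm : ∀ z, z ∈ E' ↔ z ≠ b ∧ z ≠ a ∧ z ∈ E := fun z => by simp [hE']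
  have h1 : ∀ p ∈ E'.offDiag, (S.filter fun g => P (g • p.1) (g • p.2)).card ≤
      (S.filter fun g => P (g • x) (g • y)).card := by
    intro p hp
    obtain ⟨hp1, hp2, hp3⟩ := mem_offDiag.1 hp
    rw [hm] at hp1 hp2 hx hy
    obtain ⟨h, hh, e1, e2, e3, e4⟩ := hT.four ha hb hx.2.2 hy.2.2 ha hb hp1.2.2 hp2.2.2 hab
      hx.2.1.symm hy.2.1.symm hx.1.symm hy.1.symm hxy hab hp1.2.1.symm hp2.2.1.symm hp1.1.symm
      hp2.1.symm hp3
    apply card_le_card_of_injOn (fun g => g * h)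
    · intro g hg
      obtain ⟨hg1, hg2⟩ := mem_filter.1 hg
      refine mem_filter.2 ⟨hS' g hg1 h hh e1 e2, ?_⟩
      rw [mul_smul, mul_smul, e3, e4]; exact hg2
    · intro g _ g' _ h; exact mul_right_cancel h
  have h2 : ∑ p ∈ E'.offDiag, (S.filter fun g => P (g • p.1) (g • p.2)).card =
      ∑ g ∈ S, (E'.offDiag.filter fun p => P (g • p.1) (g • p.2)).card := by
    simp only [card_filter]
    exact sum_comm
  have h3 : ∀ g ∈ S, k ≤ (E'.offDiag.filter fun p => P (g • p.1) (g • p.2)).card := by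
    intro g hg
    refine (hk g hg).trans (card_le_card_of_injOn (fun p => (g⁻¹ • p.1, g⁻¹ • p.2)) ?_ ?_)
    · intro p hp
      obtain ⟨hp0, hp4⟩ := mem_filter.1 hp
      obtain ⟨hp1, hp2, hp3⟩ := mem_offDiag.1 hp0
      have key : ∀ z ∈ (E.erase (g • a)).erase (g • b), g⁻¹ • z ∈ E' := by
        intro z hz
        simp only [mem_erase] at hz
        rw [hm]
        exact ⟨fun h => hz.1 (inv_smul_eq_iff.1 h), fun h => hz.2.1 (inv_smul_eq_iff.1 h),
          hE _ (H.inv_mem (hS g hg)) z hz.2.2⟩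
      refine mem_filter.2 ⟨mem_offDiag.2 ⟨key _ hp1, key _ hp2,
        fun h => hp3 (smul_left_cancel _ h)⟩, ?_⟩
      simpa only [smul_inv_smul] using hp4
    · intro p _ p' _ h
      simp only [Prod.mk.injEq, smul_left_cancel_iff] at h
      exact Prod.ext h.1 h.2
  have h4 := sum_le_sum h1
  have h5 := sum_le_sum h3
  rw [sum_const, smul_eq_mul, offDiag_card] at h4
  rw [sum_const, smul_eq_mul, ← h2] at h5
  have h6 : E'.card = E.card - 2 := by
    rw [hE', card_erase_of_mem (mem_erase.2 ⟨hab.symm, hb⟩), card_erase_of_mem ha]; omega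
  have h7 : E'.card * E'.card - E'.card = (E.card - 2) * (E.card - 3) := by
    rw [h6, show E.card - 3 = E.card - 2 - 1 by omega, Nat.mul_sub_one]
  rw [h7] at h4
  rw [mul_comm]
  exact h5.trans h4

theorem boch_main {H : Subgroup G} {E : Finset Ω} (hE : Inv H E) (hT : TrOn H E 4) {u : G}
    (hu : u ∈ H) (hmin : ∀ c ∈ H, (supp E c).Nonempty → (supp E u).card ≤ (supp E c).card)
    {r s : ℕ} (hr : (supp E u).card = r + 4) (hs : E.card = 2 * r + 12 + s) {a : Ω}
    (ha : a ∈ supp E u) (hcase : u • u • a ≠ a ∨ (2 ≤ r ∧ ∀ x ∈ E, u • u • x = x)) : False := by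
  set U := supp E u with hU
  set F := E.filter fun x => u • x = x with hF
  have hmF : ∀ x, x ∈ F ↔ x ∈ E ∧ u • x = x := fun x => by simp [hF]
  have hmU : ∀ x, x ∈ U ↔ x ∈ E ∧ u • x ≠ x := fun x => mem_supp
  have hFc : F.card = r + 8 + s := by
    have := card_filter_add_card_filter_not (s := E) fun x => u • x = x
    change F.card + U.card = _ at this
    omega
  have huU : ∀ x ∈ U, u • x ∈ U := fun x hx =>
    (hmU _).2 ⟨hE u hu x ((hmU x).1 hx).1, fun h => ((hmU x).1 hx).2 (smul_left_cancel _ h)⟩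
  have huU' : ∀ x ∈ U, u⁻¹ • x ∈ U := fun x hx =>
    (hmU _).2 ⟨hE _ (H.inv_mem hu) x ((hmU x).1 hx).1, fun h => ((hmU x).1 hx).2 (by
      rw [smul_inv_smul, eq_inv_smul_iff] at h; exact h)⟩
  set b := u • a with hb
  have hbU : b ∈ U := huU a ha
  have haE := ((hmU a).1 ha).1
  have hbE := ((hmU b).1 hbU).1
  have hab : a ≠ b := ((hmU a).1 ha).2.symm
  set S := univ.filter fun g : G => g ∈ H ∧ g • a ∈ F ∧ g • b ∈ U with hS
  have hmS : ∀ g, g ∈ S ↔ g ∈ H ∧ g • a ∈ F ∧ g • b ∈ U := fun g => by simp [hS]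
  have hS1 : ∀ g ∈ S, g ∈ H := fun g hg => ((hmS g).1 hg).1
  have hS2 : ∀ g ∈ S, ∀ h ∈ H, h • a = a → h • b = b → g * h ∈ S := by
    intro g hg h hh e1 e2
    rw [hmS] at hg ⊢
    rw [mul_smul, mul_smul, e1, e2]
    exact ⟨H.mul_mem hg.1 hh, hg.2⟩
  have hFU : ∀ x ∈ F, x ∈ (E.erase a).erase b := by
    intro x hx
    rw [hmF] at hx
    exact mem_erase.2 ⟨fun h => ((hmU b).1 hbU).2 (h ▸ hx.2),
      mem_erase.2 ⟨fun h => ((hmU a).1 ha).2 (h ▸ hx.2), hx.1⟩⟩
  have hSpos : 0 < S.card := by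
    obtain ⟨p, hp, q, hq, w, hw, hpq, hpw, hqw⟩ := two_lt_card.1 (show 2 < F.card by omega)
    have e1 := hFU p hp
    have e2 := hFU q hq
    have e3 := hFU w hw
    simp only [mem_erase] at e1 e2 e3
    obtain ⟨g, hg, f1, f2, -, -⟩ := hT.four haE hbE e1.2.2 e2.2.2 e3.2.2 hbE e1.2.2 e2.2.2 hab
      e1.2.1.symm e2.2.1.symm e1.1.symm e2.1.symm hpq e3.1 hpw.symm hqw.symm e1.1.symm e2.1.symm hpq
    exact card_pos.2 ⟨g, (hmS g).2 ⟨hg, by rw [f1]; exact hw, by rw [f2]; exact hbU⟩⟩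
  -- the three counts
  have hEe : ∀ p ∈ E, ∀ q ∈ E, p ≠ q → ((E.erase p).erase q).card = 2 * r + 10 + s := by
    intro p hp q hq hpq
    rw [card_erase_of_mem (mem_erase.2 ⟨hpq.symm, hq⟩), card_erase_of_mem hp]; omega
  have hne : ∀ g ∈ S, g • a ≠ g • b := fun g _ h => hab (smul_left_cancel _ h)
  have hsubF : ∀ g ∈ S, F.erase (g • a) ⊆ (E.erase (g • a)).erase (g • b) := by
    intro g hg x hx
    obtain ⟨h1, h2⟩ := mem_erase.1 hx
    rw [hmF] at h2
    exact mem_erase.2 ⟨fun h => ((hmU _).1 ((hmS g).1 hg).2.2).2 (h ▸ h2.2),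
      mem_erase.2 ⟨h1, h2.1⟩⟩
  have hFe : ∀ g ∈ S, (F.erase (g • a)).card = r + 7 + s := fun g hg => by
    rw [card_erase_of_mem ((hmS g).1 hg).2.1]; omega
  have c3 := @cnt G _ _ Ω _ _ H E hE hT a b haE hbE hab S hS1 hS2 (fun x _ => u • x = x)
    ((r + 7 + s) * (2 * r + 9 + s)) (by
      intro g hg
      set E' := (E.erase (g • a)).erase (g • b) with hE'
      refine ⟨(F.erase (g • a)).biUnion (fun x => (E'.erase x).image fun y => (x, y)),
        le_of_eq ?_, fun p hp => ?_⟩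
      swap
      · obtain ⟨x, hx, hp⟩ := mem_biUnion.1 hp
        obtain ⟨y, hy, rfl⟩ := mem_image.1 hp
        exact ⟨mem_offDiag.2 ⟨hsubF g hg hx, (mem_erase.1 hy).2,
          (mem_erase.1 hy).1.symm⟩, ((hmF x).1 (mem_erase.1 hx).2).2⟩
      rw [card_biUnion, ← hFe g hg, ← smul_eq_mul, ← sum_const]
      · apply sum_congr rfl
        intro x hx
        rw [card_image_of_injective _ (fun y y' h => (Prod.mk.inj h).2),
          card_erase_of_mem (hsubF g hg hx), hEe _ (hE g (hS1 g hg) a haE) _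
            (hE g (hS1 g hg) b hbE) (hne g hg)]
        omega
      · intro x _ x' _ hxx
        refine disjoint_left.2 fun p hp hp' => hxx ?_
        obtain ⟨y, -, rfl⟩ := mem_image.1 hp
        obtain ⟨y', -, h⟩ := mem_image.1 hp'
        exact (Prod.mk.inj h).1.symm)
  have c4 := @cnt G _ _ Ω _ _ H E hE hT a b haE hbE hab S hS1 hS2
    (fun x y => u • x = x ∧ u • y = y) ((r + 7 + s) * (r + 6 + s)) (by
      intro g hg
      refine ⟨(F.erase (g • a)).offDiag, le_of_eq ?_, fun p hp => ?_⟩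
      swap
      · obtain ⟨h2, h3, h4⟩ := mem_offDiag.1 hp
        exact ⟨mem_offDiag.2 ⟨hsubF g hg h2, hsubF g hg h3, h4⟩,
          ((hmF _).1 (mem_erase.1 h2).2).2, ((hmF _).1 (mem_erase.1 h3).2).2⟩
      rw [offDiag_card, hFe g hg, ← Nat.mul_sub_one]
      congr 1
      omega)
  have cB := @cnt G _ _ Ω _ _ H E hE hT a b haE hbE hab S hS1 hS2
    (fun x y => u • x = y) (r + 2) (by
      intro g hg
      have hgb := ((hmS g).1 hg).2.2
      have hga := ((hmF _).1 ((hmS g).1 hg).2.1).2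
      have h0 : ((U.erase (g • b)).erase (u⁻¹ • g • b)).card = r + 2 := by
        rw [card_erase_of_mem (mem_erase.2 ⟨_, huU' _ hgb⟩), card_erase_of_mem hgb]
        · omega
        · intro h
          rw [inv_smul_eq_iff] at h
          exact ((hmU _).1 hgb).2 h.symm
      refine ⟨((U.erase (g • b)).erase (u⁻¹ • g • b)).image fun x => (x, u • x), ?_, fun p hp => ?_⟩
      · rw [card_image_of_injective _ (fun x y h => (Prod.mk.inj h).1), h0]
      · obtain ⟨x, hx, rfl⟩ := mem_image.1 hp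
        obtain ⟨h1, h2⟩ := mem_erase.1 hx
        obtain ⟨h3, h4⟩ := mem_erase.1 h2
        have h5 := huU x h4
        refine ⟨mem_offDiag.2 ⟨mem_erase.2 ⟨h3, mem_erase.2 ⟨fun h => ?_,
          ((hmU x).1 h4).1⟩⟩, mem_erase.2 ⟨fun h => h1 (eq_inv_smul_iff.2 h),
          mem_erase.2 ⟨fun h => ?_, ((hmU _).1 h5).1⟩⟩, ((hmU x).1 h4).2.symm⟩, rfl⟩
        · exact ((hmU x).1 h4).2 (by simp only at h; rw [h]; exact hga)
        · exact ((hmU _).1 h5).2 (by simp only at h; rw [h]; exact hga))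
  rw [show E.card - 2 = 2 * r + 10 + s by omega, show E.card - 3 = 2 * r + 9 + s by omega]
    at c3 c4 cB
  set N := (2 * r + 10 + s) * (2 * r + 9 + s) with hN
  -- fixed points of the commutator
  let c : Ω → ℕ := fun x => (S.filter fun g => u • g⁻¹ • u • g • x = g⁻¹ • u • g • u • x).card
  have hup : ∑ x ∈ E, c x ≤ (r + 8 + s) * S.card := by
    have h1 : ∑ x ∈ E, c x = ∑ g ∈ S,
        (E.filter fun x => u • g⁻¹ • u • g • x = g⁻¹ • u • g • u • x).card := by
      simp only [c, card_filter]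
      exact sum_comm
    rw [h1, mul_comm, ← smul_eq_mul, ← sum_const]
    apply sum_le_sum
    intro g hg
    obtain ⟨hg1, hg2, hg3⟩ := (hmS g).1 hg
    have h2 : ∀ x : Ω, ((g⁻¹ * u * g * u)⁻¹ * (u * (g⁻¹ * u * g))) • x = x ↔
        u • g⁻¹ • u • g • x = g⁻¹ • u • g • u • x := by
      intro x
      rw [mul_smul, inv_smul_eq_iff]
      simp only [mul_smul]
    have h3 := hmin ((g⁻¹ * u * g * u)⁻¹ * (u * (g⁻¹ * u * g)))
      (H.mul_mem (H.inv_mem (H.mul_mem (H.mul_mem (H.mul_mem (H.inv_mem hg1) hu) hg1) hu))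
        (H.mul_mem hu (H.mul_mem (H.mul_mem (H.inv_mem hg1) hu) hg1))) ⟨a, mem_supp.2 ⟨haE, by
          rw [Ne, h2, ((hmF _).1 hg2).2, inv_smul_smul, ← hb, eq_inv_smul_iff]
          exact ((hmU _).1 hg3).2.symm⟩⟩
    have h4 := card_filter_add_card_filter_not (s := E)
      fun x => u • g⁻¹ • u • g • x = g⁻¹ • u • g • u • x
    have h5 : supp E ((g⁻¹ * u * g * u)⁻¹ * (u * (g⁻¹ * u * g))) =
        E.filter fun x => ¬ u • g⁻¹ • u • g • x = g⁻¹ • u • g • u • x := by
      ext x; rw [mem_supp, mem_filter, Ne, h2]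
    rw [h5] at h3
    omega
  have hex : ∀ x ∈ (E.erase a).erase b, ∃ y ∈ (E.erase a).erase b, x ≠ y := by
    intro x _
    obtain ⟨y, hy, hyx⟩ := exists_mem_ne (show 1 < ((E.erase a).erase b).card by
      rw [hEe a haE b hbE hab]; omega) x
    exact ⟨y, hy, hyx.symm⟩
  have l1 : ∀ x ∈ F, ((r + 7 + s) * (2 * r + 9 + s) + (r + 7 + s) * (r + 2)) * S.card ≤ N * c x := by
    intro x hx
    obtain ⟨y0, hy0, hxy0⟩ := hex x (hFU x hx)
    have hux := ((hmF x).1 hx).2
    have h1 : (S.filter fun g => u • g • x = g • x) ∪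
        (F.erase x).biUnion (fun y => S.filter fun g => u • g • x = g • y) ⊆
        S.filter fun g => u • g⁻¹ • u • g • x = g⁻¹ • u • g • u • x := by
      intro g hg
      rcases mem_union.1 hg with hg | hg
      · obtain ⟨h2, h3⟩ := mem_filter.1 hg
        refine mem_filter.2 ⟨h2, ?_⟩
        rw [hux, h3, inv_smul_smul, hux]
      · obtain ⟨y, hy, hg⟩ := mem_biUnion.1 hg
        obtain ⟨h2, h3⟩ := mem_filter.1 hg
        refine mem_filter.2 ⟨h2, ?_⟩
        rw [hux, h3, inv_smul_smul, ((hmF y).1 (mem_erase.1 hy).2).2]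
    have h2 := card_le_card h1
    rw [card_union_of_disjoint, card_biUnion] at h2
    · have h3 := c3 (hFU x hx) hy0 hxy0 (W := S.filter fun g => u • g • x = g • x)
        fun g hg h => mem_filter.2 ⟨hg, h⟩
      have h4 : ∑ _y ∈ F.erase x, (r + 2) * S.card ≤
          ∑ y ∈ F.erase x, N * (S.filter fun g => u • g • x = g • y).card :=
        sum_le_sum fun y hy => cB (hFU x hx) (hFU y (mem_erase.1 hy).2) (mem_erase.1 hy).1.symm
          fun g hg h => mem_filter.2 ⟨hg, h⟩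
      rw [sum_const, smul_eq_mul, card_erase_of_mem hx, ← mul_sum, hFc,
        show r + 8 + s - 1 = r + 7 + s by omega] at h4
      have h5 := Nat.mul_le_mul_left N h2
      rw [mul_add] at h5
      calc _ = (r + 7 + s) * (2 * r + 9 + s) * S.card + (r + 7 + s) * ((r + 2) * S.card) := by ring
        _ ≤ _ := (add_le_add h3 h4).trans h5
    · intro y _ y' _ hyy
      refine disjoint_left.2 fun g hg hg' => hyy (smul_left_cancel g ?_)
      rw [← (mem_filter.1 hg).2, ← (mem_filter.1 hg').2]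
    · refine disjoint_left.2 fun g hg hg' => ?_
      obtain ⟨y, hy, hg'⟩ := mem_biUnion.1 hg'
      refine (mem_erase.1 hy).1 (smul_left_cancel g ?_)
      rw [← (mem_filter.1 hg').2, (mem_filter.1 hg).2]
  set U0 := ((U.erase a).erase b).erase (u⁻¹ • a) with hU0
  have hU0m : ∀ x ∈ U0, x ∈ U ∧ x ∈ (E.erase a).erase b ∧ u • x ∈ (E.erase a).erase b ∧
      x ≠ u • x := by
    intro x hx
    simp only [hU0, mem_erase] at hx
    obtain ⟨h1, h2, h3, h4⟩ := hx
    exact ⟨h4, mem_erase.2 ⟨h2, mem_erase.2 ⟨h3, ((hmU x).1 h4).1⟩⟩,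
      mem_erase.2 ⟨fun h => h3 (smul_left_cancel u h), mem_erase.2
        ⟨fun h => h1 (eq_inv_smul_iff.2 h), ((hmU _).1 (huU x h4)).1⟩⟩, ((hmU x).1 h4).2.symm⟩
  have hsub4 : ∀ x : Ω, (S.filter fun g => u • g • x = g • x ∧ u • g • u • x = g • u • x) ⊆
      S.filter fun g => u • g⁻¹ • u • g • x = g⁻¹ • u • g • u • x := by
    intro x g hg
    obtain ⟨h2, h3, h4⟩ := mem_filter.1 hg
    refine mem_filter.2 ⟨h2, ?_⟩
    rw [h3, h4, inv_smul_smul, inv_smul_smul]
  have hdisj : Disjoint F U := disjoint_left.2 fun x hx hx' => ((hmU x).1 hx').2 ((hmF x).1 hx).2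
  have hFsum : (r + 8 + s) * (((r + 7 + s) * (2 * r + 9 + s) + (r + 7 + s) * (r + 2)) * S.card) ≤
      N * ∑ x ∈ F, c x := by
    rw [mul_sum, ← hFc, ← smul_eq_mul, ← sum_const]
    exact sum_le_sum l1
  have hUab : ((U.erase a).erase b).card = r + 2 := by
    rw [card_erase_of_mem (mem_erase.2 ⟨hab.symm, hbU⟩), card_erase_of_mem ha]; omega
  have hsplit : ∑ x ∈ F, c x + ∑ x ∈ (U.erase a).erase b, c x ≤ ∑ x ∈ E, c x := by
    rw [← sum_union (hdisj.mono_right ((erase_subset _ _).trans (erase_subset _ _)))]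
    apply sum_le_sum_of_subset
    intro x hx
    rcases mem_union.1 hx with h | h
    · exact ((hmF x).1 h).1
    · exact ((hmU x).1 (mem_erase.1 (mem_erase.1 h).2).2).1
  have hfin := Nat.mul_le_mul_left N (hsplit.trans hup)
  rw [mul_add] at hfin
  rcases hcase with hA | ⟨hr2, hB⟩
  · have hx1 : u⁻¹ • a ∈ (U.erase a).erase b := by
      refine mem_erase.2 ⟨fun h => hA ?_, mem_erase.2 ⟨fun h => hab ?_, huU' a ha⟩⟩
      · rw [inv_smul_eq_iff] at h; exact h.symm
      · rw [inv_smul_eq_iff] at h; exact h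
    have hx2 : u⁻¹ • a ∈ (E.erase a).erase b := by
      simp only [mem_erase] at hx1 ⊢
      exact ⟨hx1.1, hx1.2.1, ((hmU _).1 hx1.2.2).1⟩
    obtain ⟨y0, hy0, hxy0⟩ := hex _ hx2
    have l2 : (r + 7 + s) * (2 * r + 9 + s) * S.card ≤ N * c (u⁻¹ • a) := by
      refine c3 hx2 hy0 hxy0 fun g h2 h3 => hsub4 _ ?_
      refine mem_filter.2 ⟨h2, h3, ?_⟩
      rw [smul_inv_smul]
      exact ((hmF _).1 ((hmS g).1 h2).2.1).2
    have l3 : ∑ _x ∈ U0, (r + 7 + s) * (r + 6 + s) * S.card ≤ ∑ x ∈ U0, N * c x := by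
      apply sum_le_sum
      intro x hx
      obtain ⟨-, h2, h3, h4⟩ := hU0m x hx
      exact c4 h2 h3 h4 fun g h5 h6 => hsub4 x (mem_filter.2 ⟨h5, h6⟩)
    rw [sum_const, smul_eq_mul, ← mul_sum, hU0, card_erase_of_mem hx1, hUab,
      show r + 2 - 1 = r + 1 by omega] at l3
    rw [← add_sum_erase _ _ hx1, mul_add] at hfin
    have h6 : ((r + 8 + s) * ((r + 7 + s) * (2 * r + 9 + s) + (r + 7 + s) * (r + 2)) +
        (r + 7 + s) * (2 * r + 9 + s) + (r + 1) * ((r + 7 + s) * (r + 6 + s))) * S.card ≤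
        (N * (r + 8 + s)) * S.card := by
      nlinarith
    have h7 := Nat.le_of_mul_le_mul_right h6 hSpos
    rw [hN] at h7
    nlinarith [Nat.zero_le (r * s), Nat.zero_le (r * r * s), Nat.zero_le (r * s * s),
      Nat.zero_le (s * s), Nat.zero_le (r * r)]
  · have hx1 : u⁻¹ • a = b := by rw [inv_smul_eq_iff, hb, hB a haE]
    have hU1 : U0 = (U.erase a).erase b := by rw [hU0, hx1, erase_idem]
    have l3 : ∑ _x ∈ U0, ((r + 7 + s) * (r + 6 + s) + (r + 2)) * S.card ≤ ∑ x ∈ U0, N * c x := by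
      apply sum_le_sum
      intro x hx
      obtain ⟨h1, h2, h3, h4⟩ := hU0m x hx
      have h5 : (S.filter fun g => u • g • x = g • x ∧ u • g • u • x = g • u • x) ∪
          (S.filter fun g => u • g • x = g • u • x) ⊆
          S.filter fun g => u • g⁻¹ • u • g • x = g⁻¹ • u • g • u • x := by
        refine union_subset (hsub4 x) fun g hg => ?_
        obtain ⟨h6, h7⟩ := mem_filter.1 hg
        refine mem_filter.2 ⟨h6, ?_⟩
        have hxE := ((hmU x).1 h1).1
        rw [← h7, hB _ (hE g (hS1 g h6) x hxE), h7, inv_smul_smul, inv_smul_smul, hB x hxE]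
      have h6 := Nat.mul_le_mul_left N (card_le_card h5)
      rw [card_union_of_disjoint, mul_add] at h6
      · rw [add_mul]
        exact (add_le_add (c4 h2 h3 h4 fun g h5 h6 => mem_filter.2 ⟨h5, h6⟩)
          (cB h2 h3 h4 fun g h5 h6 => mem_filter.2 ⟨h5, h6⟩)).trans h6
      · refine disjoint_left.2 fun g hg hg' => h4 (smul_left_cancel g ?_)
        rw [← (mem_filter.1 hg').2, (mem_filter.1 hg).2.1]
    rw [sum_const, smul_eq_mul, ← mul_sum, hU1, hUab] at l3
    have h6 : ((r + 8 + s) * ((r + 7 + s) * (2 * r + 9 + s) + (r + 7 + s) * (r + 2)) +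
        (r + 2) * ((r + 7 + s) * (r + 6 + s) + (r + 2))) * S.card ≤
        (N * (r + 8 + s)) * S.card := by
      nlinarith
    have h7 := Nat.le_of_mul_le_mul_right h6 hSpos
    rw [hN] at h7
    obtain ⟨t, rfl⟩ := Nat.exists_eq_add_of_le hr2
    nlinarith [Nat.zero_le (t * s), Nat.zero_le (t * t * s), Nat.zero_le (t * s * s),
      Nat.zero_le (s * s), Nat.zero_le (t * t)]

theorem bochert {H : Subgroup G} {E : Finset Ω} (hE : Inv H E) (hT : TrOn H E 4)
    (h4 : 4 ≤ E.card) (hsm : ∀ c ∈ H, (supp E c).Nonempty → 4 ≤ (supp E c).card) :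
    6 ≤ E.card ∧ ∀ c ∈ H, (supp E c).Nonempty → E.card ≤ 2 * (supp E c).card + 3 := by
  obtain ⟨a, ha, b, hb, hab⟩ := one_lt_card.1 (show 1 < E.card by omega)
  obtain ⟨c, hc, d, hd, hcd⟩ := one_lt_card.1 (show 1 < ((E.erase a).erase b).card by
    rw [card_erase_of_mem (mem_erase.2 ⟨hab.symm, hb⟩), card_erase_of_mem ha]; omega)
  simp only [mem_erase] at hc hd
  obtain ⟨g, hg, e1, e2, e3, e4⟩ := hT.four ha hb hc.2.2 hd.2.2 hb ha hc.2.2 hd.2.2 hab
    hc.2.1.symm hd.2.1.symm hc.1.symm hd.1.symm hcd hab.symm hc.1.symm hd.1.symm hc.2.1.symm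
    hd.2.1.symm hcd
  have hg1 : (supp E g).Nonempty := ⟨a, mem_supp.2 ⟨ha, by rw [e1]; exact hab.symm⟩⟩
  constructor
  · have h1 : supp E g ⊆ (E.erase c).erase d := by
      intro x hx
      rw [mem_supp] at hx
      exact mem_erase.2 ⟨fun h => hx.2 (h ▸ e4), mem_erase.2 ⟨fun h => hx.2 (h ▸ e3), hx.1⟩⟩
    have h2 := card_le_card h1
    rw [card_erase_of_mem (mem_erase.2 ⟨hcd.symm, hd.2.2⟩), card_erase_of_mem hc.2.2] at h2
    have := hsm g hg hg1
    omega
  obtain ⟨u, hu, hmin⟩ := exists_min_image (univ.filter fun c : G => c ∈ H ∧ (supp E c).Nonempty)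
    (fun c => (supp E c).card) ⟨g, mem_filter.2 ⟨mem_univ _, hg, hg1⟩⟩
  obtain ⟨-, hu1, hu2⟩ := mem_filter.1 hu
  have hmin' : ∀ c ∈ H, (supp E c).Nonempty → (supp E u).card ≤ (supp E c).card :=
    fun c h1 h2 => hmin c (mem_filter.2 ⟨mem_univ _, h1, h2⟩)
  suffices h : E.card ≤ 2 * (supp E u).card + 3 by
    intro c h1 h2
    have := hmin' c h1 h2
    omega
  by_contra hcon
  obtain ⟨r, hr⟩ := Nat.exists_eq_add_of_le' (hsm u hu1 hu2)
  obtain ⟨s, hs⟩ := Nat.exists_eq_add_of_le (show 2 * r + 12 ≤ E.card by omega)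
  by_cases hA : ∃ x ∈ E, u • u • x ≠ x
  · obtain ⟨x, hx, hxx⟩ := hA
    exact boch_main hE hT hu1 hmin' hr hs (mem_supp.2 ⟨hx, fun h => hxx (by rw [h, h])⟩) (Or.inl hxx)
  push Not at hA
  obtain ⟨x, hx⟩ := hu2
  by_cases hr2 : 2 ≤ r
  · exact boch_main hE hT hu1 hmin' hr hs hx (Or.inr ⟨hr2, hA⟩)
  set U := supp E u with hU
  have huU : ∀ x ∈ U, u • x ∈ U := fun x hx =>
    mem_supp.2 ⟨hE u hu1 x (mem_supp.1 hx).1, fun h => (mem_supp.1 hx).2 (smul_left_cancel _ h)⟩
  have hxE := (mem_supp.1 hx).1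
  have hx1 := (mem_supp.1 hx).2
  obtain ⟨y, hy⟩ : ((U.erase x).erase (u • x)).Nonempty := card_pos.1 (by
    rw [card_erase_of_mem (mem_erase.2 ⟨hx1, huU x hx⟩), card_erase_of_mem hx]; omega)
  simp only [mem_erase] at hy
  obtain ⟨hy1, hy2, hy3⟩ := hy
  have hyE := (mem_supp.1 hy3).1
  have hy4 := (mem_supp.1 hy3).2
  have n1 : x ≠ u • y := fun h => hy1 (by rw [h, hA y hyE])
  have n2 : u • x ≠ u • y := fun h => hy2 (smul_left_cancel _ h).symm
  have hall : ∀ z ∈ U, z = x ∨ z = u • x ∨ z = y ∨ z = u • y := by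
    intro z hz
    by_contra hn
    push Not at hn
    have hzE := (mem_supp.1 hz).1
    have h1 : ({x, u • x, y, u • y, z, u • z} : Finset Ω) ⊆ U := by
      intro w hw
      simp only [mem_insert, mem_singleton] at hw
      rcases hw with rfl | rfl | rfl | rfl | rfl | rfl
      exacts [hx, huU _ hx, hy3, huU _ hy3, hz, huU _ hz]
    have m1 : x ≠ u • z := fun h => hn.2.1 (by rw [h, hA z hzE])
    have m2 : y ≠ u • z := fun h => hn.2.2.2 (by rw [h, hA z hzE])
    have m3 : u • x ≠ u • z := fun h => hn.1 (smul_left_cancel _ h).symm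
    have m4 : u • y ≠ u • z := fun h => hn.2.2.1 (smul_left_cancel _ h).symm
    have m5 : z ≠ u • z := (mem_supp.1 hz).2.symm
    have h2 := card_le_card h1
    rw [card_insert_of_notMem, card_insert_of_notMem, card_insert_of_notMem, card_insert_of_notMem,
      card_pair m5] at h2
    · omega
    · simp only [mem_insert, mem_singleton, not_or]; exact ⟨hn.2.2.2.symm, m4⟩
    · simp only [mem_insert, mem_singleton, not_or]; exact ⟨hy4.symm, hn.2.2.1.symm, m2⟩
    · simp only [mem_insert, mem_singleton, not_or]; exact ⟨hy1.symm, n2, hn.2.1.symm, m3⟩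
    · simp only [mem_insert, mem_singleton, not_or]
      exact ⟨hx1.symm, hy2.symm, n1, hn.1.symm, m1⟩
  obtain ⟨e, he⟩ : (E \ U).Nonempty := card_pos.1 (by
    rw [card_sdiff_of_subset (show U ⊆ E from filter_subset _ _)]
    omega)
  obtain ⟨heE, heU⟩ := mem_sdiff.1 he
  have hue : u • e = e := by
    by_contra h; exact heU (mem_supp.2 ⟨heE, h⟩)
  have hne : ∀ z ∈ U, z ≠ e := fun z hz h => heU (h ▸ hz)
  obtain ⟨k, hk, f1, f2, f3, f4⟩ := hT.four hxE (mem_supp.1 (huU x hx)).1 hyE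
    (mem_supp.1 (huU y hy3)).1 hxE (mem_supp.1 (huU x hx)).1 hyE heE hx1.symm hy2.symm n1
    hy1.symm n2 hy4.symm hx1.symm hy2.symm (hne x hx) hy1.symm (hne _ (huU x hx)) (hne y hy3)
  have g1 : k⁻¹ • x = x := inv_smul_eq_iff.2 f1.symm
  have g2 : k⁻¹ • u • x = u • x := inv_smul_eq_iff.2 f2.symm
  have g3 : k⁻¹ • y = y := inv_smul_eq_iff.2 f3.symm
  have h1 := hsm (u * (k * u * k⁻¹)) (H.mul_mem hu1 (H.mul_mem (H.mul_mem hk hu1) (H.inv_mem hk)))
    ⟨y, mem_supp.2 ⟨hyE, by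
      simp only [mul_smul]
      rw [g3, f4, hue]; exact (hne y hy3).symm⟩⟩
  have h2 : supp E (u * (k * u * k⁻¹)) ⊆ {y, u • y, e} := by
    intro z hz
    obtain ⟨hzE, hz⟩ := mem_supp.1 hz
    simp only [mul_smul] at hz
    by_contra hn
    simp only [mem_insert, mem_singleton, not_or] at hn
    apply hz
    by_cases z1 : z = x
    · rw [z1, g1, f2, hA x hxE]
    by_cases z2 : z = u • x
    · rw [z2, g2, hA x hxE, f1]
    have z3 : u • z = z := by
      by_contra h
      rcases hall z (mem_supp.2 ⟨hzE, h⟩) with h | h | h | h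
      exacts [z1 h, z2 h, hn.1 h, hn.2.1 h]
    have z4 : u • k⁻¹ • z = k⁻¹ • z := by
      by_contra h
      rcases hall _ (mem_supp.2 ⟨hE _ (H.inv_mem hk) z hzE, h⟩) with h | h | h | h <;>
        rw [inv_smul_eq_iff] at h
      · exact z1 (h.trans f1)
      · exact z2 (h.trans f2)
      · exact hn.1 (h.trans f3)
      · exact hn.2.2 (h.trans f4)
    rw [z4, smul_inv_smul, z3]
  have h3 := (card_le_card h2).trans card_le_three
  omega

end Cfsg.Agent.H8.Pr
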