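import Cfsg.Agent.H8.PrE

/-! Fixed points of pronormal subgroups (Praeger), part F: group theory in the 4-transitive case. -/

namespace Cfsg.Agent.H8.Pr

open Finset
open scoped Classical Pointwise

set_option linter.unusedSectionVars false

variable {G : Type} [Group G] [Fintype G]
variable {Ω : Type} [MulAction G Ω] [Fintype Ω] {K : Subgroup G}

theorem Tr.on {t : ℕ} (h : Tr G Ω t) : TrOn (⊤ : Subgroup G) (univ : Finset Ω) t :=
  fun A φ _ hA hφ _ => by
    obtain ⟨g, hg⟩ := h A φ hA hφ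
    exact ⟨g, Subgroup.mem_top _, hg⟩

theorem ex_out {E S : Finset Ω} (h : S.card < E.card) : ∃ z ∈ E, z ∉ S := by
  by_contra hn
  push Not at hn
  exact absurd (card_le_card hn) (not_le.2 h)

theorem no_small (hP : Pron K) (hT : Tr G Ω 4) (hn : Fintype.card Ω = 2 * (fx K Ω).card)
    {x0 : Ω} (hx0 : x0 ∉ fx K Ω) (c : G) (hc : (supp (univ : Finset Ω) c).Nonempty) :
    4 ≤ (supp (univ : Finset Ω) c).card := by
  by_contra hcon
  have hf := hT.lt_orb hP hn hx0
  have hu : (univ : Finset Ω).card = 2 * (fx K Ω).card := by rw [card_univ, hn]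
  obtain ⟨a, ha⟩ := hc
  have ha1 := (mem_supp.1 ha).2
  have hb : c • a ∈ supp (univ : Finset Ω) c :=
    mem_supp.2 ⟨mem_univ _, fun h => ha1 (smul_left_cancel _ h)⟩
  obtain ⟨e, he1, he2, he3⟩ : ∃ e, e ≠ a ∧ e ≠ c • a ∧
      ∀ w, w ≠ a → w ≠ c • a → w ≠ e → c • w = w := by
    have h1 : (((supp (univ : Finset Ω) c).erase a).erase (c • a)).card ≤ 1 := by
      rw [card_erase_of_mem (mem_erase.2 ⟨ha1, hb⟩), card_erase_of_mem ha]; omega
    rcases (((supp (univ : Finset Ω) c).erase a).erase (c • a)).eq_empty_or_nonempty with h | ⟨e, he⟩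
    · obtain ⟨e, -, he⟩ := ex_out (E := univ) (S := {a, c • a}) (by
        have := card_le_two (a := a) (b := c • a); omega)
      simp only [mem_insert, mem_singleton, not_or] at he
      refine ⟨e, he.1, he.2, fun w h2 h3 _ => ?_⟩
      by_contra h4
      have : w ∈ ((supp (univ : Finset Ω) c).erase a).erase (c • a) :=
        mem_erase.2 ⟨h3, mem_erase.2 ⟨h2, mem_supp.2 ⟨mem_univ _, h4⟩⟩⟩
      rw [h] at this
      exact notMem_empty _ this
    · refine ⟨e, (mem_erase.1 (mem_erase.1 he).2).1, (mem_erase.1 he).1, fun w h2 h3 h5 => ?_⟩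
      by_contra h4
      exact h5 (card_le_one.1 h1 _
        (mem_erase.2 ⟨h3, mem_erase.2 ⟨h2, mem_supp.2 ⟨mem_univ _, h4⟩⟩⟩) _ he)
  have t3 : ∀ x y z : Ω, x ≠ y → x ≠ z → y ≠ z →
      ∃ g : G, g • x = y ∧ ∀ w, w ≠ x → w ≠ y → w ≠ z → g • w = w := by
    intro x y z hxy hxz hyz
    obtain ⟨d, -, hd⟩ := ex_out (E := univ) (S := {a, c • a, e}) (by
      have := card_le_three (a := a) (b := c • a) (c := e); omega)
    obtain ⟨d', -, hd'⟩ := ex_out (E := univ) (S := {x, y, z}) (by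
      have := card_le_three (a := x) (b := y) (c := z); omega)
    simp only [mem_insert, mem_singleton, not_or] at hd hd'
    obtain ⟨h, -, e1, e2, e3, -⟩ := hT.on.four (mem_univ a) (mem_univ (c • a)) (mem_univ e)
      (mem_univ d) (mem_univ x) (mem_univ y) (mem_univ z) (mem_univ d') ha1.symm he1.symm
      (Ne.symm hd.1) he2.symm (Ne.symm hd.2.1) (Ne.symm hd.2.2) hxy hxz (Ne.symm hd'.1) hyz
      (Ne.symm hd'.2.1) (Ne.symm hd'.2.2)
    refine ⟨h * c * h⁻¹, by rw [mul_smul, mul_smul, ← e1, inv_smul_smul, e2], fun w h1 h2 h3 => ?_⟩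
    rw [mul_smul, mul_smul, he3 (h⁻¹ • w), smul_inv_smul]
    · exact fun h4 => h1 (by rw [← e1, ← h4, smul_inv_smul])
    · exact fun h4 => h2 (by rw [← e2, ← h4, smul_inv_smul])
    · exact fun h4 => h3 (by rw [← e3, ← h4, smul_inv_smul])
  obtain ⟨g, -, hg⟩ := exists_max_image (univ : Finset G)
    (fun g => (g • orb K x0 ∩ fx K Ω).card) univ_nonempty
  obtain ⟨x, hx, hxF⟩ : ∃ x ∈ g • orb K x0, x ∉ fx K Ω := by
    by_contra h
    push Not at h
    exact ko hP hx0 g fun y hy => h _ (smul_mem_smul_finset hy)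
  have h1 : (g • orb K x0 ∩ fx K Ω).card < (g • orb K x0).card :=
    card_lt_card ⟨inter_subset_left, fun h => hxF (mem_inter.1 (h hx)).2⟩
  rw [card_smul_finset] at h1
  obtain ⟨y, hy, hy'⟩ := ex_out (E := fx K Ω) (S := g • orb K x0 ∩ fx K Ω) (by omega)
  have hy2 : y ∉ g • orb K x0 := fun h => hy' (mem_inter.2 ⟨h, hy⟩)
  obtain ⟨z, -, hz⟩ := ex_out (E := univ) (S := insert y (g • orb K x0)) (by
    have := card_insert_le y (g • orb K x0)
    rw [card_smul_finset] at this
    omega)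
  rw [mem_insert, not_or] at hz
  obtain ⟨t, ht1, ht2⟩ := t3 x y z (fun h => hy2 (h ▸ hx)) (fun h => hz.2 (h ▸ hx)) (Ne.symm hz.1)
  have h2 : insert y (g • orb K x0 ∩ fx K Ω) ⊆ (t * g) • orb K x0 ∩ fx K Ω := by
    intro w hw
    rw [mul_smul]
    rcases mem_insert.1 hw with rfl | hw
    · exact mem_inter.2 ⟨ht1 ▸ smul_mem_smul_finset hx, hy⟩
    · obtain ⟨h3, h4⟩ := mem_inter.1 hw
      refine mem_inter.2 ⟨?_, h4⟩
      rw [← ht2 w (fun h => hxF (h ▸ h4)) (fun h => hy2 (h ▸ h3)) (fun h => hz.2 (h ▸ h3))]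
      exact smul_mem_smul_finset h3
  have h3 := card_le_card h2
  rw [card_insert_of_notMem hy'] at h3
  have h4 := hg (t * g) (mem_univ _)
  omega

/-- an invariant finite set as a sub-action -/
def sub (N : Subgroup G) (E : Finset Ω) (hE : Inv N E) : SubMulAction N Ω where
  carrier := E
  smul_mem' := fun c x hx => hE c c.2 x hx

theorem mem_sub {N : Subgroup G} {E : Finset Ω} {hE : Inv N E} {x : Ω} :
    x ∈ sub N E hE ↔ x ∈ E := Iff.rfl

theorem card_sub (N : Subgroup G) (E : Finset Ω) (hE : Inv N E) :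
    Nat.card (sub N E hE) = E.card := by
  rw [← Fintype.card_coe, ← Nat.card_eq_fintype_card]
  rfl

theorem card_support_sub {N : Subgroup G} {E : Finset Ω} (hE : Inv N E) (c : N) :
    (MulAction.toPermHom N (sub N E hE) c).support.card = (supp E (c : G)).card := by
  apply card_bij (fun (x : sub N E hE) _ => (x : Ω))
  · intro x hx
    rw [Equiv.Perm.mem_support] at hx
    exact mem_supp.2 ⟨x.2, fun h => hx (Subtype.ext h)⟩
  · intro x _ y _ h; exact Subtype.ext h
  · intro y hy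
    obtain ⟨h1, h2⟩ := mem_supp.1 hy
    exact ⟨⟨y, h1⟩, Equiv.Perm.mem_support.2 fun h => h2 (congrArg Subtype.val h), rfl⟩

theorem alt_le {N : Subgroup G} {E : Finset Ω} (hE : Inv N E) (hT : TrOn N E 4) {c : G}
    (hc : c ∈ N) (h1 : (supp E c).Nonempty) (h2 : (supp E c).card ≤ 3) :
    alternatingGroup (sub N E hE) ≤ (MulAction.toPermHom N (sub N E hE)).range := by
  have hpr : MulAction.IsPreprimitive (MulAction.toPermHom N (sub N E hE)).range (sub N E hE) := by
    apply MulAction.isPreprimitive_of_is_two_pretransitive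
    rw [MulAction.is_two_pretransitive_iff]
    intro a b a' b' hab hab'
    have hab1 : (a : Ω) ≠ b := fun h => hab (Subtype.ext h)
    have hab2 : (a' : Ω) ≠ b' := fun h => hab' (Subtype.ext h)
    obtain ⟨g, hg, h3⟩ := hT {(a : Ω), (b : Ω)} (fun x => if x = a then a' else b')
      (insert_subset a.2 (singleton_subset_iff.2 b.2)) (card_le_two.trans (by omega)) (by
        intro x hx y hy hxy
        simp only [coe_insert, coe_singleton, Set.mem_insert_iff, Set.mem_singleton_iff] at hx hy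
        rcases hx with rfl | rfl <;> rcases hy with rfl | rfl
        · rfl
        · simp only [hab1.symm, if_true, if_false] at hxy; exact absurd hxy hab2
        · simp only [hab1.symm, if_true, if_false] at hxy; exact absurd hxy.symm hab2
        · rfl) (by
        intro x _
        split_ifs
        exacts [a'.2, b'.2])
    refine ⟨⟨_, ⟨g, hg⟩, rfl⟩, Subtype.ext ?_, Subtype.ext ?_⟩
    · have := h3 a (by simp)
      rw [if_pos rfl] at this; exact this
    · have := h3 b (by simp)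
      rw [if_neg hab1.symm] at this; exact this
  have h3 := card_support_sub hE ⟨c, hc⟩
  have h4 : MulAction.toPermHom N (sub N E hE) ⟨c, hc⟩ ≠ 1 := by
    intro h
    rw [h, Equiv.Perm.support_one, card_empty] at h3
    have := card_pos.2 h1
    simp only at h3
    omega
  have h5 := Equiv.Perm.one_lt_card_support_of_ne_one h4
  simp only at h3
  by_cases h6 : (MulAction.toPermHom N (sub N E hE) ⟨c, hc⟩).support.card = 2
  · rw [Equiv.Perm.subgroup_eq_top_of_isPreprimitive_of_isSwap_mem hpr _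
      (Equiv.Perm.card_support_eq_two.1 h6) ⟨_, rfl⟩]
    exact le_top
  · exact Equiv.Perm.alternatingGroup_le_of_isPreprimitive_of_isThreeCycle_mem hpr
      (g := MulAction.toPermHom N (sub N E hE) ⟨c, hc⟩)
      (card_support_eq_three_iff.1 (by omega)) ⟨_, rfl⟩

theorem card_filter_mem (H : Subgroup G) : (univ.filter fun g : G => g ∈ H).card = Nat.card H := by
  rw [Nat.card_eq_fintype_card, Fintype.card_subtype]

theorem orb_stab (H : Subgroup G) (z : Ω) : (univ.filter fun g : G => g ∈ H).card =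
    (orb H z).card * (univ.filter fun g : G => g ∈ H ∧ g • z = z).card := by
  rw [card_eq_sum_card_fiberwise (f := fun g : G => g • z) (t := orb H z) (by
    intro g hg
    exact mem_orb.2 ⟨g, (mem_filter.1 hg).2, rfl⟩), ← smul_eq_mul, ← sum_const]
  apply sum_congr rfl
  intro y hy
  obtain ⟨a, ha, rfl⟩ := mem_orb.1 hy
  apply card_bij (fun g _ => a⁻¹ * g)
  · intro g hg
    obtain ⟨h1, h2⟩ := mem_filter.1 hg
    refine mem_filter.2 ⟨mem_univ _, H.mul_mem (H.inv_mem ha) (mem_filter.1 h1).2, ?_⟩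
    rw [mul_smul, h2, inv_smul_smul]
  · intro g _ g' _ h; exact mul_left_cancel h
  · intro g hg
    obtain ⟨h1, h2⟩ := (mem_filter.1 hg).2
    refine ⟨a * g, mem_filter.2 ⟨mem_filter.2 ⟨mem_univ _, H.mul_mem ha h1⟩, ?_⟩, by simp⟩
    rw [mul_smul, h2]

theorem no_small_N [FaithfulSMul G Ω] (hn : Fintype.card Ω = 2 * (fx K Ω).card)
    (hf : 5 ≤ (fx K Ω).card) (hK : 5 ≤ Nat.card K)
    (hsm : ∀ c : G, (supp (univ : Finset Ω) c).Nonempty → 4 ≤ (supp (univ : Finset Ω) c).card)
    {N : Subgroup G} (hKN : K ≤ N) (hE : Inv N (fx K Ω)) (hT : TrOn N (fx K Ω) 4) (c : G)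
    (hc : c ∈ N) (h1 : (supp (fx K Ω) c).Nonempty) : 4 ≤ (supp (fx K Ω) c).card := by
  by_contra h2
  have hA := alt_le hE hT hc h1 (by omega)
  have hE' : Inv N (univ \ fx K Ω) := Inv.sdiff (fun _ _ _ _ => mem_univ _) hE
  set φ := MulAction.toPermHom N (sub N _ hE) with hφ
  set ψ := MulAction.toPermHom N (sub N _ hE') with hψ
  have hc1 := card_sub N _ hE
  have hc2 := card_sub N _ hE'
  rw [card_out hn] at hc2
  have : Nontrivial (sub N _ hE) := Finite.one_lt_card_iff_nontrivial.1 (by omega)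
  have e1 : Nat.card φ.ker * Nat.card φ.range = Nat.card N := by
    rw [← Subgroup.index_ker, Subgroup.card_mul_index]
  have e2 : Nat.card ψ.ker * Nat.card ψ.range = Nat.card N := by
    rw [← Subgroup.index_ker, Subgroup.card_mul_index]
  have e3 : Nat.card K ≤ Nat.card φ.ker := by
    rw [← Nat.card_congr (Subgroup.subgroupOfEquivOfLe hKN).toEquiv]
    apply Subgroup.card_le_of_le
    intro k hk
    rw [MonoidHom.mem_ker]
    ext x
    exact mem_fx.1 x.2 k hk
  have e4 : Nat.card ψ.range ≤ (fx K Ω).card.factorial := by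
    rw [← hc2, ← Nat.card_perm]
    exact Subgroup.card_le_card_group _
  have e5 : (fx K Ω).card.factorial ≤ 2 * Nat.card φ.range := by
    rw [← hc1, ← Nat.card_perm, ← two_mul_nat_card_alternatingGroup]
    exact Nat.mul_le_mul_left _ (Subgroup.card_le_of_le hA)
  have hinj : ∀ r ∈ ψ.ker, φ r = 1 → r = 1 := by
    intro r hr h
    apply Subtype.ext
    apply eq_of_smul_eq_smul (α := Ω)
    intro x
    rw [OneMemClass.coe_one, one_smul]
    by_cases hx : x ∈ fx K Ω
    · exact congrArg Subtype.val (Equiv.Perm.ext_iff.1 h ⟨x, hx⟩)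
    · exact congrArg Subtype.val
        (Equiv.Perm.ext_iff.1 (MonoidHom.mem_ker.1 hr) ⟨x, mem_sdiff.2 ⟨mem_univ _, hx⟩⟩)
  have hnorm : ((ψ.ker.map φ).subgroupOf (alternatingGroup (sub N _ hE))).Normal := by
    constructor
    intro a ha g
    rw [Subgroup.mem_subgroupOf] at ha ⊢
    obtain ⟨r, hr, hra⟩ := ha
    obtain ⟨m, hm⟩ := hA g.2
    refine ⟨m * r * m⁻¹, (MonoidHom.normal_ker ψ).conj_mem r hr m, ?_⟩
    rw [map_mul, map_mul, map_inv, hm, hra]
    rfl
  rcases alternatingGroup.normal_subgroup_eq_bot_or_eq_top (by omega)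
    (N := (ψ.ker.map φ).subgroupOf (alternatingGroup (sub N _ hE))) with h | h
  · have e6 : Nat.card ψ.ker ≤ 2 := by
      have : Nat.card ψ.ker ≤ Nat.card ℤˣ := by
        apply Nat.card_le_card_of_injective (fun r : ψ.ker => Equiv.Perm.sign (φ r))
        intro r r' hrr
        simp only at hrr
        have h3 : φ ((r : N) * (r' : N)⁻¹) ∈ alternatingGroup (sub N _ hE) := by
          rw [Equiv.Perm.mem_alternatingGroup, map_mul, map_inv, map_mul, map_inv, hrr,
            mul_inv_cancel]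
        have h4 : (⟨_, h3⟩ : alternatingGroup (sub N _ hE)) ∈
            (ψ.ker.map φ).subgroupOf (alternatingGroup (sub N _ hE)) :=
          ⟨(r : N) * (r' : N)⁻¹, ψ.ker.mul_mem r.2 (ψ.ker.inv_mem r'.2), rfl⟩
        rw [h, Subgroup.mem_bot] at h4
        have h5 := hinj _ (ψ.ker.mul_mem r.2 (ψ.ker.inv_mem r'.2)) (congrArg Subtype.val h4)
        exact Subtype.ext (mul_inv_eq_one.1 h5)
      rwa [Nat.card_eq_fintype_card (α := ℤˣ), Fintype.card_units_int] at this
    have e7 := Nat.factorial_pos (fx K Ω).card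
    nlinarith
  · obtain ⟨a, ha, b, hb, d, hd, hab, had, hbd⟩ := two_lt_card.1 (show 2 < (fx K Ω).card by omega)
    have h3 := Equiv.Perm.isThreeCycle_swap_mul_swap_same (α := sub N _ hE) (a := ⟨a, ha⟩)
      (b := ⟨b, hb⟩) (c := ⟨d, hd⟩) (fun h => hab (congrArg Subtype.val h))
      (fun h => had (congrArg Subtype.val h)) (fun h => hbd (congrArg Subtype.val h))
    have h4 : (⟨_, h3.mem_alternatingGroup⟩ : alternatingGroup (sub N _ hE)) ∈
        (ψ.ker.map φ).subgroupOf (alternatingGroup (sub N _ hE)) := by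
      rw [h]; exact Subgroup.mem_top _
    obtain ⟨r, hr, hr'⟩ := h4
    have h5 := card_support_sub hE r
    rw [← hφ, hr'] at h5
    have h6 := h3.card_support
    have h7 : supp (univ : Finset Ω) (r : G) = supp (fx K Ω) (r : G) := by
      ext x
      simp only [mem_supp, mem_univ, true_and]
      refine ⟨fun hx => ⟨?_, hx⟩, fun hx => hx.2⟩
      by_contra hxF
      exact hx (congrArg Subtype.val
        (Equiv.Perm.ext_iff.1 (MonoidHom.mem_ker.1 hr) ⟨x, mem_sdiff.2 ⟨mem_univ _, hxF⟩⟩))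
    have h8 : (supp (fx K Ω) (r : G)).card = 3 := h5.symm.trans h6
    have h9 := hsm r (by rw [h7]; exact card_pos.1 (by omega))
    rw [h7] at h9
    omega

/-- an element of prime order of `K` without fixed points off the fixed set -/
theorem exists_fpf (hK : 2 ≤ Nat.card K)
    (htwo : ∀ k ∈ K, ∀ y ∉ fx K Ω, ∀ y' ∉ fx K Ω, y ≠ y' → k • y = y → k • y' = y' → k = 1) :
    ∃ u ∈ K, (orderOf u).Prime ∧ ∀ y ∉ fx K Ω, u • y ≠ y := by
  have hout : ∀ k ∈ K, ∀ y ∉ fx K Ω, k • y ∉ fx K Ω := fun k hk y hy =>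
    (mem_sdiff.1 (orb_out hy (mem_orb.2 ⟨k, hk, rfl⟩))).2
  obtain ⟨k, hk, hk1, hk2⟩ : ∃ k ∈ K, k ≠ 1 ∧ ∀ y ∉ fx K Ω, k • y ≠ y := by
    by_contra hn
    push Not at hn
    set KK := univ.filter fun g : G => g ∈ K with hKK
    have hκ : KK.card = Nat.card K := card_filter_mem K
    let st : Ω → Finset G := fun y => (univ.filter fun g : G => g ∈ K ∧ g • y = y).erase 1
    have hst : ∀ y, (st y).card + 1 = (univ.filter fun g : G => g ∈ K ∧ g • y = y).card :=
      fun y => card_erase_add_one (mem_filter.2 ⟨mem_univ _, K.one_mem, one_smul _ _⟩)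
    have hmst : ∀ y g, g ∈ st y ↔ g ≠ 1 ∧ g ∈ K ∧ g • y = y := fun y g => by simp [st]
    have hsum : ∀ y, ∑ z ∈ orb K y, (st z).card + (orb K y).card = KK.card := by
      intro y
      have h1 : ∀ z ∈ orb K y, (st z).card = (st y).card := by
        intro z hz
        have h2 := orb_stab K z
        have h3 := orb_stab K y
        rw [orb_eq hz, ← hst] at h2
        rw [← hst, h2] at h3
        have := Nat.eq_of_mul_eq_mul_left (card_pos.2 ⟨y, self_mem_orb _ _⟩) h3
        omega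
      rw [sum_congr rfl h1, sum_const, smul_eq_mul, orb_stab K y, ← hst]
      ring
    have hhalf : ∀ y, (st y).Nonempty → 2 * (orb K y).card ≤ KK.card := by
      intro y hy
      have := card_pos.2 hy
      rw [orb_stab K y, ← hst]
      nlinarith
    have hdis : ∀ y ∉ fx K Ω, ∀ y' ∉ fx K Ω, y ≠ y' → Disjoint (st y) (st y') := by
      intro y hy y' hy' hne
      refine disjoint_left.2 fun g hg hg' => ?_
      rw [hmst] at hg hg'
      exact hg.1 (htwo g hg.2.1 y hy y' hy' hne hg.2.2 hg'.2.2)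
    have hKe : (KK.erase 1).card + 1 = KK.card :=
      card_erase_add_one (mem_filter.2 ⟨mem_univ _, K.one_mem⟩)
    have hbi : ∀ S : Finset Ω, (∀ y ∈ S, y ∉ fx K Ω) → (S.biUnion st).card = ∑ z ∈ S, (st z).card :=
      fun S hS => card_biUnion fun y hy y' hy' hne => hdis y (hS y hy) y' (hS y' hy') hne
    obtain ⟨k1, hk1⟩ : (KK.erase 1).Nonempty := card_pos.1 (by omega)
    obtain ⟨y1, hy1, hky1⟩ := hn k1 (mem_filter.1 (mem_erase.1 hk1).2).2 (mem_erase.1 hk1).1
    have ho1 : ∀ y ∈ orb K y1, y ∉ fx K Ω := fun y hy => (mem_sdiff.1 (orb_out hy1 hy)).2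
    have h2 : 2 ≤ (orb K y1).card :=
      (two_le_out (H := K) le_rfl fun h => hy1 (h (self_mem_orb _ _))).trans
        (card_le_card sdiff_subset)
    obtain ⟨k2, hk2, hk2'⟩ : ∃ k2 ∈ KK.erase 1, k2 ∉ (orb K y1).biUnion st := by
      by_contra h
      push Not at h
      have := card_le_card h
      rw [hbi _ ho1] at this
      have := hsum y1
      omega
    obtain ⟨y2, hy2, hky2⟩ := hn k2 (mem_filter.1 (mem_erase.1 hk2).2).2 (mem_erase.1 hk2).1
    have hk2s : k2 ∈ st y2 :=
      (hmst _ _).2 ⟨(mem_erase.1 hk2).1, (mem_filter.1 (mem_erase.1 hk2).2).2, hky2⟩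
    have ho2 : ∀ y ∈ orb K y2, y ∉ fx K Ω := fun y hy => (mem_sdiff.1 (orb_out hy2 hy)).2
    have hd : Disjoint (orb K y1) (orb K y2) := by
      refine disjoint_left.2 fun y hy hy' => hk2' (mem_biUnion.2 ⟨y2, ?_, hk2s⟩)
      rw [← orb_eq hy]; exact orb_symm hy'
    have h3 : (orb K y1 ∪ orb K y2).biUnion st ⊆ KK.erase 1 := by
      intro g hg
      obtain ⟨y, -, hg⟩ := mem_biUnion.1 hg
      rw [hmst] at hg
      exact mem_erase.2 ⟨hg.1, mem_filter.2 ⟨mem_univ _, hg.2.1⟩⟩
    have h4 := card_le_card h3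
    rw [hbi _ (fun y hy => (mem_union.1 hy).elim (ho1 y) (ho2 y)), sum_union hd] at h4
    have h5 := hsum y1
    have h6 := hsum y2
    have h7 := hhalf y1 ⟨k1, (hmst _ _).2
      ⟨(mem_erase.1 hk1).1, (mem_filter.1 (mem_erase.1 hk1).2).2, hky1⟩⟩
    have h8 := hhalf y2 ⟨k2, hk2s⟩
    omega
  have h1 : orderOf k ≠ 1 := fun h => hk1 (orderOf_eq_one_iff.1 h)
  have h2 := orderOf_pow_orderOf_div (orderOf_pos k).ne' (Nat.minFac_dvd (orderOf k))
  have h3 := Nat.minFac_prime h1
  refine ⟨k ^ (orderOf k / (orderOf k).minFac), K.pow_mem hk _, by rw [h2]; exact h3,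
    fun y hy h => ?_⟩
  have h4 := htwo _ (K.pow_mem hk (orderOf k / (orderOf k).minFac)) y hy (k • y) (hout k hk y hy)
    (hk2 y hy).symm h (by rw [← mul_smul, pow_mul_comm', mul_smul, h])
  rw [h4, orderOf_one] at h2
  exact h3.one_lt.ne h2

theorem prime_dvd_card {u : G} (hu : (orderOf u).Prime) {S : Finset Ω} (hS : ∀ x ∈ S, u • x ∈ S)
    (hf : ∀ x ∈ S, u • x ≠ x) : orderOf u ∣ S.card := by
  have hI : Inv (Subgroup.zpowers u) S := by
    intro h hh x hx
    obtain ⟨n, rfl⟩ := mem_powers_iff_mem_zpowers.2 hh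
    induction n with
    | zero => simpa using hx
    | succ n ih =>
      simp only [pow_succ', mul_smul]
      exact hS _ (ih (by simp))
  have : Fact (orderOf u).Prime := ⟨hu⟩
  have h1 : IsPGroup (orderOf u) (Subgroup.zpowers u) :=
    IsPGroup.of_card (n := 1) (by rw [Nat.card_zpowers, pow_one])
  have h2 := h1.card_modEq_card_fixedPoints (sub _ S hI)
  have h3 : IsEmpty (MulAction.fixedPoints (Subgroup.zpowers u) (sub _ S hI)) :=
    ⟨fun x => hf x.1.1 x.1.2 (congrArg Subtype.val (x.2 ⟨u, Subgroup.mem_zpowers u⟩))⟩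
  rw [card_sub, Nat.card_of_isEmpty] at h2
  exact (Nat.modEq_zero_iff_dvd).1 h2

end Cfsg.Agent.H8.Pr
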