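import Cfsg.Agent.H8.PrF

/-! Fixed points of pronormal subgroups (Praeger), part G: moments and the main theorem. -/

namespace Cfsg.Agent.H8.Pr

open Finset
open scoped Classical Pointwise

set_option linter.unusedSectionVars false

variable {G : Type} [Group G] [Fintype G]
variable {Ω : Type} [MulAction G Ω] [Fintype Ω] {K : Subgroup G}

theorem Tr.const {t : ℕ} (hT : Tr G Ω t) {ι : Type} [Fintype ι] (ht : Fintype.card ι ≤ t)
    {x y : ι → Ω} (hx : Function.Injective x) (hy : Function.Injective y) (F : (ι → Ω) → ℤ) :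
    ∑ g : G, F (fun i => g • x i) = ∑ g : G, F (fun i => g • y i) := by
  obtain ⟨h, hh⟩ := hT (univ.image x) (Function.extend x y id)
    (card_image_le.trans (by rwa [card_univ])) (by
      intro a ha b hb hab
      obtain ⟨i, -, rfl⟩ := mem_image.1 (mem_coe.1 ha)
      obtain ⟨j, -, rfl⟩ := mem_image.1 (mem_coe.1 hb)
      rw [hx.extend_apply, hx.extend_apply] at hab
      rw [hy hab])
  have h1 : ∀ i, h • x i = y i := fun i => by
    rw [hh _ (mem_image_of_mem _ (mem_univ i)), hx.extend_apply]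
  rw [← Equiv.sum_comp (Equiv.mulRight h)]
  apply sum_congr rfl
  intro g _
  congr 1
  ext i
  rw [Equiv.coe_mulRight, mul_smul, h1]

theorem moments (hT : Tr G Ω 4) (h4 : 4 ≤ Fintype.card Ω) (s : Ω → ℤ) (hs : ∀ x, s x * s x = 1)
    (hs0 : ∑ x, s x = 0) : ∃ c2 c4 : ℤ, (Fintype.card G : ℤ) + (Fintype.card Ω - 1) * c2 = 0 ∧
      3 * c2 + (Fintype.card Ω - 3) * c4 = 0 ∧ (∀ x : Ω, ∑ g : G, s (g • x) = 0) ∧
      (∀ x y : Ω, x ≠ y → ∑ g : G, s (g • x) * s (g • y) = c2) ∧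
      (∀ x y z : Ω, ∑ g : G, s (g • x) * s (g • y) * s (g • z) = 0) ∧
      (∀ x y z w : Ω, x ≠ y → x ≠ z → x ≠ w → y ≠ z → y ≠ w → z ≠ w →
        ∑ g : G, s (g • x) * s (g • y) * s (g • z) * s (g • w) = c4) := by
  have hz : ∀ g : G, ∑ x : Ω, s (g • x) = 0 := fun g => by
    rw [← hs0]; exact Equiv.sum_comp (MulAction.toPerm g) s
  have hzz : ∀ φ : G → ℤ, ∑ x : Ω, ∑ g : G, φ g * s (g • x) = 0 := fun φ => by
    rw [sum_comm]
    apply sum_eq_zero
    intro g _
    rw [← mul_sum, hz, mul_zero]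
  have k1 : ∀ x y : Ω, ∑ g : G, s (g • x) = ∑ g : G, s (g • y) := fun x y =>
    hT.const (ι := Fin 1) (by simp) (x := ![x]) (y := ![y]) (Function.injective_of_subsingleton _)
      (Function.injective_of_subsingleton _) (fun v => s (v 0))
  have k2 : ∀ x y x' y' : Ω, x ≠ y → x' ≠ y' →
      ∑ g : G, s (g • x) * s (g • y) = ∑ g : G, s (g • x') * s (g • y') := fun x y x' y' h h' =>
    hT.const (ι := Fin 2) (by simp) (x := ![x, y]) (y := ![x', y'])
      (by intro i j; fin_cases i <;> fin_cases j <;> simp [h, h.symm])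
      (by intro i j; fin_cases i <;> fin_cases j <;> simp [h', h'.symm])
      (fun v => s (v 0) * s (v 1))
  have i3 : ∀ x y z : Ω, x ≠ y → x ≠ z → y ≠ z → Function.Injective ![x, y, z] := by
    intro x y z h1 h2 h3 i j
    fin_cases i <;> fin_cases j <;> simp [h1, h2, h3, h1.symm, h2.symm, h3.symm]
  have i4 : ∀ x y z w : Ω, x ≠ y → x ≠ z → x ≠ w → y ≠ z → y ≠ w → z ≠ w →
      Function.Injective ![x, y, z, w] := by
    intro x y z w h1 h2 h3 h4 h5 h6 i j
    fin_cases i <;> fin_cases j <;>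
      simp [h1, h2, h3, h4, h5, h6, h1.symm, h2.symm, h3.symm, h4.symm, h5.symm, h6.symm]
  have hcu : (univ : Finset Ω).card = Fintype.card Ω := card_univ
  obtain ⟨a, -, b, -, c, -, hab, hac, hbc⟩ := two_lt_card.1 (show 2 < (univ : Finset Ω).card by omega)
  obtain ⟨d, -, hd⟩ := ex_out (E := univ) (S := {a, b, c}) (by
    have := card_le_three (a := a) (b := b) (c := c); omega)
  simp only [mem_insert, mem_singleton, not_or] at hd
  have n4 : (4 : ℤ) ≤ Fintype.card Ω := by exact_mod_cast h4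
  have m1 : ∀ x : Ω, ∑ g : G, s (g • x) = 0 := by
    intro x
    have h1 := hzz fun _ => 1
    simp only [one_mul] at h1
    rw [sum_congr rfl fun y _ => k1 y x, sum_const, card_univ, nsmul_eq_mul, mul_eq_zero] at h1
    exact h1.resolve_left (by omega)
  set c2 := ∑ g : G, s (g • a) * s (g • b) with hc2
  have m2 : ∀ x y : Ω, x ≠ y → ∑ g : G, s (g • x) * s (g • y) = c2 := fun x y h => k2 x y a b h hab
  have ss : ∀ (x : Ω) (t : ℤ), t * s x * s x = t := fun x t => by rw [mul_assoc, hs, mul_one]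
  have m3 : ∀ x y z : Ω, ∑ g : G, s (g • x) * s (g • y) * s (g • z) = 0 := by
    have k3 : ∀ x y z : Ω, x ≠ y → x ≠ z → y ≠ z → ∑ g : G, s (g • x) * s (g • y) * s (g • z) =
        ∑ g : G, s (g • a) * s (g • b) * s (g • c) := fun x y z h1 h2 h3 =>
      hT.const (ι := Fin 3) (by simp) (i3 x y z h1 h2 h3) (i3 a b c hab hac hbc)
        (fun v => s (v 0) * s (v 1) * s (v 2))
    have r1 : ∀ x y : Ω, ∑ g : G, s (g • x) * s (g • y) * s (g • y) = 0 := fun x y => by
      simp only [ss, m1]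
    have r2 : ∀ x y : Ω, ∑ g : G, s (g • x) * s (g • y) * s (g • x) = 0 := fun x y => by
      rw [← r1 y x]; exact sum_congr rfl fun g _ => by ring
    have r3 : ∀ x y : Ω, ∑ g : G, s (g • x) * s (g • x) * s (g • y) = 0 := fun x y => by
      rw [← r1 y x]; exact sum_congr rfl fun g _ => by ring
    have h1 := hzz fun g => s (g • a) * s (g • b)
    rw [← add_sum_erase _ _ (mem_univ a), ← add_sum_erase _ _ (mem_erase.2 ⟨hab.symm, mem_univ b⟩),
      r1, r2, sum_congr rfl (fun z hz => k3 a b z hab (mem_erase.1 (mem_erase.1 hz).2).1.symm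
        (mem_erase.1 hz).1.symm), sum_const, card_erase_of_mem (mem_erase.2 ⟨hab.symm, mem_univ b⟩),
      card_erase_of_mem (mem_univ a), nsmul_eq_mul, zero_add, zero_add, mul_eq_zero] at h1
    have h2 := h1.resolve_left (by
      rw [Nat.cast_eq_zero]; omega)
    intro x y z
    by_cases e1 : x = y
    · rw [e1, r3]
    by_cases e2 : x = z
    · rw [e2, r2]
    by_cases e3 : y = z
    · rw [e3, r1]
    rw [k3 x y z e1 e2 e3, h2]
  set c4 := ∑ g : G, s (g • a) * s (g • b) * s (g • c) * s (g • d) with hc4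
  have m4 : ∀ x y z w : Ω, x ≠ y → x ≠ z → x ≠ w → y ≠ z → y ≠ w → z ≠ w →
      ∑ g : G, s (g • x) * s (g • y) * s (g • z) * s (g • w) = c4 := fun x y z w h1 h2 h3 h4 h5 h6 =>
    hT.const (ι := Fin 4) (by simp) (i4 x y z w h1 h2 h3 h4 h5 h6)
      (i4 a b c d hab hac (Ne.symm hd.1) hbc (Ne.symm hd.2.1) (Ne.symm hd.2.2))
      (fun v => s (v 0) * s (v 1) * s (v 2) * s (v 3))
  refine ⟨c2, c4, ?_, ?_, m1, m2, m3, m4⟩
  · have h1 := hzz fun g => s (g • a)
    rw [← add_sum_erase _ _ (mem_univ a), sum_congr rfl (fun z hz => m2 a z (mem_erase.1 hz).1.symm),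
      sum_const, card_erase_of_mem (mem_univ a), nsmul_eq_mul, card_univ,
      Nat.cast_sub (by omega)] at h1
    simp only [hs, sum_const, card_univ, nsmul_eq_mul, mul_one] at h1
    simpa using h1
  · have h1 := hzz fun g => s (g • a) * s (g • b) * s (g • c)
    have hb' : b ∈ univ.erase a := mem_erase.2 ⟨hab.symm, mem_univ b⟩
    have hc' : c ∈ (univ.erase a).erase b := mem_erase.2 ⟨hbc.symm, mem_erase.2 ⟨hac.symm, mem_univ c⟩⟩
    have r1 : ∑ g : G, s (g • a) * s (g • b) * s (g • c) * s (g • a) = c2 := by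
      rw [← m2 b c hbc]
      exact sum_congr rfl fun g _ => by rw [← ss (g • a) (s (g • b) * s (g • c))]; ring
    have r2 : ∑ g : G, s (g • a) * s (g • b) * s (g • c) * s (g • b) = c2 := by
      rw [← m2 a c hac]
      exact sum_congr rfl fun g _ => by rw [← ss (g • b) (s (g • a) * s (g • c))]; ring
    have r3 : ∑ g : G, s (g • a) * s (g • b) * s (g • c) * s (g • c) = c2 := by
      simp only [ss]; exact hc2.symm
    rw [← add_sum_erase _ _ (mem_univ a), ← add_sum_erase _ _ hb', ← add_sum_erase _ _ hc', r1, r2, r3,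
      sum_congr rfl (fun z hz => m4 a b c z hab hac
        (mem_erase.1 (mem_erase.1 (mem_erase.1 hz).2).2).1.symm hbc
        (mem_erase.1 (mem_erase.1 hz).2).1.symm (mem_erase.1 hz).1.symm), sum_const,
      card_erase_of_mem hc', card_erase_of_mem hb', card_erase_of_mem (mem_univ a), nsmul_eq_mul,
      card_univ, show Fintype.card Ω - 1 - 1 - 1 = Fintype.card Ω - 3 by omega,
      Nat.cast_sub (by omega)] at h1
    push_cast at h1
    linarith

theorem moment_sum (hT : Tr G Ω 4) (s : Ω → ℤ) (hs : ∀ x, s x * s x = 1) (hs0 : ∑ x, s x = 0)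
    {Γ : Finset Ω} (hn : Fintype.card Ω = 2 * Γ.card) (hf : 6 ≤ Γ.card) (u : Ω → Ω)
    (hu : ∀ x ∈ Γ, u x ∈ Γ ∧ u x ≠ x) (ε : ℤ) (hε : ε = 0 ∨ ε = 1) :
    0 < ∑ g : G, ((∑ x ∈ Γ, s (g • x)) + (∑ x ∈ Γ, s (g • x) * s (g • u x)) - 2) *
      (((∑ x ∈ Γ, s (g • x)) + ε) * ((∑ x ∈ Γ, s (g • x)) + ε + 2)) := by
  obtain ⟨c2, c4, e2, e4, m1, m2, m3, m4⟩ := moments hT (by omega) s hs hs0
  obtain ⟨f, hfd⟩ : ∃ f : ℤ, f = (Γ.card : ℤ) := ⟨_, rfl⟩
  have hf' : 6 ≤ f := by rw [hfd]; exact_mod_cast hf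
  have hn' : (Fintype.card Ω : ℤ) = 2 * f := by rw [hn, hfd]; push_cast; ring
  rw [hn'] at e2 e4
  obtain ⟨G0, hG0⟩ : ∃ G0 : ℤ, G0 = (Fintype.card G : ℤ) := ⟨_, rfl⟩
  rw [← hG0] at e2
  have hG : 0 < G0 := by rw [hG0]; exact_mod_cast Fintype.card_pos
  have ss : ∀ (x : Ω) (t : ℤ), t * s x * s x = t := fun x t => by rw [mul_assoc, hs, mul_one]
  let σ : G → ℤ := fun g => ∑ x ∈ Γ, s (g • x)
  let q : G → ℤ := fun g => ∑ x ∈ Γ, s (g • x) * s (g • u x)
  have hc : ∀ x ∈ Γ, ((Γ.erase x).card : ℤ) = f - 1 := fun x hx => by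
    rw [card_erase_of_mem hx, Nat.cast_sub (by omega), hfd]; rfl
  have a0 : ∀ x ∈ Γ, ∑ g : G, s (g • x) * σ g = G0 + (f - 1) * c2 := by
    intro x hx
    simp only [σ, mul_sum]
    rw [sum_comm, ← add_sum_erase _ _ hx, sum_congr rfl (fun z hz => m2 x z (mem_erase.1 hz).1.symm),
      sum_const, nsmul_eq_mul, hc x hx]
    simp only [hs, sum_const, card_univ, nsmul_eq_mul, mul_one, hG0]
  have a1 : ∑ g : G, σ g = 0 := by
    simp only [σ]
    rw [sum_comm]; exact sum_eq_zero fun x _ => m1 x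
  have a2 : ∑ g : G, σ g * σ g = f * (G0 + (f - 1) * c2) := by
    have : ∀ g, σ g * σ g = ∑ x ∈ Γ, s (g • x) * σ g := fun g => sum_mul _ _ _
    simp only [this]
    rw [sum_comm, sum_congr rfl a0, sum_const, nsmul_eq_mul, hfd]
  have a33 : ∀ x y : Ω, ∑ g : G, s (g • x) * s (g • y) * σ g = 0 := by
    intro x y
    simp only [σ, mul_sum]
    rw [sum_comm]; exact sum_eq_zero fun z _ => m3 x y z
  have a3 : ∑ g : G, σ g * σ g * σ g = 0 := by
    have : ∀ g, σ g * σ g * σ g = ∑ x ∈ Γ, ∑ y ∈ Γ, s (g • x) * s (g • y) * σ g := fun g => by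
      rw [show σ g * σ g = ∑ x ∈ Γ, ∑ y ∈ Γ, s (g • x) * s (g • y) from sum_mul_sum _ _ _ _, sum_mul]
      exact sum_congr rfl fun x _ => sum_mul _ _ _
    simp only [this]
    rw [sum_comm]
    refine sum_eq_zero fun x _ => ?_
    rw [sum_comm]; exact sum_eq_zero fun y _ => a33 x y
  have b0 : ∑ g : G, q g = f * c2 := by
    simp only [q]
    rw [sum_comm, sum_congr rfl (fun x hx => m2 x (u x) (hu x hx).2.symm), sum_const, nsmul_eq_mul, hfd]
  have b1 : ∑ g : G, q g * σ g = 0 := by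
    have : ∀ g, q g * σ g = ∑ x ∈ Γ, s (g • x) * s (g • u x) * σ g := fun g => sum_mul _ _ _
    simp only [this]
    rw [sum_comm]; exact sum_eq_zero fun x _ => a33 x (u x)
  have b22 : ∀ a ∈ Γ, ∀ b ∈ Γ, a ≠ b → ∑ g : G, s (g • a) * s (g • b) * σ g * σ g =
      2 * (G0 + (f - 1) * c2) + (f - 2) * (3 * c2 + (f - 3) * c4) := by
    intro a ha b hb hab
    have hb' : b ∈ Γ.erase a := mem_erase.2 ⟨hab.symm, hb⟩
    have h0 : ∀ g : G, s (g • a) * s (g • b) * σ g * σ g =
        ∑ z ∈ Γ, s (g • a) * s (g • b) * s (g • z) * σ g := fun g => by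
      rw [← sum_mul, ← mul_sum]
    have r1 : ∑ g : G, s (g • a) * s (g • b) * s (g • a) * σ g = G0 + (f - 1) * c2 := by
      rw [← a0 b hb]
      exact sum_congr rfl fun g _ => by rw [← ss (g • a) (s (g • b) * σ g)]; ring
    have r2 : ∑ g : G, s (g • a) * s (g • b) * s (g • b) * σ g = G0 + (f - 1) * c2 := by
      rw [← a0 a ha]
      exact sum_congr rfl fun g _ => by rw [ss]
    have hc2 : (((Γ.erase a).erase b).card : ℤ) = f - 2 := by
      rw [card_erase_of_mem hb', card_erase_of_mem ha, Nat.cast_sub (by omega),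
        Nat.cast_sub (by omega), hfd]
      push_cast; ring
    have r3 : ∀ z ∈ (Γ.erase a).erase b,
        ∑ g : G, s (g • a) * s (g • b) * s (g • z) * σ g = 3 * c2 + (f - 3) * c4 := by
      intro z hz
      have hzb := (mem_erase.1 hz).1
      have hza := (mem_erase.1 (mem_erase.1 hz).2).1
      have t1 : ∑ g : G, s (g • a) * s (g • b) * s (g • z) * s (g • a) = c2 := by
        rw [← m2 b z hzb.symm]
        exact sum_congr rfl fun g _ => by rw [← ss (g • a) (s (g • b) * s (g • z))]; ring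
      have t2 : ∑ g : G, s (g • a) * s (g • b) * s (g • z) * s (g • b) = c2 := by
        rw [← m2 a z hza.symm]
        exact sum_congr rfl fun g _ => by rw [← ss (g • b) (s (g • a) * s (g • z))]; ring
      have t3 : ∑ g : G, s (g • a) * s (g • b) * s (g • z) * s (g • z) = c2 := by
        simp only [ss]; exact m2 a b hab
      have hc3 : ((((Γ.erase a).erase b).erase z).card : ℤ) = f - 3 := by
        rw [card_erase_of_mem hz, Nat.cast_sub (card_pos.2 ⟨z, hz⟩), hc2]
        push_cast; ring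
      simp only [σ, mul_sum]
      rw [sum_comm, ← add_sum_erase _ _ ha, ← add_sum_erase _ _ hb', ← add_sum_erase _ _ hz, t1, t2, t3,
        sum_congr rfl (fun w hw => m4 a b z w hab hza.symm
          (mem_erase.1 (mem_erase.1 (mem_erase.1 hw).2).2).1.symm hzb.symm
          (mem_erase.1 (mem_erase.1 hw).2).1.symm (mem_erase.1 hw).1.symm), sum_const,
        nsmul_eq_mul, hc3]
      ring
    simp only [h0]
    rw [sum_comm, ← add_sum_erase _ _ ha, ← add_sum_erase _ _ hb', r1, r2, sum_congr rfl r3,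
      sum_const, nsmul_eq_mul, hc2]
    ring
  have b2 : ∑ g : G, q g * σ g * σ g =
      f * (2 * (G0 + (f - 1) * c2) + (f - 2) * (3 * c2 + (f - 3) * c4)) := by
    have : ∀ g, q g * σ g * σ g = ∑ x ∈ Γ, s (g • x) * s (g • u x) * σ g * σ g := fun g => by
      rw [← sum_mul, ← sum_mul]
    simp only [this]
    rw [sum_comm, sum_congr rfl (fun x hx => b22 x hx (u x) (hu x hx).1 (hu x hx).2.symm), sum_const,
      nsmul_eq_mul, ← hfd]
  have key : ∑ g : G, (σ g + q g - 2) * ((σ g + ε) * (σ g + ε + 2)) =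
      ∑ g : G, σ g * σ g * σ g + 2 * ε * ∑ g : G, σ g * σ g +
      (ε * (ε + 2) - 2 * (2 * ε + 2)) * ∑ g : G, σ g + ∑ g : G, q g * σ g * σ g +
      (2 * ε + 2) * ∑ g : G, q g * σ g + ε * (ε + 2) * ∑ g : G, q g -
      ∑ _g : G, 2 * (ε * (ε + 2)) := by
    simp only [mul_sum, ← sum_add_distrib, ← sum_sub_distrib]
    exact sum_congr rfl fun g _ => by ring
  change 0 < ∑ g : G, (σ g + q g - 2) * ((σ g + ε) * (σ g + ε + 2))
  rw [key, a1, a2, a3, b0, b1, b2, sum_const, card_univ, nsmul_eq_mul, ← hG0]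
  have hG1 : G0 = (2 * f - 1) * (-c2) := by linarith
  have hc2 : 0 < -c2 := by
    rw [hG1] at hG
    exact (pos_iff_pos_of_mul_pos hG).1 (by omega)
  refine (pos_iff_pos_of_mul_pos (a := 2 * f - 3) ?_).1 (by omega)
  have hc4 : (2 * f - 3) * c4 = 3 * (-c2) := by linarith
  set a := -c2 with ha
  have hc2' : c2 = -a := by omega
  rw [hG1, hc2']
  rcases hε with rfl | rfl
  · have : (2 * f - 3) * (0 + 2 * 0 * (f * ((2 * f - 1) * a + (f - 1) * -a)) +
        (0 * (0 + 2) - 2 * (2 * 0 + 2)) * 0 +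
        f * (2 * ((2 * f - 1) * a + (f - 1) * -a) + (f - 2) * (3 * -a + (f - 3) * c4)) +
        (2 * 0 + 2) * 0 + 0 * (0 + 2) * (f * -a) - (2 * f - 1) * a * (2 * (0 * (0 + 2)))) =
        f ^ 3 * a := by
      linear_combination f * (f - 2) * (f - 3) * hc4
    rw [this]; positivity
  · have : (2 * f - 3) * (0 + 2 * 1 * (f * ((2 * f - 1) * a + (f - 1) * -a)) +
        (1 * (1 + 2) - 2 * (2 * 1 + 2)) * 0 +
        f * (2 * ((2 * f - 1) * a + (f - 1) * -a) + (f - 2) * (3 * -a + (f - 3) * c4)) +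
        (2 * 1 + 2) * 0 + 1 * (1 + 2) * (f * -a) - (2 * f - 1) * a * (2 * (1 * (1 + 2)))) =
        (5 * f ^ 3 - 36 * f ^ 2 + 57 * f - 18) * a := by
      linear_combination f * (f - 2) * (f - 3) * hc4
    rw [this]
    apply mul_pos _ hc2
    obtain ⟨t, ht⟩ : ∃ t : ℤ, f = t + 6 := ⟨f - 6, by ring⟩
    have ht0 : 0 ≤ t := by omega
    rw [ht]
    have : 5 * (t + 6) ^ 3 - 36 * (t + 6) ^ 2 + 57 * (t + 6) - 18 =
        5 * t ^ 3 + 54 * t ^ 2 + 165 * t + 108 := by ring
    rw [this]; positivity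

end Cfsg.Agent.H8.Pr
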