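import Cfsg.Agent.H8.PrG

/-! Fixed points of pronormal subgroups (Praeger), part H: the main theorem. -/

namespace Cfsg.Agent.H8.Pr

open Finset
open scoped Classical Pointwise

set_option linter.unusedSectionVars false

variable {G : Type} [Group G] [Fintype G]
variable {Ω : Type} [MulAction G Ω] [Fintype Ω] {K : Subgroup G}

theorem lev4 [FaithfulSMul G Ω] (hP : Pron K) (hT : Tr G Ω 4) {x0 : Ω}
    (hx0 : x0 ∉ fx K Ω) (hn : Fintype.card Ω = 2 * (fx K Ω).card) : False := by
  have hf := hT.lt_orb hP hn hx0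
  set F := fx K Ω with hF
  set Γ := univ \ F with hΓ
  have hΓc : Γ.card = F.card := card_out hn
  have hmΓ : ∀ x, x ∈ Γ ↔ x ∉ F := fun x => by simp [hΓ]
  have hsm := no_small hP hT hn hx0
  have hcu : (univ : Finset Ω).card = 2 * F.card := by rw [card_univ, hn]
  have hB := (bochert (H := ⊤) (E := (univ : Finset Ω)) (fun _ _ _ _ => mem_univ _) hT.on
    (by omega) fun c _ => hsm c).2
  have hfix : ∀ (c : G) (S : Finset Ω), (∀ x ∈ S, c • x = x) → F.card + 2 ≤ S.card → c = 1 := by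
    intro c S hS hc
    by_contra hne
    have h1 : (supp (univ : Finset Ω) c).Nonempty := by
      by_contra h
      apply hne
      apply eq_of_smul_eq_smul (α := Ω)
      intro x
      rw [one_smul]
      by_contra hx
      exact h ⟨x, mem_supp.2 ⟨mem_univ _, hx⟩⟩
    have h2 := hB c (Subgroup.mem_top _) h1
    have h3 : supp (univ : Finset Ω) c ⊆ univ \ S := fun x hx =>
      mem_sdiff.2 ⟨mem_univ _, fun h => (mem_supp.1 hx).2 (hS x h)⟩
    have h4 := card_le_card h3
    rw [card_sdiff_of_subset (subset_univ _)] at h4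
    have := card_le_univ S
    omega
  have htwo : ∀ c : G, (∀ x ∈ F, c • x = x) → ∀ y ∉ F, ∀ y' ∉ F, y ≠ y' → c • y = y →
      c • y' = y' → c = 1 := by
    intro c hc y hy y' hy' hne h1 h2
    apply hfix c (insert y (insert y' F))
    · intro x hx
      rcases mem_insert.1 hx with rfl | hx
      · exact h1
      rcases mem_insert.1 hx with rfl | hx
      · exact h2
      exact hc x hx
    · rw [card_insert_of_notMem (by simp [hne, hy]), card_insert_of_notMem hy']
  have hK : 5 ≤ Nat.card K := by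
    have h1 := orb_stab K x0
    rw [card_filter_mem] at h1
    have h2 : 0 < (univ.filter fun g : G => g ∈ K ∧ g • x0 = x0).card :=
      card_pos.2 ⟨1, mem_filter.2 ⟨mem_univ _, K.one_mem, one_smul _ _⟩⟩
    nlinarith [hf.1]
  let N : Subgroup G := MulAction.stabilizer G F
  have hN : ∀ a : G, (∀ y ∈ F, a • y ∈ F) → a ∈ N := by
    intro a ha
    rw [MulAction.mem_stabilizer_iff]
    apply eq_of_subset_of_card_le
    · intro z hz
      obtain ⟨y, hy, rfl⟩ := mem_smul_finset.1 hz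
      exact ha y hy
    · rw [card_smul_finset]
  have hNI : Inv N F := fun a ha x hx => by
    rw [← MulAction.mem_stabilizer_iff.1 ha]; exact smul_mem_smul_finset hx
  have hKN : K ≤ N := fun k hk => hN k fun y hy => by rw [mem_fx.1 hy k hk]; exact hy
  have hNT : TrOn N F 4 := by
    intro A φ hA hAc hφ hφF
    obtain ⟨g, hg⟩ := hT A φ hAc hφ
    obtain ⟨m, -, hm, hmg⟩ := witt hP (H := ⊤) le_top hA (Subgroup.mem_top g)
      fun x hx => by rw [hg x hx]; exact hφF x hx
    exact ⟨m, hN m fun y hy => norm_smul_fx hm hy, fun x hx => by rw [hmg x hx, hg x hx]⟩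
  obtain ⟨hf6, hBN⟩ := bochert hNI hNT (by omega)
    (no_small_N hn (hf.1.trans_le hf.2) hK hsm hKN hNI hNT)
  obtain ⟨u, hu, hup, huf⟩ := exists_fpf (Ω := Ω) (K := K) (by omega)
    fun k hk => htwo k fun x hx => mem_fx.1 hx k hk
  have hout : ∀ k ∈ K, ∀ y ∉ F, k • y ∉ F := fun k hk y hy =>
    (mem_sdiff.1 (orb_out hy (mem_orb.2 ⟨k, hk, rfl⟩))).2
  have hufix : ∀ x, u • x = x ↔ x ∈ F := fun x =>
    ⟨fun h => by by_contra hx; exact huf x hx h, fun h => mem_fx.1 h u hu⟩
  have hpf : orderOf u ∣ F.card := by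
    rw [← hΓc]
    exact prime_dvd_card hup (fun x hx => (hmΓ _).2 (hout u hu x ((hmΓ x).1 hx)))
      fun x hx => huf x ((hmΓ x).1 hx)
  let b : G → ℕ := fun g => (Γ.filter fun x => g • x ∈ F).card
  let gg : G → ℕ := fun g => (Γ.filter fun x => g • x ∈ F ∧ g • u • x ∉ F).card
  have hb1 : ∀ g : G, (F.filter fun x => g • x ∉ F).card = b g := by
    intro g
    have h1 := card_pre_split (K := K) (Ω := Ω) g
    have h2 := card_filter_add_card_filter_not (s := F) fun x => g • x ∈ F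
    change (F.filter fun x => g • x ∈ F).card + b g = F.card at h1
    omega
  have hb2 : ∀ g : G, b g⁻¹ = b g := by
    intro g
    rw [← hb1 g]
    apply card_bij (fun x _ => g⁻¹ • x)
    · intro x hx
      obtain ⟨h1, h2⟩ := mem_filter.1 hx
      exact mem_filter.2 ⟨h2, by rw [smul_inv_smul]; exact (hmΓ x).1 h1⟩
    · intro x _ y _ h; exact smul_left_cancel _ h
    · intro x hx
      obtain ⟨h1, h2⟩ := mem_filter.1 hx
      exact ⟨g • x, mem_filter.2 ⟨(hmΓ _).2 h2, by rwa [inv_smul_smul]⟩, inv_smul_smul _ _⟩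
  -- commuting conjugates
  have hcomm : ∀ g : G, u * (g⁻¹ * u * g) = (g⁻¹ * u * g) * u → 0 < b g →
      F.card ≤ 2 * b g + 3 ∧ 2 * b g ≤ F.card + 1 ∧ orderOf u ∣ b g := by
    intro g hc hb
    set v := g⁻¹ * u * g with hv
    have hvf : ∀ x : Ω, v • x = x ↔ g • x ∈ F := fun x => by
      rw [hv, mul_smul, mul_smul, inv_smul_eq_iff, hufix]
    have hvN : v ∈ N := hN v fun y hy => by
      rw [← hufix, ← mul_smul, hc, mul_smul, (hufix y).2 hy]
    have hsv : supp F v = F.filter fun x => g • x ∉ F := by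
      ext x; rw [mem_supp, mem_filter, Ne, hvf]
    refine ⟨?_, ?_, ?_⟩
    · have := hBN v hvN (by rw [hsv]; exact card_pos.1 (by rw [hb1]; exact hb))
      rwa [hsv, hb1] at this
    · by_contra hcon
      obtain ⟨y, hy⟩ := card_pos.1 hb
      obtain ⟨hy1, hy2⟩ := mem_filter.1 hy
      refine ko hP ((hmΓ y).1 hy1) g fun z hz => ?_
      obtain ⟨k, hk, rfl⟩ := mem_orb.1 hz
      have h1 : b (g * k) = b g := by
        apply card_bij (fun x _ => k • x)
        · intro x hx
          obtain ⟨h1, h2⟩ := mem_filter.1 hx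
          exact mem_filter.2 ⟨(hmΓ _).2 (hout k hk x ((hmΓ x).1 h1)), by rwa [← mul_smul]⟩
        · intro x _ y _ h; exact smul_left_cancel _ h
        · intro x hx
          obtain ⟨h1, h2⟩ := mem_filter.1 hx
          exact ⟨k⁻¹ • x, mem_filter.2 ⟨(hmΓ _).2 (hout _ (K.inv_mem hk) x ((hmΓ x).1 h1)),
            by rwa [mul_smul, smul_inv_smul]⟩, smul_inv_smul _ _⟩
      have h2 := card_union_add_card_inter (Γ.filter fun x => g • x ∈ F)
        (Γ.filter fun x => (g * k) • x ∈ F)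
      have h3 := card_le_card (union_subset (filter_subset (fun x => g • x ∈ F) Γ)
        (filter_subset (fun x => (g * k) • x ∈ F) Γ))
      change _ = b g + b (g * k) at h2
      obtain ⟨y1, hy1', y2, hy2', hne⟩ := one_lt_card.1 (show 1 < ((Γ.filter fun x => g • x ∈ F) ∩
        (Γ.filter fun x => (g * k) • x ∈ F)).card by omega)
      have key : ∀ w ∈ (Γ.filter fun x => g • x ∈ F) ∩ (Γ.filter fun x => (g * k) • x ∈ F),
          w ∉ F ∧ (k⁻¹ * v * k * v⁻¹) • w = w := by
        intro w hw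
        obtain ⟨h4, h5⟩ := mem_inter.1 hw
        refine ⟨(hmΓ w).1 (mem_filter.1 h4).1, ?_⟩
        have h6 : v⁻¹ • w = w := inv_smul_eq_iff.2 ((hvf w).2 (mem_filter.1 h4).2).symm
        have h7 : v • k • w = k • w := (hvf _).2 (by rw [← mul_smul]; exact (mem_filter.1 h5).2)
        rw [mul_smul, mul_smul, mul_smul, h6, h7, inv_smul_smul]
      have h4 := htwo (k⁻¹ * v * k * v⁻¹) (fun x hx => by
        rw [mul_smul, mul_smul, mul_smul, mem_fx.1 (hNI _ (N.inv_mem hvN) x hx) k hk,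
          smul_inv_smul, mem_fx.1 hx _ (K.inv_mem hk)]) y1 (key y1 hy1').1 y2 (key y2 hy2').1 hne
        (key y1 hy1').2 (key y2 hy2').2
      have h5 : v * k = k * v := by
        rw [mul_inv_eq_one, mul_assoc, inv_mul_eq_iff_eq_mul] at h4
        exact h4
      rw [← hvf, ← mul_smul, h5, mul_smul, (hvf y).2 hy2]
    · refine prime_dvd_card hup (fun x hx => ?_) fun x hx => huf x ((hmΓ x).1 (mem_filter.1 hx).1)
      obtain ⟨h1, h2⟩ := mem_filter.1 hx
      refine mem_filter.2 ⟨(hmΓ _).2 (hout u hu x ((hmΓ x).1 h1)), ?_⟩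
      rw [← hvf, ← mul_smul, ← hc, mul_smul, (hvf x).2 h2]
  have hnc : ∀ g : G, u * (g⁻¹ * u * g) ≠ (g⁻¹ * u * g) * u → b g ≤ gg g + gg g⁻¹ + 1 := by
    intro g hc
    set v := g⁻¹ * u * g with hv
    have hvf : ∀ x : Ω, v • x = x ↔ g • x ∈ F := fun x => by
      rw [hv, mul_smul, mul_smul, inv_smul_eq_iff, hufix]
    by_contra hcon
    apply hc
    rw [← inv_mul_eq_one]
    apply hfix _ ((F.filter fun x => v • x ∈ F) ∪ (Γ.filter fun x => g • x ∈ F ∧ g • u • x ∈ F))
    · intro x hx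
      rw [mul_smul, inv_smul_eq_iff, mul_smul u v, mul_smul v u]
      rcases mem_union.1 hx with h | h
      · obtain ⟨h1, h2⟩ := mem_filter.1 h
        rw [(hufix x).2 h1, (hufix _).2 h2]
      · obtain ⟨-, h1, h2⟩ := mem_filter.1 h
        rw [(hvf x).2 h1, (hvf _).2 h2]
    · rw [card_union_of_disjoint (disjoint_left.2 fun x hx hx' =>
        (hmΓ x).1 (mem_filter.1 hx').1 (mem_filter.1 hx).1)]
      have h1 := card_filter_add_card_filter_not (s := F) fun x => v • x ∈ F
      have h2 : (F.filter fun x => ¬ v • x ∈ F).card ≤ gg g⁻¹ := by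
        apply card_le_card_of_injOn (fun x => g • x)
        · intro x hx
          obtain ⟨h3, h4⟩ := mem_filter.1 hx
          refine mem_filter.2 ⟨(hmΓ _).2 fun h => h4 (by rwa [(hvf x).2 h]),
            by rwa [inv_smul_smul], ?_⟩
          rwa [hv, mul_smul, mul_smul] at h4
        · intro x _ y _ h; exact smul_left_cancel _ h
      have h3 : b g ≤ (Γ.filter fun x => g • x ∈ F ∧ g • u • x ∈ F).card + gg g := by
        refine le_trans (card_le_card ?_) (card_union_le _ _)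
        intro x hx
        obtain ⟨h4, h5⟩ := mem_filter.1 hx
        by_cases h6 : g • u • x ∈ F
        · exact mem_union_left _ (mem_filter.2 ⟨h4, h5, h6⟩)
        · exact mem_union_right _ (mem_filter.2 ⟨h4, h5, h6⟩)
      omega
  let s : Ω → ℤ := fun x => if x ∈ F then 1 else -1
  have hs : ∀ x, s x * s x = 1 := fun x => by simp only [s]; split_ifs <;> rfl
  have hsum : ∀ (S : Finset Ω) (φ : Ω → Ω), ∑ x ∈ S, s (φ x) =
      2 * ((S.filter fun x => φ x ∈ F).card : ℤ) - S.card := by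
    intro S φ
    rw [card_filter, card_eq_sum_ones S]
    push_cast
    rw [mul_sum, ← sum_sub_distrib]
    apply sum_congr rfl
    intro x _
    simp only [s]
    split_ifs <;> rfl
  have hs0 : ∑ x, s x = 0 := by
    rw [hsum univ fun x => x, filter_mem_eq_inter, univ_inter, hcu]
    push_cast; ring
  have hσ : ∀ g : G, ∑ x ∈ Γ, s (g • x) = 2 * (b g : ℤ) - F.card := fun g => by
    rw [hsum, hΓc]
  have hQ : ∀ g : G, ∑ x ∈ Γ, s (g • x) * s (g • u • x) = F.card - 4 * (gg g : ℤ) := by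
    intro g
    have h1 : ∑ x ∈ Γ, s (g • u • x) = ∑ x ∈ Γ, s (g • x) := by
      apply sum_bij (fun x _ => u • x)
      · intro x hx; exact (hmΓ _).2 (hout u hu x ((hmΓ x).1 hx))
      · intro x _ y _ h; exact smul_left_cancel _ h
      · intro x hx
        exact ⟨u⁻¹ • x, (hmΓ _).2 (hout _ (K.inv_mem hu) x ((hmΓ x).1 hx)), smul_inv_smul _ _⟩
      · intro x _; rfl
    have h2 : ∑ x ∈ Γ, (1 + s (g • x) - s (g • u • x) - s (g • x) * s (g • u • x)) =
        4 * (gg g : ℤ) := by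
      simp only [gg]
      rw [card_filter]
      push_cast
      rw [mul_sum]
      apply sum_congr rfl
      intro x _
      simp only [s]
      by_cases h3 : g • x ∈ F <;> by_cases h4 : g • u • x ∈ F <;> simp [h3, h4]
    rw [sum_sub_distrib, sum_sub_distrib, sum_add_distrib, h1, sum_const, hΓc, nsmul_eq_mul] at h2
    linarith
  obtain ⟨β, ε, hε, hβ⟩ : ∃ β ε : ℤ, (ε = 0 ∨ ε = 1) ∧ (F.card : ℤ) = 2 * β + ε :=
    ⟨F.card / 2, F.card % 2, by omega, by omega⟩
  have hpos := moment_sum hT s hs hs0 (Γ := Γ) (by rw [hΓc, hn]) (by omega) (fun x => u • x)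
    (fun x hx => ⟨(hmΓ _).2 (hout u hu x ((hmΓ x).1 hx)), huf x ((hmΓ x).1 hx)⟩) ε hε
  simp only [hσ, hQ] at hpos
  let w : G → ℤ := fun g => (2 * (b g : ℤ) - F.card + ε) * (2 * (b g : ℤ) - F.card + ε + 2)
  have hw : ∀ g, 0 ≤ w g := by
    intro g
    simp only [w]
    rw [hβ]
    rcases le_or_gt β (b g) with h | h
    · apply mul_nonneg <;> omega
    · apply mul_nonneg_of_nonpos_of_nonpos <;> omega
  have hle : ∀ g : G, ((b g : ℤ) - gg g - gg g⁻¹ - 1) * w g ≤ 0 := by
    intro g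
    by_cases hc : u * (g⁻¹ * u * g) = (g⁻¹ * u * g) * u
    · rcases Nat.eq_zero_or_pos (b g) with h0 | h0
      · exact mul_nonpos_of_nonpos_of_nonneg (by omega) (hw g)
      · obtain ⟨h1, h2, h3⟩ := hcomm g hc h0
        have h4 : 2 * b g ≠ F.card + 1 := by
          intro h
          have h5 : orderOf u ∣ F.card + 1 := h ▸ Dvd.dvd.mul_left h3 2
          exact hup.one_lt.ne' (Nat.dvd_one.1 ((Nat.dvd_add_right hpf).1 h5))
        have h5 : 2 * b g + 1 ≠ F.card := by
          intro h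
          rw [← h] at hpf
          exact hup.one_lt.ne' (Nat.dvd_one.1 ((Nat.dvd_add_right (Dvd.dvd.mul_left h3 2)).1 hpf))
        have h6 : w g = 0 := by
          simp only [w]
          rw [mul_eq_zero]
          omega
        rw [h6, mul_zero]
    · have := hnc g hc
      exact mul_nonpos_of_nonpos_of_nonneg (by omega) (hw g)
  have h1 : ∑ g : G, (gg g⁻¹ : ℤ) * w g = ∑ g : G, (gg g : ℤ) * w g := by
    rw [← Equiv.sum_comp (Equiv.inv G)]
    apply sum_congr rfl
    intro g _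
    simp only [Equiv.inv_apply, inv_inv, w, hb2]
  have h2 := sum_nonpos fun g (_ : g ∈ (univ : Finset G)) => hle g
  have h3 : ∑ g : G, ((b g : ℤ) - gg g - gg g⁻¹ - 1) * w g =
      ∑ g : G, ((b g : ℤ) - gg g - 1) * w g - ∑ g : G, (gg g⁻¹ : ℤ) * w g := by
    rw [← sum_sub_distrib]; exact sum_congr rfl fun g _ => by ring
  rw [h3, h1, ← sum_sub_distrib] at h2
  have h4 : ∑ g : G, (2 * (b g : ℤ) - F.card + (F.card - 4 * (gg g : ℤ)) - 2) *
      ((2 * (b g : ℤ) - F.card + ε) * (2 * (b g : ℤ) - F.card + ε + 2)) =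
      2 * ∑ g : G, (((b g : ℤ) - gg g - 1) * w g - (gg g : ℤ) * w g) := by
    rw [mul_sum]; exact sum_congr rfl fun g _ => by simp only [w]; ring
  rw [h4] at hpos
  omega

theorem pron_sub (hP : Pron K) {H : Subgroup G} (hH : K ≤ H) : Pron (K.subgroupOf H) := by
  intro g L hKL hg
  obtain ⟨w, ⟨w', hw', rfl⟩, hn⟩ := hP g (L.map H.subtype)
    (fun k hk => ⟨⟨k, hH hk⟩, hKL hk, rfl⟩) (fun k hk => ⟨_, hg ⟨k, hH hk⟩ hk, rfl⟩)
  refine ⟨w', hw', Subgroup.mem_normalizer_iff.2 fun h => ?_⟩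
  exact Subgroup.mem_normalizer_iff.1 hn h

theorem pron_map (hP : Pron K) {G' : Type} [Group G'] (f : G →* G') (hf : Function.Surjective f) :
    Pron (K.map f) := by
  intro g' L hKL hg
  obtain ⟨g, rfl⟩ := hf g'
  obtain ⟨w, hw, hn⟩ := hP g (L.comap f) (Subgroup.map_le_iff_le_comap.1 hKL) (fun k hk => by
    rw [Subgroup.mem_comap, map_mul, map_mul, map_inv]
    exact hg _ ⟨k, hk, rfl⟩)
  refine ⟨f w, hw, Subgroup.le_normalizer_map f ⟨_, hn, by rw [map_mul, map_inv]⟩⟩

theorem main (n : ℕ) : ∀ (G : Type) [Group G] [Fintype G] (Ω : Type) [MulAction G Ω] [Fintype Ω]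
    (K : Subgroup G), Fintype.card Ω = n → (∀ a b : Ω, ∃ g : G, g • a = b) → Pron K →
    (∃ x, x ∉ fx K Ω) → 2 * (fx K Ω).card + 1 ≤ n := by
  induction n using Nat.strong_induction_on with
  | _ n ih =>
  intro G _ _ Ω _ _ K hn hT hP ⟨x0, hx0⟩
  let G' := (MulAction.toPermHom G Ω).range
  let f : G →* G' := (MulAction.toPermHom G Ω).rangeRestrict
  let K' : Subgroup G' := K.map f
  have hP' : Pron K' := pron_map hP f (MonoidHom.rangeRestrict_surjective _)
  have hfx : fx K' Ω = fx K Ω := by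
    ext x
    rw [mem_fx, mem_fx]
    constructor
    · intro h k hk; exact h _ ⟨k, hk, rfl⟩
    · rintro h _ ⟨k, hk, rfl⟩; exact h k hk
  have hQ : Q K' (Fintype.card Ω) := by
    intro Ω2 _ _ H hH x hx
    by_cases h : ∀ y ∈ orb H x, y ∈ fx K' Ω2
    · exact Or.inl h
    right
    push Not at h
    obtain ⟨y, hy, hy'⟩ := h
    have hm : ∀ z : sub H (orb H x) (inv_orb H x),
        z ∈ fx (K'.subgroupOf H) (sub H (orb H x) (inv_orb H x)) ↔ (z : Ω2) ∈ fx K' Ω2 := by
      intro z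
      rw [mem_fx, mem_fx]
      constructor
      · intro h k hk; exact congrArg Subtype.val (h ⟨k, hH hk⟩ hk)
      · intro h k hk; exact Subtype.ext (h k hk)
    have h1 := ih (orb H x).card (hn ▸ hx) H (sub H (orb H x) (inv_orb H x)) (K'.subgroupOf H)
      (by rw [← Nat.card_eq_fintype_card, card_sub]) (by
        intro a b
        obtain ⟨h, hh, hab⟩ := mem_orb.1 (show (b : Ω2) ∈ orb H (a : Ω2) by rw [orb_eq a.2]; exact b.2)
        exact ⟨⟨h, hh⟩, Subtype.ext hab⟩) (pron_sub hP' hH) ⟨⟨y, hy⟩, by rw [hm]; exact hy'⟩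
    have h2 : (fx (K'.subgroupOf H) (sub H (orb H x) (inv_orb H x))).card = cf K' H x := by
      unfold cf
      apply card_bij (fun (z : sub H (orb H x) (inv_orb H x)) _ => (z : Ω2))
      · intro z hz; exact mem_filter.2 ⟨z.2, (hm z).1 hz⟩
      · intro z _ z' _ h; exact Subtype.ext h
      · intro z hz
        exact ⟨⟨z, (mem_filter.1 hz).1⟩, (hm _).2 (mem_filter.1 hz).2, rfl⟩
    rwa [h2] at h1
  have hT1 : Tr G' Ω 1 := by
    intro A φ hA _
    rcases A.eq_empty_or_nonempty with rfl | ⟨a, ha⟩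
    · exact ⟨1, by simp⟩
    obtain ⟨g, hg⟩ := hT a (φ a)
    refine ⟨f g, fun x hx => ?_⟩
    rw [card_le_one.1 hA x hx a ha]; exact hg
  rw [← hfx] at hx0 ⊢
  by_contra hcon
  obtain ⟨h2, h3⟩ := lev1 hP' hQ hT1 hx0 (by omega)
  exact lev4 hP' (lev3 hP' hQ (lev2 hP' hQ h2 hx0 h3) hx0 h3) hx0 h3

end Cfsg.Agent.H8.Pr
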