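import Cfsg.Agent.H58.SWDefs
import Cfsg.Agent.H25.FinField
import Cfsg.Agent.S0755

/-! Project SW: the field-structure lemma in the unitary case. -/

set_option autoImplicit false
set_option linter.unusedVariables false
set_option linter.unusedSectionVars false
open Matrix Cfsg
open scoped commutatorElement

namespace Cfsg.Agent.H8.SwFisoU

open Cfsg.Agent.H58.SW

variable {F : Type} [Field F] [Fintype F] [DecidableEq F] {n : ℕ}

theorem core (c : Cl F n) (ka : KA c) (hu : c.u = true) (K : Type) [Field K] [Fintype K]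
    [DecidableEq K] [Algebra F K] (j : K →+* Mt n F)
    (hj : ∀ a : F, j (algebraMap F K a) = a • (1 : Mt n F)) (σ : K →+* K)
    (hσ : ∀ k, j (σ k) = c.st (j k)) (h1 : σ ≠ RingHom.id K) (h2 : ∀ k, σ (σ k) = k) :
    ∃ (s : ℕ) (Φ : Matrix (Fin s) (Fin s) K →+* Mt n F), n = s * Module.finrank F K ∧
      Function.Injective Φ ∧ (∀ x : Mt n F, (∀ k, Commute x (j k)) ↔ ∃ y, Φ y = x) ∧
      (∀ k : K, Φ (k • 1) = j k) ∧ ∀ y, Φ (y.map σ)ᵀ = c.st (Φ y) := by
  have hn := c.hn
  obtain ⟨i0⟩ : Nonempty (Fin n) := ⟨⟨0, by omega⟩⟩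
  let _ : Module K (Fin n → F) := Module.compHom _ j
  have sm : ∀ (k : K) (v : Fin n → F), k • v = j k *ᵥ v := fun _ _ => rfl
  have js : ∀ (a : F) (k : K), j (a • k) = a • j k := fun a k => by
    rw [Algebra.smul_def, map_mul, hj, smul_mul_assoc, one_mul]
  have : IsScalarTower F K (Fin n → F) := ⟨fun a k v => by rw [sm, sm, js, smul_mulVec]⟩
  have : Module.Finite K (Fin n → F) := Module.Finite.of_finite
  have : Module.Finite F K := Module.Finite.of_finite
  obtain ⟨lam, hlam⟩ : ∃ lam : K →ₗ[F] F, ∀ k, lam k = j k i0 i0 :=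
    ⟨⟨⟨fun k => j k i0 i0, fun a b => by rw [map_add]; rfl⟩, fun a k => congrFun (congrFun (js a k) i0) i0⟩,
      fun _ => rfl⟩
  have lσ : ∀ k, lam (σ k) = lam k ^ c.q := fun k => by rw [hlam, hlam, hσ]; rfl
  have inj : Function.Injective ((LinearMap.mul F K).compr₂ lam) :=
    (injective_iff_map_eq_zero _).2 fun a ha => by
      by_contra a0
      have := DFunLike.congr_fun ha a⁻¹
      simp [mul_inv_cancel₀ a0, hlam] at this
  have sur : Function.Surjective ((LinearMap.mul F K).compr₂ lam) :=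
    (LinearMap.injective_iff_surjective_of_finrank_eq_finrank Subspace.dual_finrank_eq.symm).1 inj
  have ext : ∀ a b : K, (∀ k, lam (a * k) = lam (b * k)) → a = b := fun a b e =>
    inj (LinearMap.ext e)
  have ex : ∀ v w : Fin n → F, ∃ a : K, ∀ k, lam (a * k) = c.hf (k • v) w := fun v w => by
    obtain ⟨a, ha⟩ := sur ⟨⟨fun k => c.hf (k • v) w, fun a b => by rw [add_smul, ka.hf_add]⟩,
      fun a k => by simp only [smul_assoc, ka.hf_smul, RingHom.id_apply, smul_eq_mul]⟩
    exact ⟨a, fun k => DFunLike.congr_fun ha k⟩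
  choose h hh using ex
  have hadd : ∀ v v' w, h (v + v') w = h v w + h v' w := fun v v' w => ext _ _ fun k => by
    rw [add_mul, map_add, hh, hh, hh, smul_add, ka.hf_add]
  have hsm : ∀ (a : K) v w, h (a • v) w = a * h v w := fun a v w => ext _ _ fun k => by
    rw [hh, mul_comm a, mul_assoc, hh, mul_comm a, mul_smul]
  have hsy : ∀ v w, σ (h v w) = h w v := fun v w => ext _ _ fun k => by
    rw [hh, ← h2 k, ← map_mul, lσ, hh, h2, ← ka.hf_symm hu, sm, sm, hσ, ka.hf_adj hu]
  have hf1 : ∀ v w, c.hf v w = lam (h v w) := fun v w => by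
    rw [← mul_one (h v w), hh, one_smul]
  obtain ⟨B, hB⟩ : ∃ B : (Fin n → F) →ₛₗ[σ] (Fin n → F) →ₗ[K] K, ∀ w v, B w v = h v w :=
    ⟨LinearMap.mk₂'ₛₗ σ (RingHom.id K) (fun w v => h v w)
      (fun w w' v => by rw [← hsy, hadd, map_add, hsy, hsy])
      (fun a w v => by rw [← hsy, hsm, map_mul, hsy, smul_eq_mul])
      (fun w v v' => hadd _ _ _) (fun a w v => hsm _ _ _), fun _ _ => rfl⟩
  have nd : ∀ w, (∀ v, h v w = 0) → w = 0 := fun w e => ka.hf_nd w fun v => by
    rw [hf1, e, map_zero]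
  obtain ⟨b, hb⟩ := S0755.result σ h1 h2 B ⟨fun x y => by rw [hB, hB, hsy]⟩
    ⟨fun x e => nd x fun v => by rw [← hB, e], fun y e => nd y fun v => by
      rw [← hsy, ← hB, e, map_zero]⟩
  obtain ⟨Ψ, hΨ⟩ : ∃ Ψ : Module.End K (Fin n → F) →+* Mt n F, ∀ f v, Ψ f *ᵥ v = f v := by
    have e : ∀ (f : Module.End K (Fin n → F)) v,
        LinearMap.toMatrix' (f.restrictScalars F) *ᵥ v = f v := fun f v => by
      rw [← Matrix.toLin'_apply, Matrix.toLin'_toMatrix']; rfl
    exact ⟨{ toFun := fun f => LinearMap.toMatrix' (f.restrictScalars F)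
             map_one' := ext_iff_mulVec.2 fun v => by simp
             map_mul' := fun f g => ext_iff_mulVec.2 fun v => by
               rw [← mulVec_mulVec, e, e, e]; rfl
             map_zero' := ext_iff_mulVec.2 fun v => by simp
             map_add' := fun f g => ext_iff_mulVec.2 fun v => by
               rw [add_mulVec, e, e, e]; rfl }, e⟩
  refine ⟨_, Ψ.comp (Matrix.toLinAlgEquiv b).toRingEquiv.toRingHom, ?_, ?_, fun x => ⟨fun hx => ?_, ?_⟩,
    fun k => ?_, fun y => ?_⟩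
  · rw [mul_comm, Module.finrank_mul_finrank, Module.finrank_fin_fun]
  · refine Function.Injective.comp (g := Ψ) (fun f g e => LinearMap.ext fun v => ?_)
      (Matrix.toLinAlgEquiv b).injective
    rw [← hΨ, ← hΨ, e]
  · obtain ⟨y, hy⟩ := (Matrix.toLinAlgEquiv b).surjective
      ⟨⟨fun v => x *ᵥ v, mulVec_add x⟩, fun k v => by
        simp only [sm, RingHom.id_apply, mulVec_mulVec, (hx k).eq]⟩
    refine ⟨y, ext_iff_mulVec.2 fun v => ?_⟩
    change Ψ (Matrix.toLinAlgEquiv b y) *ᵥ v = _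
    rw [hΨ, hy]
    rfl
  · rintro ⟨y, rfl⟩ k
    refine ext_iff_mulVec.2 fun v => ?_
    change (Ψ (Matrix.toLinAlgEquiv b y) * j k) *ᵥ v = (j k * Ψ (Matrix.toLinAlgEquiv b y)) *ᵥ v
    rw [← mulVec_mulVec, ← mulVec_mulVec, hΨ, hΨ, ← sm, ← sm, map_smul]
  · refine ext_iff_mulVec.2 fun v => ?_
    change Ψ (Matrix.toLinAlgEquiv b (k • 1)) *ᵥ v = _
    rw [hΨ, map_smul, map_one, ← sm]
    rfl
  · have key : B.compl₂ (Matrix.toLinAlgEquiv b y) =
        B.comp (Matrix.toLinAlgEquiv b (y.map σ)ᵀ) := b.ext fun i => b.ext fun l => by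
      simp [Matrix.toLinAlgEquiv_self, map_sum, hb, h2]
    refine ext_iff_mulVec.2 fun w => sub_eq_zero.1 (ka.hf_nd _ fun v => ?_)
    change c.hf v (Ψ (Matrix.toLinAlgEquiv b (y.map σ)ᵀ) *ᵥ w -
      c.st (Ψ (Matrix.toLinAlgEquiv b y)) *ᵥ w) = 0
    have e := DFunLike.congr_fun (DFunLike.congr_fun key w) v
    have e' : h (Matrix.toLinAlgEquiv b y v) w = h v (Matrix.toLinAlgEquiv b (y.map σ)ᵀ w) := by
      rw [← hB, ← hB]; exact e
    rw [← add_left_inj (c.hf v (c.st (Ψ (Matrix.toLinAlgEquiv b y)) *ᵥ w)), ← ka.hf_add' hu,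
      sub_add_cancel, zero_add, ← ka.hf_adj hu, hΨ, hΨ, hf1, hf1, e']

theorem fisoU (hKA : KAStmt) (hL : FisoLStmt) : FisoUStmt := by
  intro F _ _ _ n c hu A hA hab hfld
  have ka := hKA F n c
  have hq : Fintype.card F = c.q ^ 2 := by rw [c.hq, if_pos hu]
  obtain ⟨K, _, _, _, -, j, -, hp, hj, hK, -⟩ := hL F n
    ⟨false, c.q ^ 2, c.p, c.hp, c.chr, by simpa using hq, c.hn, fun h => by
      have := (c.hn2 h).1
      simp [hu] at this, by simp⟩ rfl A hab hfld
  have hn := c.hn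
  have : Nonempty (Fin n) := ⟨⟨0, by omega⟩⟩
  have ji : Function.Injective j := j.injective
  have mem : ∀ a ∈ A, (a : Mt n F) ∈ spanG A := fun a ha => Submodule.subset_span ⟨a, ha, rfl⟩
  have ex1 : ∀ a : F, ∃ k, j k = a • (1 : Mt n F) := fun a =>
    (hj _).1 (Submodule.smul_mem _ a (mem 1 A.one_mem))
  choose al hal using ex1
  let _ : Algebra F K := RingHom.toAlgebra
    { toFun := al
      map_one' := ji (by rw [hal, map_one, one_smul])
      map_mul' := fun a b => ji (by rw [map_mul, hal, hal, hal, smul_mul_assoc, one_mul, mul_smul])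
      map_zero' := ji (by rw [hal, map_zero, zero_smul])
      map_add' := fun a b => ji (by rw [map_add, hal, hal, hal, add_smul]) }
  have hal' : ∀ a : F, j (algebraMap F K a) = a • (1 : Mt n F) := hal
  have st0 : c.st 0 = 0 := by simpa using ka.st_sub hu 0 0
  have ex2 : ∀ k : K, ∃ k', j k' = c.st (j k) := fun k => by
    refine (hj _).1 (Submodule.span_induction (p := fun x _ => c.st x ∈ spanG A) ?_ ?_ ?_ ?_
      ((hj _).2 ⟨k, rfl⟩))
    · rintro _ ⟨a, ha, rfl⟩
      have e : c.st a = ((a⁻¹ : Gl n F) : Mt n F) :=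
        Units.eq_inv_of_mul_eq_one_right ((ka.mem_St a).1 (hA ha) hu)
      exact e ▸ mem _ (A.inv_mem ha)
    · rw [st0]; exact Submodule.zero_mem _
    · intro x y _ _ hx hy
      exact ka.st_add hu x y ▸ Submodule.add_mem _ hx hy
    · intro a x _ hx
      exact ka.st_smul a x ▸ Submodule.smul_mem _ _ hx
  choose s0 hs0 using ex2
  obtain ⟨σ, hσ⟩ : ∃ σ : K →+* K, ∀ k, j (σ k) = c.st (j k) :=
    ⟨{ toFun := s0
       map_one' := ji (by rw [hs0, map_one, ka.st_one])
       map_mul' := fun a b => ji (by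
         rw [hs0, map_mul, ka.st_mul hu, ← hs0, ← hs0, ← map_mul, mul_comm])
       map_zero' := ji (by rw [hs0, map_zero, st0])
       map_add' := fun a b => ji (by rw [hs0, map_add, ka.st_add hu, map_add, hs0, hs0]) }, hs0⟩
  have h2 : ∀ k, σ (σ k) = k := fun k => ji (by rw [hσ, hσ, ka.st_st hu])
  have σa : ∀ a : F, σ (algebraMap F K a) = algebraMap F K (a ^ c.q) := fun a =>
    ji (by rw [hσ, hal', hal', ka.st_smul, ka.st_one])
  obtain ⟨a, ha⟩ := ka.fr_ne hu
  have h1 : σ ≠ RingHom.id K := fun e => ha ((algebraMap F K).injective (by rw [← σa, e]; rfl))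
  have hd : Module.finrank F K = Module.finrank F (spanG A) :=
    Nat.pow_right_injective (Fintype.one_lt_card (α := F))
      ((Module.card_eq_pow_finrank (K := F) (V := K)).symm.trans hK)
  have pw : ∀ k, σ k = k ^ c.q ^ Module.finrank F (spanG A) :=
    H25.invol_eq_pow' (σ := RingEquiv.ofRingHom σ σ (RingHom.ext h2) (RingHom.ext h2))
      (fun e => h1 (RingHom.ext fun k => DFunLike.congr_fun e k)) h2
      (by rw [hK, hq, ← pow_mul, ← pow_mul, mul_comm])
  obtain ⟨s, Φ, e1, e2, e3, e4, e5⟩ := core c ka hu K j hal' σ hσ h1 h2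
  refine ⟨K, inferInstance, inferInstance, inferInstance, s, j, Φ, hp, hj, hK, hd ▸ e1, e2, fun x => Iff.trans ⟨fun hx k => ?_,
    fun hx a ha => ?_⟩ (e3 x), e4, fun _ => ⟨?_, fun y => ?_⟩⟩
  · refine Submodule.span_induction (p := fun y _ => Commute x y) ?_ ?_ ?_ ?_ ((hj _).2 ⟨k, rfl⟩)
    · rintro _ ⟨a, ha, rfl⟩
      exact hx a ha
    · exact Commute.zero_right x
    · intro y z _ _ hy hz
      exact hy.add_right hz
    · intro a y _ hy
      exact hy.smul_right a
  · obtain ⟨k, hk⟩ := (hj _).1 (mem a ha)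
    exact hk ▸ hx k
  · rw [← Nat.not_even_iff_odd]
    rintro ⟨m, hm⟩
    have e : ∀ m : ℕ, a ^ c.q ^ (m + m) = a := fun m => by
      induction m with
      | zero => simp
      | succ m ih => rw [show m + 1 + (m + 1) = m + m + 1 + 1 by ring, pow_succ, pow_succ, pow_mul,
          pow_mul, ih, ka.fr_fr hu]
    refine ha ((algebraMap F K).injective ?_)
    rw [← σa, pw, ← map_pow, hm, e]
  · rw [← e5, show (σ : K → K) = _ from funext pw]

end Cfsg.Agent.H8.SwFisoU
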